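import Cfsg.Agent.H62.Carmichael
import Cfsg.Agent.H64.StemBasic

/-! The multiplier of `A_n`, `n ≠ 6, 7`, has order at most two. -/

set_option autoImplicit false

namespace Cfsg.Agent.H17.AltStemBound

open Equiv Cfsg.Agent.H62

variable {k : ℕ}

theorem basePt_inj {i j : Fin k} (h : basePt k i = basePt k j) : i = j := by
  have := congrArg Fin.val h
  simp [basePt] at this
  exact Fin.ext this

theorem tau_conj (g : Perm (Fin (k + 2))) {i j : Fin k} (h0 : g 0 = 0) (h1 : g 1 = 1)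
    (hi : g (basePt k i) = basePt k j) : g * tau k i * g⁻¹ = tau k j := by
  unfold tau
  rw [conj_cyc3, h0, h1, hi]

theorem tau_conj_inv (g : Perm (Fin (k + 2))) {i j : Fin k} (h0 : g 0 = 1) (h1 : g 1 = 0)
    (hi : g (basePt k i) = basePt k j) : g * tau k i * g⁻¹ = (tau k j)⁻¹ := by
  unfold tau
  rw [conj_cyc3, h0, h1, hi, cyc3_inv (basePt_ne k j).1.symm (basePt_ne k j).2.symm]

/-- A point outside `0`, `1` and the point of `i`. -/
def Free (i : Fin k) (a : Fin (k + 2)) : Prop := a ≠ 0 ∧ a ≠ 1 ∧ a ≠ basePt k i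

/-- An element interchanging `0` and `1` and also `a` and `b`. -/
def inverter (a b : Fin (k + 2)) (hab : a ≠ b) : alternatingGroup (Fin (k + 2)) :=
  ⟨swap 0 1 * swap a b, by
    rw [Perm.mem_alternatingGroup, map_mul, Perm.sign_swap (zero_ne_one' k), Perm.sign_swap hab]
    decide⟩

theorem inverter_apply {i : Fin k} {a b : Fin (k + 2)} (hab : a ≠ b) (ha : Free i a) (hb : Free i b) :
    inverter a b hab * tauA k i * (inverter a b hab)⁻¹ = (tauA k i)⁻¹ := by
  refine Subtype.ext (tau_conj_inv (swap 0 1 * swap a b) (j := i) ?_ ?_ ?_)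
  · rw [Perm.mul_apply, swap_apply_of_ne_of_ne ha.1.symm hb.1.symm, swap_apply_left]
  · rw [Perm.mul_apply, swap_apply_of_ne_of_ne ha.2.1.symm hb.2.1.symm, swap_apply_right]
  · rw [Perm.mul_apply, swap_apply_of_ne_of_ne ha.2.2.symm hb.2.2.symm,
      swap_apply_of_ne_of_ne (basePt_ne k i).1.symm (basePt_ne k i).2.symm]

theorem swap_commute {α : Type*} [DecidableEq α] {a b c d : α} (h1 : a ≠ c) (h2 : a ≠ d) (h3 : b ≠ c)
    (h4 : b ≠ d) : Commute (swap a b) (swap c d) := by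
  refine Equiv.Perm.Disjoint.commute fun x => ?_
  by_cases hx : x = a ∨ x = b
  · right
    rcases hx with rfl | rfl
    · exact swap_apply_of_ne_of_ne h1 h2
    · exact swap_apply_of_ne_of_ne h3 h4
  · left
    push Not at hx
    exact swap_apply_of_ne_of_ne hx.1 hx.2

/-- Some element of `A_n` interchanges two of the generators up to inversion. -/
theorem exists_flip {i j : Fin k} (h : i ≠ j) : ∃ g : alternatingGroup (Fin (k + 2)),
    g * tauA k i * g⁻¹ = (tauA k j)⁻¹ ∧ g * tauA k j * g⁻¹ = (tauA k i)⁻¹ ∧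
      g.1 0 = 1 ∧ g.1 1 = 0 ∧ g.1 (basePt k i) = basePt k j ∧ g.1 (basePt k j) = basePt k i := by
  have hne : basePt k i ≠ basePt k j := fun e => h (basePt_inj e)
  set g : Perm (Fin (k + 2)) := swap 0 1 * swap (basePt k i) (basePt k j) with hg
  have g0 : g 0 = 1 := by
    rw [hg, Perm.mul_apply, swap_apply_of_ne_of_ne (basePt_ne k i).1 (basePt_ne k j).1, swap_apply_left]
  have g1 : g 1 = 0 := by
    rw [hg, Perm.mul_apply, swap_apply_of_ne_of_ne (basePt_ne k i).2 (basePt_ne k j).2, swap_apply_right]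
  have gi : g (basePt k i) = basePt k j := by
    rw [hg, Perm.mul_apply, swap_apply_left,
      swap_apply_of_ne_of_ne (basePt_ne k j).1.symm (basePt_ne k j).2.symm]
  have gj : g (basePt k j) = basePt k i := by
    rw [hg, Perm.mul_apply, swap_apply_right,
      swap_apply_of_ne_of_ne (basePt_ne k i).1.symm (basePt_ne k i).2.symm]
  exact ⟨inverter _ _ hne, Subtype.ext (tau_conj_inv g g0 g1 gi), Subtype.ext (tau_conj_inv g g0 g1 gj),
    g0, g1, gi, gj⟩

/-- Unordered pairs of generators are permuted transitively. -/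
theorem exists_pair_map {i j i' j' : Fin k} (h : i ≠ j) (h' : i' ≠ j') :
    ∃ g : alternatingGroup (Fin (k + 2)),
      (g * tauA k i * g⁻¹ = tauA k i' ∧ g * tauA k j * g⁻¹ = tauA k j') ∨
      (g * tauA k i * g⁻¹ = tauA k j' ∧ g * tauA k j * g⁻¹ = tauA k i') := by
  set bi := basePt k i
  set bj := basePt k j
  set bi' := basePt k i'
  set bj' := basePt k j'
  have hne : bi ≠ bj := fun e => h (basePt_inj e)
  have hne' : bi' ≠ bj' := fun e => h' (basePt_inj e)
  set p := swap bi bi'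
  set π : Perm (Fin (k + 2)) := swap (p bj) bj' * p
  have fixp : ∀ x, x ≠ bi → x ≠ bi' → p x = x := fun x a b => swap_apply_of_ne_of_ne a b
  have p0 : p 0 = 0 := fixp 0 (basePt_ne k i).1 (basePt_ne k i').1
  have p1 : p 1 = 1 := fixp 1 (basePt_ne k i).2 (basePt_ne k i').2
  have hp0 : (0 : Fin (k + 2)) ≠ p bj := fun e => (basePt_ne k j).1 (p.injective (p0.trans e))
  have hp1 : (1 : Fin (k + 2)) ≠ p bj := fun e => (basePt_ne k j).2 (p.injective (p1.trans e))
  have π0 : π 0 = 0 := by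
    rw [Perm.mul_apply, p0, swap_apply_of_ne_of_ne hp0 (basePt_ne k j').1]
  have π1 : π 1 = 1 := by
    rw [Perm.mul_apply, p1, swap_apply_of_ne_of_ne hp1 (basePt_ne k j').2]
  have hpi : p bi = bi' := swap_apply_left _ _
  have πi : π bi = bi' := by
    rw [Perm.mul_apply, hpi, swap_apply_of_ne_of_ne (fun e => hne (p.injective (hpi.trans e))) hne']
  have πj : π bj = bj' := by rw [Perm.mul_apply, swap_apply_left]
  rcases Int.units_eq_one_or (Perm.sign π) with hs | hs
  · exact ⟨⟨π, Perm.mem_alternatingGroup.2 hs⟩, Or.inl ⟨Subtype.ext (tau_conj π π0 π1 πi),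
      Subtype.ext (tau_conj π π0 π1 πj)⟩⟩
  · set ρ := swap bi' bj' * π with hρ
    have hsρ : Perm.sign ρ = 1 := by rw [hρ, map_mul, hs, Perm.sign_swap hne']; decide
    refine ⟨⟨ρ, Perm.mem_alternatingGroup.2 hsρ⟩, Or.inr ⟨Subtype.ext (tau_conj ρ ?_ ?_ ?_),
      Subtype.ext (tau_conj ρ ?_ ?_ ?_)⟩⟩
    any_goals rw [hρ, Perm.mul_apply, π0, swap_apply_of_ne_of_ne (basePt_ne k i').1 (basePt_ne k j').1]
    any_goals rw [hρ, Perm.mul_apply, π1, swap_apply_of_ne_of_ne (basePt_ne k i').2 (basePt_ne k j').2]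
    · rw [hρ, Perm.mul_apply, πi, swap_apply_left]
    · rw [hρ, Perm.mul_apply, πj, swap_apply_right]

variable {Γ : Type*} [Group Γ] [Finite Γ] {σ : Γ →* alternatingGroup (Fin (k + 2))}
  (hσ : Cfsg.IsStemExtension σ)
include hσ

omit [Finite Γ] in
theorem ker_comm {z : Γ} (hz : z ∈ σ.ker) (g : Γ) : Commute g z :=
  Subgroup.mem_center_iff.1 (hσ.2.1 hz) g

omit [Finite Γ] in
theorem exists_ker {a b : Γ} (h : σ a = σ b) : ∃ u ∈ σ.ker, b = a * u :=
  ⟨a⁻¹ * b, by rw [MonoidHom.mem_ker, map_mul, map_inv, h, inv_mul_cancel], by group⟩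

omit [Finite Γ] in
theorem closure_eq_top {x : Fin k → Γ} (hx : ∀ i, σ (x i) = tauA k i) :
    Subgroup.closure (Set.range x) = ⊤ := by
  set H := Subgroup.closure (Set.range x) with hH
  have hmap : H.map σ = ⊤ := by
    rw [hH, MonoidHom.map_closure, eq_top_iff, ← closure_tau]
    refine Subgroup.closure_mono ?_
    rintro _ ⟨i, rfl⟩
    exact ⟨x i, ⟨i, rfl⟩, hx i⟩
  have hdec : ∀ g : Γ, ∃ h ∈ H, ∃ u ∈ σ.ker, g = h * u := by
    intro g
    obtain ⟨h, hh, he⟩ : σ g ∈ H.map σ := hmap ▸ Subgroup.mem_top _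
    obtain ⟨u, hu, rfl⟩ := exists_ker hσ he
    exact ⟨h, hh, u, hu, rfl⟩
  have hle : commutator Γ ≤ H := by
    rw [commutator_def, Subgroup.commutator_le]
    intro a _ b _
    obtain ⟨p, hp, u, hu, rfl⟩ := hdec a
    obtain ⟨q, hq, v, hv, rfl⟩ := hdec b
    rw [commutatorElement_def, show p * u * (q * v) * (p * u)⁻¹ * (q * v)⁻¹ = p * q * p⁻¹ * q⁻¹ by
      rw [mul_assoc p u, ← mul_assoc u q v, ← (ker_comm hσ hu q).eq, mul_inv_rev, mul_inv_rev,
        mul_assoc q u v, ← (ker_comm hσ hu v).eq]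
      calc p * (q * (v * u)) * (u⁻¹ * p⁻¹) * (v⁻¹ * q⁻¹) = p * q * (v * p⁻¹) * v⁻¹ * q⁻¹ := by group
        _ = p * q * p⁻¹ * q⁻¹ := by rw [← (ker_comm hσ hv p⁻¹).eq]; group]
    exact mul_mem (mul_mem (mul_mem hp hq) (inv_mem hp)) (inv_mem hq)
  rw [eq_top_iff]
  intro g _
  obtain ⟨h, hh, u, hu, rfl⟩ := hdec g
  exact mul_mem hh (hle (hσ.2.2 hu))

/-- The kernel is generated by the values of Carmichael's relators. -/
theorem ker_le {x : Fin k → Γ} (hx : ∀ i, σ (x i) = tauA k i) (C : Subgroup Γ) (hC : C ≤ σ.ker)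
    (h3 : ∀ i, x i ^ 3 ∈ C) (h2 : ∀ i j, i ≠ j → (x i * x j) ^ 2 ∈ C) : σ.ker ≤ C := by
  haveI : C.Normal := ⟨fun n hn g => by
    rw [(ker_comm hσ (hC hn) g).eq, mul_inv_cancel_right]
    exact hn⟩
  let π := QuotientGroup.mk' C
  obtain ⟨Ψ, hΨ⟩ := exists_alt_hom (fun i => π (x i))
    (fun i => by rw [← map_pow]; exact (QuotientGroup.eq_one_iff _).2 (h3 i))
    (fun i j hij => by rw [← map_mul, ← map_pow]; exact (QuotientGroup.eq_one_iff _).2 (h2 i j hij))
  have hsurj : Function.Surjective Ψ := by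
    rw [← MonoidHom.range_eq_top, eq_top_iff,
      ← Subgroup.map_top_of_surjective π (QuotientGroup.mk'_surjective _), ← closure_eq_top hσ hx,
      MonoidHom.map_closure, Subgroup.closure_le]
    rintro _ ⟨_, ⟨i, rfl⟩, rfl⟩
    exact ⟨tauA k i, hΨ i⟩
  have hcard := Nat.card_le_card_of_surjective Ψ hsurj
  rw [← Nat.card_congr (QuotientGroup.quotientKerEquivOfSurjective σ hσ.1).toEquiv] at hcard
  have e1 := Subgroup.card_eq_card_quotient_mul_card_subgroup σ.ker
  have e2 := Subgroup.card_eq_card_quotient_mul_card_subgroup C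
  refine (Subgroup.eq_of_le_of_card_ge hC ?_).ge
  refine Nat.le_of_mul_le_mul_left ?_ (Nat.card_pos (α := Γ ⧸ σ.ker))
  rw [← e1, e2]
  exact Nat.mul_le_mul_right _ hcard

/-- Without elements of order three in the kernel, it has order at most two. -/
theorem card_le_two_of_three (hk : 2 ≤ k) (h3 : ¬ 3 ∣ Nat.card σ.ker) : Nat.card σ.ker ≤ 2 := by
  have hcop : (Nat.card σ.ker).Coprime 3 := (Nat.prime_three.coprime_iff_not_dvd.2 h3).symm
  have huniq : ∀ a b : Γ, σ a = σ b → a ^ 3 = 1 → b ^ 3 = 1 → a = b := by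
    intro a b h ha hb
    obtain ⟨u, hu, rfl⟩ := exists_ker hσ h
    rw [(ker_comm hσ hu a).mul_pow, ha, one_mul] at hb
    have := (powCoprime hcop).injective
      (show powCoprime hcop (⟨u, hu⟩ : σ.ker) = powCoprime hcop 1 from Subtype.ext (by
        show u ^ 3 = (1 : Γ) ^ 3
        rw [hb, one_pow]))
    rw [show u = 1 from congrArg Subtype.val this, mul_one]
  have hroot : ∀ i, ∃ a : Γ, σ a = tauA k i ∧ a ^ 3 = 1 := by
    intro i
    obtain ⟨y, hy⟩ := hσ.1 (tauA k i)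
    have hy3 : y ^ 3 ∈ σ.ker := by rw [MonoidHom.mem_ker, map_pow, hy, (tau_relations k).1]
    obtain ⟨⟨v, hv⟩, hv3⟩ := (powCoprime hcop).surjective (⟨y ^ 3, hy3⟩⁻¹ : σ.ker)
    refine ⟨y * v, by rw [map_mul, MonoidHom.mem_ker.1 hv, mul_one, hy], ?_⟩
    have hv' : v ^ 3 = (y ^ 3)⁻¹ := congrArg Subtype.val hv3
    rw [(ker_comm hσ hv y).mul_pow, hv', mul_inv_cancel]
  choose x hx hx3 using hroot
  have hconj : ∀ {a b : Γ} (g : Γ), a ^ 3 = 1 → b ^ 3 = 1 → σ (g * a * g⁻¹) = σ b → g * a * g⁻¹ = b :=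
    fun g ha hb h => huniq _ _ h (by rw [conj_pow, ha, mul_one, mul_inv_cancel]) hb
  have hmem : ∀ i j, i ≠ j → (x i * x j) ^ 2 ∈ σ.ker := fun i j h => by
    rw [MonoidHom.mem_ker, map_pow, map_mul, hx, hx, (tau_relations k).2 i j h]
  have hsymm : ∀ i j, i ≠ j → (x j * x i) ^ 2 = (x i * x j) ^ 2 := fun i j h => by
    calc (x j * x i) ^ 2 = x j * (x i * x j) ^ 2 * (x j)⁻¹ := by simp only [pow_two]; group
      _ = (x i * x j) ^ 2 := by rw [(ker_comm hσ (hmem i j h) (x j)).eq, mul_inv_cancel_right]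
  obtain ⟨i₀, j₀, hij⟩ : ∃ i j : Fin k, i ≠ j :=
    ⟨⟨0, by omega⟩, ⟨1, by omega⟩, by simp [Fin.ext_iff]⟩
  have hc : ∀ i j, i ≠ j → (x i * x j) ^ 2 = (x i₀ * x j₀) ^ 2 := by
    intro i j h
    obtain ⟨G, hG⟩ := exists_pair_map hij h
    obtain ⟨g, rfl⟩ := hσ.1 G
    have e : ∀ a b, σ g * tauA k a * (σ g)⁻¹ = tauA k b → g * x a * g⁻¹ = x b := fun a b hab =>
      hconj g (hx3 a) (hx3 b) (by rw [map_mul, map_mul, map_inv, hx, hx, hab])
    have hg : (x i₀ * x j₀) ^ 2 = (g * x i₀ * g⁻¹ * (g * x j₀ * g⁻¹)) ^ 2 := by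
      calc (x i₀ * x j₀) ^ 2 = g * (x i₀ * x j₀) ^ 2 * g⁻¹ := by
            rw [(ker_comm hσ (hmem _ _ hij) g).eq, mul_inv_cancel_right]
        _ = _ := by rw [← conj_pow]; congr 1; group
    rcases hG with ⟨h1, h2⟩ | ⟨h1, h2⟩ <;> rw [hg, e _ _ h1, e _ _ h2]
    exact (hsymm i j h).symm
  have hsq : (x i₀ * x j₀) ^ 2 * (x i₀ * x j₀) ^ 2 = 1 := by
    obtain ⟨G, h1, h2, -⟩ := exists_flip hij
    obtain ⟨g, rfl⟩ := hσ.1 G
    have e1 : g * x i₀ * g⁻¹ = (x j₀)⁻¹ := hconj g (hx3 _) (by rw [inv_pow, hx3, inv_one])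
      (by rw [map_mul, map_mul, map_inv, map_inv, hx, hx, h1])
    have e2 : g * x j₀ * g⁻¹ = (x i₀)⁻¹ := hconj g (hx3 _) (by rw [inv_pow, hx3, inv_one])
      (by rw [map_mul, map_mul, map_inv, map_inv, hx, hx, h2])
    have hg : (x i₀ * x j₀) ^ 2 = ((x i₀ * x j₀) ^ 2)⁻¹ := by
      calc (x i₀ * x j₀) ^ 2 = g * (x i₀ * x j₀) ^ 2 * g⁻¹ := by
            rw [(ker_comm hσ (hmem _ _ hij) g).eq, mul_inv_cancel_right]
        _ = (g * x i₀ * g⁻¹ * (g * x j₀ * g⁻¹)) ^ 2 := by rw [← conj_pow]; congr 1; group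
        _ = _ := by rw [e1, e2]; simp only [pow_two]; group
    nth_rewrite 2 [hg]
    rw [mul_inv_cancel]
  have hle := ker_le hσ hx (Subgroup.zpowers ((x i₀ * x j₀) ^ 2))
    (Subgroup.zpowers_le.2 (hmem _ _ hij)) (fun i => by rw [hx3]; exact one_mem _)
    (fun i j h => by rw [hc i j h]; exact Subgroup.mem_zpowers _)
  refine (Nat.le_of_dvd (Nat.card_pos) (Subgroup.card_dvd_of_le hle)).trans ?_
  rw [Nat.card_zpowers]
  exact Nat.le_of_dvd (by norm_num) (orderOf_dvd_of_pow_eq_one (by rw [pow_two]; exact hsq))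

/-- For `n ≥ 8` a kernel of odd order is trivial. -/
theorem ker_eq_bot_of_odd (hk : 6 ≤ k) (h2 : ¬ 2 ∣ Nat.card σ.ker) : σ.ker = ⊥ := by
  have hcop : (Nat.card σ.ker).Coprime 2 := (Nat.prime_two.coprime_iff_not_dvd.2 h2).symm
  have hodd : ∀ u ∈ σ.ker, u * u = 1 → u = 1 := fun u hu h => by
    have := (powCoprime hcop).injective
      (show powCoprime hcop (⟨u, hu⟩ : σ.ker) = powCoprime hcop 1 from Subtype.ext (by
        show u ^ 2 = (1 : Γ) ^ 2
        rw [pow_two, h, one_pow]))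
    exact congrArg Subtype.val this
  -- a lift inverted by one inverter is inverted by all
  have step : ∀ (i : Fin k) (y : Γ), σ y = tauA k i → ∀ a b c d : Fin (k + 2), ∀ hab : a ≠ b,
      ∀ hcd : c ≠ d, Free i a → Free i b → Free i c → Free i d → a ≠ c → a ≠ d → b ≠ c → b ≠ d →
      ∀ s, σ s = inverter a b hab → s * y * s⁻¹ = y⁻¹ → ∀ s', σ s' = inverter c d hcd →
      s' * y * s'⁻¹ = y⁻¹ := by
    intro i y hy a b c d hab hcd ha hb hc hd hac had hbc hbd s hs hinv s' hs'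
    set e := s⁻¹ * s' with he
    have hse : s' = s * e := by rw [he]; group
    have hinvs : ∀ p q : Fin (k + 2), ∀ h : p ≠ q, Free i p → Free i q →
        (inverter p q h)⁻¹ = inverter p q h := fun p q h hp hq => by
      refine Subtype.ext (inv_eq_of_mul_eq_one_right (?_ : (swap 0 1 * swap p q) * (swap 0 1 * swap p q) = 1))
      rw [(swap_commute hp.1.symm hq.1.symm hp.2.1.symm hq.2.1.symm).symm.mul_mul_mul_comm,
        swap_mul_self, swap_mul_self, one_mul]
    have hσe : σ e = inverter a b hab * inverter c d hcd := by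
      rw [he, map_mul, map_inv, hs, hs', hinvs a b hab ha hb]
    have hcomm : Commute (inverter a b hab) (inverter c d hcd) := by
      refine Subtype.ext ?_
      show (swap 0 1 * swap a b) * (swap 0 1 * swap c d) = (swap 0 1 * swap c d) * (swap 0 1 * swap a b)
      exact ((Commute.refl _).mul_right (swap_commute hc.1.symm hd.1.symm hc.2.1.symm hd.2.1.symm)).mul_left
        ((swap_commute ha.1 ha.2.1 hb.1 hb.2.1).mul_right (swap_commute hac had hbc hbd))
    have hee : e * e ∈ σ.ker := by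
      rw [MonoidHom.mem_ker, map_mul, hσe]
      calc inverter a b hab * inverter c d hcd * (inverter a b hab * inverter c d hcd)
          = inverter a b hab * inverter c d hcd * ((inverter c d hcd)⁻¹ * (inverter a b hab)⁻¹) := by
            rw [hinvs a b hab ha hb, hinvs c d hcd hc hd, hcomm.eq]
        _ = 1 := by group
    have hey : σ (e * y * e⁻¹) = σ y := by
      have h1 := inverter_apply hab ha hb
      have h2 := inverter_apply hcd hc hd
      rw [map_mul, map_mul, map_inv, hy, hσe, mul_inv_rev]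
      calc inverter a b hab * inverter c d hcd * tauA k i * ((inverter c d hcd)⁻¹ * (inverter a b hab)⁻¹)
          = inverter a b hab * (inverter c d hcd * tauA k i * (inverter c d hcd)⁻¹) * (inverter a b hab)⁻¹ := by group
        _ = (inverter a b hab * tauA k i * (inverter a b hab)⁻¹)⁻¹ := by rw [h2]; group
        _ = tauA k i := by rw [h1, inv_inv]
    obtain ⟨u, hu, hu'⟩ := exists_ker hσ hey.symm
    have hyy : y = y * (u * u) := by
      calc y = e * e * y * (e * e)⁻¹ := by rw [← (ker_comm hσ hee y).eq, mul_inv_cancel_right]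
        _ = e * (e * y * e⁻¹) * e⁻¹ := by group
        _ = e * (y * u) * e⁻¹ := by rw [hu']
        _ = e * y * e⁻¹ * (e * u * e⁻¹) := by group
        _ = y * u * u := by rw [hu', (ker_comm hσ hu e).eq, mul_inv_cancel_right]
        _ = y * (u * u) := mul_assoc _ _ _
    rw [hodd u hu (left_eq_mul.1 hyy), mul_one] at hu'
    calc s' * y * s'⁻¹ = s * (e * y * e⁻¹) * s⁻¹ := by rw [hse]; group
      _ = y⁻¹ := by rw [hu', hinv]
  have hfree : ∀ (i : Fin k) (T : Finset (Fin (k + 2))), T.card ≤ 3 →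
      ∃ c d, c ≠ d ∧ Free i c ∧ Free i d ∧ c ∉ T ∧ d ∉ T := by
    intro i T hT
    have : 1 < ((Finset.univ : Finset (Fin (k + 2))) \ ({0, 1, basePt k i} ∪ T)).card := by
      have h1 := Finset.le_card_sdiff ({0, 1, basePt k i} ∪ T) (Finset.univ : Finset (Fin (k + 2)))
      have h2 := Finset.card_union_le ({0, 1, basePt k i} : Finset (Fin (k + 2))) T
      have h3 := Finset.card_le_three (a := (0 : Fin (k + 2))) (b := 1) (c := basePt k i)
      rw [Finset.card_univ, Fintype.card_fin] at h1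
      omega
    obtain ⟨c, hc, d, hd, hcd⟩ := Finset.one_lt_card.1 this
    simp only [Finset.mem_sdiff, Finset.mem_univ, Finset.mem_union, Finset.mem_insert,
      Finset.mem_singleton, true_and, not_or] at hc hd
    exact ⟨c, d, hcd, hc.1, hd.1, hc.2, hd.2⟩
  have hsqrt : ∀ w ∈ σ.ker, ∃ v ∈ σ.ker, v * v = w := fun w hw => by
    obtain ⟨⟨v, hv⟩, hv2⟩ := (powCoprime hcop).surjective (⟨w, hw⟩ : σ.ker)
    exact ⟨v, hv, (pow_two v).symm.trans (congrArg Subtype.val hv2)⟩
  have hlift : ∀ i : Fin k, ∃ y : Γ, σ y = tauA k i ∧ y ^ 3 = 1 ∧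
      ∀ a b, ∀ hab : a ≠ b, Free i a → Free i b → ∀ s, σ s = inverter a b hab → s * y * s⁻¹ = y⁻¹ := by
    intro i
    obtain ⟨a, b, hab, ha, hb, -⟩ := hfree i ∅ (by simp)
    obtain ⟨s, hs⟩ := hσ.1 (inverter a b hab)
    obtain ⟨y₀, hy₀⟩ := hσ.1 (tauA k i)
    have h1 : σ y₀⁻¹ = σ (s * y₀ * s⁻¹) := by
      rw [map_mul, map_mul, map_inv, map_inv, hy₀, hs, inverter_apply hab ha hb]
    obtain ⟨w, hw, hw'⟩ := exists_ker hσ h1
    obtain ⟨v, hv, hvv⟩ := hsqrt w⁻¹ (inv_mem hw)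
    have hy : σ (y₀ * v) = tauA k i := by rw [map_mul, MonoidHom.mem_ker.1 hv, mul_one, hy₀]
    have hinv : s * (y₀ * v) * s⁻¹ = (y₀ * v)⁻¹ := by
      calc s * (y₀ * v) * s⁻¹ = s * y₀ * s⁻¹ * (s * v * s⁻¹) := by group
        _ = y₀⁻¹ * w * v := by rw [hw', (ker_comm hσ hv s).eq, mul_inv_cancel_right]
        _ = y₀⁻¹ * v⁻¹ := by
            rw [mul_assoc, show w = (v * v)⁻¹ by rw [hvv, inv_inv]]
            simp
        _ = (y₀ * v)⁻¹ := by rw [(ker_comm hσ hv y₀).eq, mul_inv_rev]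
    have hall : ∀ c d, ∀ hcd : c ≠ d, Free i c → Free i d → ∀ s', σ s' = inverter c d hcd →
        s' * (y₀ * v) * s'⁻¹ = (y₀ * v)⁻¹ := by
      intro c d hcd hc hd s' hs'
      by_cases hdis : a ≠ c ∧ a ≠ d ∧ b ≠ c ∧ b ≠ d
      · exact step i _ hy a b c d hab hcd ha hb hc hd hdis.1 hdis.2.1 hdis.2.2.1 hdis.2.2.2 s hs hinv s' hs'
      · have hT : ({a, b, c, d} : Finset (Fin (k + 2))).card ≤ 3 := by
          simp only [ne_eq, not_and_or, not_not] at hdis
          rcases hdis with rfl | rfl | rfl | rfl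
          · exact le_of_eq_of_le (by congr 1; ext x; simp <;> tauto) (Finset.card_le_three (a := a) (b := b) (c := d))
          · exact le_of_eq_of_le (by congr 1; ext x; simp <;> tauto) (Finset.card_le_three (a := a) (b := b) (c := c))
          · exact le_of_eq_of_le (by congr 1; ext x; simp <;> tauto) (Finset.card_le_three (a := a) (b := b) (c := d))
          · exact le_of_eq_of_le (by congr 1; ext x; simp <;> tauto) (Finset.card_le_three (a := a) (b := b) (c := c))
        obtain ⟨p, q, hpq, hp, hq, hpT, hqT⟩ := hfree i _ hT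
        simp only [Finset.mem_insert, Finset.mem_singleton, not_or] at hpT hqT
        obtain ⟨t, ht⟩ := hσ.1 (inverter p q hpq)
        exact step i _ hy p q c d hpq hcd hp hq hc hd hpT.2.2.1 hpT.2.2.2 hqT.2.2.1 hqT.2.2.2 t ht
          (step i _ hy a b p q hab hpq ha hb hp hq (Ne.symm hpT.1) (Ne.symm hqT.1) (Ne.symm hpT.2.1)
            (Ne.symm hqT.2.1) s hs hinv t ht) s' hs'
    refine ⟨_, hy, ?_, hall⟩
    have hcube : (y₀ * v) ^ 3 ∈ σ.ker := by rw [MonoidHom.mem_ker, map_pow, hy, (tau_relations k).1]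
    refine hodd _ hcube ?_
    have h3 : ((y₀ * v) ^ 3)⁻¹ = (y₀ * v) ^ 3 := by
      calc ((y₀ * v) ^ 3)⁻¹ = (s * (y₀ * v) * s⁻¹) ^ 3 := by rw [hinv, inv_pow]
        _ = s * (y₀ * v) ^ 3 * s⁻¹ := conj_pow
        _ = _ := by rw [(ker_comm hσ hcube s).eq, mul_inv_cancel_right]
    nth_rewrite 1 [← h3]
    rw [inv_mul_cancel]
  choose x hx hx3 hxi using hlift
  have hflip : ∀ i j, ∀ g : Γ, σ g * tauA k i * (σ g)⁻¹ = (tauA k j)⁻¹ → (σ g).1 0 = 1 →
      (σ g).1 1 = 0 → (σ g).1 (basePt k i) = basePt k j → g * x i * g⁻¹ = (x j)⁻¹ := by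
    intro i j g hg g0 g1 gi
    obtain ⟨a, b, hab, ha, hb, -⟩ := hfree i ∅ (by simp)
    obtain ⟨s, hs⟩ := hσ.1 (inverter a b hab)
    set G := (σ g).1
    have hf : ∀ p, Free i p → Free j (G p) := fun p hp =>
      ⟨fun e => hp.2.1 (G.injective (e.trans g1.symm)), fun e => hp.1 (G.injective (e.trans g0.symm)),
        fun e => hp.2.2 (G.injective (e.trans gi.symm))⟩
    have hσs : σ (g * s * g⁻¹) = inverter (G a) (G b) (fun e => hab (G.injective e)) := by
      rw [map_mul, map_mul, map_inv, hs]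
      refine Subtype.ext ?_
      show G * (swap 0 1 * swap a b) * G⁻¹ = swap 0 1 * swap (G a) (G b)
      rw [show G * (swap 0 1 * swap a b) * G⁻¹ = (G * swap 0 1 * G⁻¹) * (G * swap a b * G⁻¹) by group,
        ← swap_apply_apply, ← swap_apply_apply, g0, g1, swap_comm 1 0]
    have hj : g * s * g⁻¹ * x j * (g * s * g⁻¹)⁻¹ = (x j)⁻¹ :=
      hxi j _ _ _ (hf a ha) (hf b hb) _ hσs
    have hi : g * s * g⁻¹ * (g * x i * g⁻¹) * (g * s * g⁻¹)⁻¹ = (g * x i * g⁻¹)⁻¹ := by
      calc _ = g * (s * x i * s⁻¹) * g⁻¹ := by group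
        _ = _ := by rw [hxi i a b hab ha hb s hs]; group
    have hlift : σ (x j)⁻¹ = σ (g * x i * g⁻¹) := by rw [map_mul, map_mul, map_inv, map_inv, hx, hx, hg]
    obtain ⟨u, hu, hu'⟩ := exists_ker hσ hlift
    rw [hu'] at hi ⊢
    set S := g * s * g⁻¹
    have h5 : S * ((x j)⁻¹ * u) * S⁻¹ = x j * u := by
      calc S * ((x j)⁻¹ * u) * S⁻¹ = (S * x j * S⁻¹)⁻¹ * (S * u * S⁻¹) := by group
        _ = x j * u := by rw [hj, inv_inv, (ker_comm hσ hu S).eq, mul_inv_cancel_right]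
    rw [h5, mul_inv_rev, inv_inv, ← (ker_comm hσ (inv_mem hu) (x j)).eq] at hi
    rw [hodd u hu (mul_eq_one_iff_eq_inv.2 (mul_left_cancel hi)), mul_one]
  refine eq_bot_iff.2 (ker_le hσ hx ⊥ bot_le (fun i => by rw [hx3]; exact one_mem _) fun i j hij => ?_)
  obtain ⟨G, h1, h2, g0, g1, gi, gj⟩ := exists_flip hij
  obtain ⟨g, rfl⟩ := hσ.1 G
  have hmem : (x i * x j) ^ 2 ∈ σ.ker := by
    rw [MonoidHom.mem_ker, map_pow, map_mul, hx, hx, (tau_relations k).2 i j hij]
  rw [Subgroup.mem_bot]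
  refine hodd _ hmem ?_
  have hg : (x i * x j) ^ 2 = ((x i * x j) ^ 2)⁻¹ := by
    calc (x i * x j) ^ 2 = g * (x i * x j) ^ 2 * g⁻¹ := by
          rw [(ker_comm hσ hmem g).eq, mul_inv_cancel_right]
      _ = (g * x i * g⁻¹ * (g * x j * g⁻¹)) ^ 2 := by rw [← conj_pow]; congr 1; group
      _ = _ := by rw [hflip i j g h1 g0 g1 gi, hflip j i g h2 g0 g1 gj]; simp only [pow_two]; group
  nth_rewrite 1 [hg]
  rw [inv_mul_cancel]

omit [Finite Γ] in
/-- Passing to a quotient of a stem extension. -/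
theorem quotient_stem (T : Subgroup Γ) [T.Normal] (hT : T ≤ σ.ker) :
    Cfsg.IsStemExtension (QuotientGroup.lift T σ hT) ∧
      (QuotientGroup.lift T σ hT).ker = σ.ker.map (QuotientGroup.mk' T) := by
  have hker : (QuotientGroup.lift T σ hT).ker = σ.ker.map (QuotientGroup.mk' T) := by
    ext q
    obtain ⟨g, rfl⟩ := QuotientGroup.mk'_surjective T q
    constructor
    · exact fun h => ⟨g, h, rfl⟩
    · rintro ⟨u, hu, hu'⟩
      rw [← hu', MonoidHom.mem_ker]
      exact hu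
  refine ⟨⟨QuotientGroup.lift_surjective_of_surjective T σ hσ.1 hT, ?_, ?_⟩, hker⟩
  · rw [hker]
    rintro _ ⟨u, hu, rfl⟩
    rw [Subgroup.mem_center_iff]
    intro q
    obtain ⟨g, rfl⟩ := QuotientGroup.mk'_surjective T q
    rw [← map_mul, ← map_mul, (ker_comm hσ hu g).eq]
  · rw [hker]
    refine (Subgroup.map_mono hσ.2.2).trans ?_
    rw [commutator_def, Subgroup.map_commutator]
    exact Subgroup.commutator_mono le_top le_top

/-- For `n ≥ 4` other than 6, 7 the multiplier has order at most two. -/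
theorem card_ker_le_two (hk : 2 ≤ k) (h4 : k ≠ 4) (h5 : k ≠ 5) : Nat.card σ.ker ≤ 2 := by
  refine card_le_two_of_three hσ hk ?_
  haveI : Fact (Nat.Prime 3) := ⟨Nat.prime_three⟩
  haveI : Fact (Nat.Prime 2) := ⟨Nat.prime_two⟩
  by_cases hk6 : 6 ≤ k
  · intro hdvd
    set a := (Nat.card σ.ker).factorization 2 with ha
    let T : Subgroup Γ :=
      { carrier := {z | z ∈ σ.ker ∧ z ^ (2 ^ a) = 1}
        one_mem' := ⟨one_mem _, one_pow _⟩
        mul_mem' := fun {p q} hp hq => ⟨mul_mem hp.1 hq.1, by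
          rw [(ker_comm hσ hq.1 p).mul_pow, hp.2, hq.2, one_mul]⟩
        inv_mem' := fun {p} hp => ⟨inv_mem hp.1, by rw [inv_pow, hp.2, inv_one]⟩ }
    have hT : T ≤ σ.ker := fun z hz => hz.1
    haveI : T.Normal := ⟨fun n hn g => by
      rw [(ker_comm hσ hn.1 g).eq, mul_inv_cancel_right]
      exact hn⟩
    obtain ⟨hstem, hker⟩ := quotient_stem hσ T hT
    have hodd : ¬ 2 ∣ Nat.card (QuotientGroup.lift T σ hT).ker := by
      intro h2
      obtain ⟨⟨w, hw⟩, hord⟩ := exists_prime_orderOf_dvd_card' 2 h2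
      rw [← Subgroup.orderOf_coe] at hord
      change orderOf w = 2 at hord
      have hw' := hw
      rw [hker] at hw'
      obtain ⟨u, hu, rfl⟩ := hw'
      have husq : u ^ 2 ∈ T := by
        refine (QuotientGroup.eq_one_iff _).1 ?_
        show QuotientGroup.mk' T (u ^ 2) = 1
        rw [map_pow, ← hord]
        exact pow_orderOf_eq_one _
      have h1 : orderOf u ∣ 2 ^ (a + 1) :=
        orderOf_dvd_of_pow_eq_one (by rw [pow_succ', pow_mul]; exact husq.2)
      obtain ⟨b, -, hb⟩ := (Nat.dvd_prime_pow Nat.prime_two).1 h1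
      have h3 : orderOf u ∣ Nat.card σ.ker := by
        have := orderOf_dvd_natCard (⟨u, hu⟩ : σ.ker)
        rwa [← Subgroup.orderOf_coe] at this
      rw [hb] at h3
      have hba : b ≤ a := (Nat.prime_two.pow_dvd_iff_le_factorization Nat.card_pos.ne').1 h3
      have huT : u ∈ T := ⟨hu, orderOf_dvd_iff_pow_eq_one.1 (hb ▸ pow_dvd_pow 2 hba)⟩
      rw [show QuotientGroup.mk' T u = 1 from (QuotientGroup.eq_one_iff _).2 huT, orderOf_one] at hord
      exact absurd hord (by norm_num)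
    have hbot := ker_eq_bot_of_odd hstem hk6 hodd
    obtain ⟨⟨z, hz⟩, hord⟩ := exists_prime_orderOf_dvd_card' 3 hdvd
    rw [← Subgroup.orderOf_coe] at hord
    change orderOf z = 3 at hord
    have hzT : z ∈ T := by
      refine (QuotientGroup.eq_one_iff _).1 (Subgroup.mem_bot.1 ?_)
      rw [← hbot, hker]
      exact ⟨z, hz, rfl⟩
    have := orderOf_dvd_of_pow_eq_one hzT.2
    rw [hord] at this
    exact absurd (Nat.prime_three.dvd_of_dvd_pow this) (by norm_num)
  · refine H64.not_dvd_card_ker_of_isCyclic hσ fun Q => isCyclic_of_prime_card (p := 3) ?_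
    rw [Q.card_eq_multiplicity]
    have hA : 2 * Nat.card (alternatingGroup (Fin (k + 2))) = (k + 2).factorial := by
      rw [two_mul_nat_card_alternatingGroup, Nat.card_perm, Nat.card_fin]
    have hk' : k = 2 ∨ k = 3 := by omega
    have hf : (Nat.card (alternatingGroup (Fin (k + 2)))).factorization 3 = 1 := by
      rcases hk' with rfl | rfl
      · rw [show Nat.card (alternatingGroup (Fin (2 + 2))) = 3 * 4 by
          simp [Nat.factorial] at hA ⊢; omega,
          Nat.factorization_mul (by norm_num) (by norm_num), Finsupp.add_apply,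
          Nat.prime_three.factorization_self, Nat.factorization_eq_zero_of_not_dvd (by norm_num)]
      · rw [show Nat.card (alternatingGroup (Fin (3 + 2))) = 3 * 20 by
          simp [Nat.factorial] at hA ⊢; omega,
          Nat.factorization_mul (by norm_num) (by norm_num), Finsupp.add_apply,
          Nat.prime_three.factorization_self, Nat.factorization_eq_zero_of_not_dvd (by norm_num)]
    rw [hf, pow_one]

end Cfsg.Agent.H17.AltStemBound
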