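import Cfsg.Agent.S3110
import Cfsg.Agent.S0215
import Cfsg.Agent.S0631
import Cfsg.Agent.H77.Constrained
import Cfsg.Agent.H51.LocalLayer

/-!
# Maximal 2-locals of a group of characteristic 2 type in the early sense

If every maximal 2-local subgroup has a cyclic centre of its 2-core, the central involutions of
Sylow 2-subgroups are isolated, so the group is not simple.
-/

set_option autoImplicit false

namespace Cfsg.Agent.H17.CharTwoCenter

open Subgroup

variable {G : Type*} [Group G] [Finite G]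

/-- The normalizer of a cyclic group of order two is the centralizer of its generator. -/
theorem normalizer_zpowers_of_two {t : G} (ht : orderOf t = 2) :
    normalizer ((zpowers t : Subgroup G) : Set G) = centralizer ({t} : Set G) := by
  refine le_antisymm (fun g hg => ?_) ?_
  · have h := (mem_normalizer_iff.1 hg t).1 (mem_zpowers t)
    obtain ⟨k, hk⟩ := mem_zpowers_iff.1 h
    have hk2 : t ^ (k % 2) = g * t * g⁻¹ := by
      rw [← hk, zpow_eq_zpow_iff_modEq, ht]
      exact Int.mod_modEq k 2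
    rcases Int.emod_two_eq_zero_or_one k with h0 | h1
    · rw [h0, zpow_zero] at hk2
      have : t = 1 := conj_eq_one_iff.1 hk2.symm
      rw [this, orderOf_one] at ht
      omega
    · rw [h1, zpow_one] at hk2
      exact mem_centralizer_singleton_iff.2 (mul_inv_eq_iff_eq_mul.1 hk2.symm)
  · intro g hg
    refine centralizer_le_normalizer _ (mem_centralizer_iff.2 fun x hx => ?_)
    obtain ⟨k, rfl⟩ := mem_zpowers_iff.1 hx
    exact ((show Commute g t from mem_centralizer_singleton_iff.1 hg).zpow_right k).eq.symm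

/-- A nontrivial 2-group has an involution in its centre. -/
theorem exists_central_involution (R : Subgroup G) (hR : IsPGroup 2 ↥R) (hR1 : R ≠ ⊥) :
    ∃ z : G, orderOf z = 2 ∧ z ∈ R ∧ ∀ r ∈ R, r * z = z * r := by
  haveI : Fact (Nat.Prime 2) := ⟨Nat.prime_two⟩
  haveI : Nontrivial ↥R := (nontrivial_iff_ne_bot R).2 hR1
  haveI := hR.center_nontrivial
  have h2 : 2 ∣ Nat.card ↥(center ↥R) := by
    obtain ⟨n, hn, hcard⟩ := (hR.to_subgroup (center ↥R)).nontrivial_iff_card.1 inferInstance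
    rw [hcard]
    exact dvd_pow_self 2 hn.ne'
  obtain ⟨z, hz⟩ := exists_prime_orderOf_dvd_card' 2 h2
  refine ⟨((z : ↥R) : G), ?_, (z : ↥R).2, fun r hr => ?_⟩
  · rw [orderOf_coe, orderOf_coe, hz]
  · exact congrArg Subtype.val (mem_center_iff.1 z.2 ⟨r, hr⟩)

omit [Finite G] in
theorem odd_normalized_eq_bot (S : Sylow 2 G)
    (hinv : ∀ X : Subgroup G, Odd (Nat.card ↥X) → (S : Subgroup G) ≤ normalizer (X : Set G) → X = ⊥)
    [Finite G] (R : Sylow 2 G) (X : Subgroup G) (hX : Odd (Nat.card ↥X))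
    (hR : (R : Subgroup G) ≤ normalizer (X : Set G)) : X = ⊥ := by
  haveI : Fact (Nat.Prime 2) := ⟨Nat.prime_two⟩
  obtain ⟨g, hg⟩ := MulAction.exists_smul_eq G R S
  set e := MulAut.conj g with he
  have hS : (S : Subgroup G) = (R : Subgroup G).map e.toMonoidHom := by
    rw [← hg]; rfl
  have hinj : Function.Injective e.toMonoidHom := e.injective
  have h1 : X.map e.toMonoidHom = ⊥ := by
    refine hinv _ ?_ ?_
    · rw [card_map_of_injective hinj]; exact hX
    · rw [hS]
      intro y hy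
      obtain ⟨r, hr, rfl⟩ := mem_map.1 hy
      exact le_normalizer_map _ (mem_map_of_mem _ (hR hr))
  exact (map_eq_bot_iff_of_injective _ hinj).1 h1

/-- The odd cores of all involution centralizers are trivial. -/
theorem centralizer_core_eq_bot
    (h2c : ∀ T : Subgroup G, IsPGroup 2 T → T ≠ ⊥ → Cfsg.IsPConstrained 2 ↥(normalizer (T : Set G)))
    (S : Sylow 2 G) (A : Subgroup G) (hA : Cfsg.IsSCN (S : Subgroup G) A)
    (hA3 : ¬ Cfsg.PRankLE 2 2 ↥A)
    (hinv : ∀ X : Subgroup G, Odd (Nat.card ↥X) → (S : Subgroup G) ≤ normalizer (X : Set G) → X = ⊥)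
    (t : G) (ht : orderOf t = 2) : Cfsg.centralizerPPrimeCore 2 t = ⊥ := by
  haveI : Fact (Nat.Prime 2) := ⟨Nat.prime_two⟩
  obtain ⟨hAS, hSA, hSC⟩ := hA
  set A' : Subgroup ↥(S : Subgroup G) := A.subgroupOf (S : Subgroup G) with hA'
  have hAn : A'.Normal := (normal_subgroupOf_iff_le_normalizer hAS).2 hSA
  let eA : ↥A' ≃* ↥A := subgroupOfEquivOfLe hAS
  have hAab : IsMulCommutative ↥A' := by
    refine ⟨⟨fun a b => eA.injective ?_⟩⟩
    rw [map_mul, map_mul]
    have : ((eA a : ↥A) : G) ∈ centralizer (A : Set G) := (mem_inf.1 (hSC.ge (eA a).2)).2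
    exact Subtype.ext (mem_centralizer_iff.1 this _ (eA b).2).symm
  have hAC : centralizer (A' : Set ↥(S : Subgroup G)) = A' := by
    ext x
    rw [mem_centralizer_iff, hA', mem_subgroupOf]
    constructor
    · intro h
      rw [← hSC]
      exact mem_inf.2 ⟨x.2, mem_centralizer_iff.2 fun a ha =>
        congrArg Subtype.val (h ⟨a, hAS ha⟩ ha)⟩
    · intro hx a ha
      rw [← hSC] at hx
      exact Subtype.ext (mem_centralizer_iff.1 (mem_inf.1 hx).2 _ ha)
  have hA3' : ¬ Cfsg.PRankLE 2 2 ↥A' := by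
    intro h
    refine hA3 fun B hBc hB2 => ?_
    rw [← card_map_of_injective (f := eA.symm.toMonoidHom) eA.symm.injective (K := B)]
    refine h _ ?_ ?_
    · haveI := hBc
      infer_instance
    · rintro _ ⟨b, hb, rfl⟩
      rw [← map_pow, hB2 b hb, map_one]
  obtain ⟨R, hR⟩ := (show IsPGroup 2 ↥(zpowers t) from
    IsPGroup.of_card (n := 1) (by rw [Nat.card_zpowers, ht, pow_one])).exists_le_sylow
  obtain ⟨W, hW, hWB⟩ := Cfsg.Agent.S3110.result h2c S A' hAn hAab hAC hA3' R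
  have hrank : ¬ Cfsg.PRankLE 2 1 ↥(R : Subgroup G) := by
    obtain ⟨g, hg⟩ := MulAction.exists_smul_eq G S R
    intro h
    refine hA3 fun B hBc hB2 => le_trans ?_ (show 2 ^ 1 ≤ 2 ^ 2 by norm_num)
    have hle : ∀ a : ↥A, (MulAut.conj g) (a : G) ∈ (R : Subgroup G) := fun a => by
      rw [← hg]
      exact mem_map_of_mem _ (hAS a.2)
    let f : ↥A →* ↥(R : Subgroup G) :=
      ((MulAut.conj g).toMonoidHom.comp A.subtype).codRestrict _ hle
    have hf : Function.Injective f := fun a b hab =>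
      Subtype.ext ((MulAut.conj g).injective (congrArg Subtype.val hab))
    rw [← card_map_of_injective hf (K := B)]
    refine h _ ?_ ?_
    · haveI := hBc
      infer_instance
    · rintro _ ⟨b, hb, rfl⟩
      rw [← map_pow, hB2 b hb, map_one]
  obtain ⟨hWeq, hWn⟩ := hWB (R : Subgroup G) le_rfl hrank
  have hWbot : W = ⊥ := odd_normalized_eq_bot S hinv R W hW (le_normalizer.trans hWn)
  rw [eq_bot_iff, ← hWbot, hWeq]
  exact le_iSup (fun b : {b : G // b ∈ (R : Subgroup G) ∧ b ≠ 1} => Cfsg.centralizerPPrimeCore 2 (b : G))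
    ⟨t, hR (mem_zpowers t), fun h => by rw [h, orderOf_one] at ht; omega⟩

/-- All 2-local subgroups are core-free. -/
theorem local_core_eq_bot
    (h2c : ∀ T : Subgroup G, IsPGroup 2 T → T ≠ ⊥ → Cfsg.IsPConstrained 2 ↥(normalizer (T : Set G)))
    (hcore : ∀ t : G, orderOf t = 2 → Cfsg.centralizerPPrimeCore 2 t = ⊥)
    (T : Subgroup G) (hT : IsPGroup 2 ↥T) (hT1 : T ≠ ⊥) :
    Cfsg.pPrimeCore 2 ↥(normalizer (T : Set G)) = ⊥ := by
  haveI : Fact (Nat.Prime 2) := ⟨Nat.prime_two⟩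
  set N := normalizer (T : Set G) with hN
  set O : Subgroup G := (Cfsg.pPrimeCore 2 ↥N).map N.subtype with hO
  have hOT : O ≤ centralizer (T : Set G) :=
    Cfsg.Agent.H51.pPrimeCore_map_le_centralizer hT le_normalizer le_rfl
  have hON : O ≤ N := map_subtype_le _
  obtain ⟨t, ht, htT, htc⟩ := exists_central_involution T hT hT1
  set X := centralizer ({t} : Set G) with hX
  have hTX : T ≤ X := fun r hr => mem_centralizer_singleton_iff.2 (htc r hr)
  have hOX : O ≤ X := fun o ho =>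
    mem_centralizer_singleton_iff.2 (mem_centralizer_iff.1 (hOT ho) t htT).symm
  have hXc : Cfsg.IsPConstrained 2 ↥X := by
    have := h2c (zpowers t) (IsPGroup.of_card (n := 1) (by rw [Nat.card_zpowers, ht, pow_one]))
      (fun h => by
        rw [zpowers_eq_bot] at h
        rw [h, orderOf_one] at ht
        omega)
    rw [normalizer_zpowers_of_two ht] at this
    exact this
  haveI := Cfsg.Agent.H51.pPrimeCore_normal 2 ↥X
  have hspec := (Cfsg.Agent.H35.local_spec_of_quotient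
    (Cfsg.Agent.H51.isPConstrained_iff_centralizer_pCore_le.1 hXc)
    (P := T.subgroupOf X) (hT.comap_of_injective X.subtype X.subtype_injective) (Or.inl rfl)).1
  have hXbot : Cfsg.pPrimeCore 2 ↥X = ⊥ := by
    have := hcore t ht
    rwa [Cfsg.centralizerPPrimeCore, map_eq_bot_iff_of_injective _ X.subtype_injective] at this
  rw [hXbot, bot_inf_eq, map_eq_bot_iff_of_injective _ (subtype_injective _)] at hspec
  set K := normalizer ((T.subgroupOf X : Subgroup ↥X) : Set ↥X) with hK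
  have hKN : K = N.subgroupOf X := (subgroupOf_normalizer_eq hTX).symm
  set O' : Subgroup ↥K := (O.subgroupOf X).subgroupOf K with hO'
  have hcard : Nat.card ↥O = Nat.card ↥(Cfsg.pPrimeCore 2 ↥N) :=
    card_map_of_injective N.subtype_injective
  have hO'le : O.subgroupOf X ≤ K := by
    rw [hKN]; exact fun x hx => hON hx
  have hO'card : Nat.card ↥O' = Nat.card ↥O := by
    rw [hO', Nat.card_congr (subgroupOfEquivOfLe hO'le).toEquiv,
      Nat.card_congr (subgroupOfEquivOfLe hOX).toEquiv]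
  haveI := Cfsg.Agent.H51.pPrimeCore_normal 2 ↥N
  have hO'n : O'.Normal := by
    refine ⟨fun x hx k => ?_⟩
    obtain ⟨y, hy, hyx⟩ := mem_map.1 (show ((x : ↥X) : G) ∈ O from hx)
    have hk : ((k : ↥X) : G) ∈ N := by
      have : (k : ↥X) ∈ N.subgroupOf X := hKN ▸ k.2
      exact this
    exact ⟨⟨_, hk⟩ * y * ⟨_, hk⟩⁻¹, Normal.conj_mem inferInstance y hy _, by
      simp [← hyx]⟩
  have hle : O' ≤ Cfsg.pPrimeCore 2 ↥K := le_sSup ⟨hO'n, by
    rw [hO'card]; exact Cfsg.Agent.H51.card_pPrimeCore_map_coprime 2 N⟩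
  rw [hspec, le_bot_iff] at hle
  rw [← card_eq_one, ← hcard, ← hO'card, hle, card_bot]

variable (hcf : ∀ M : Subgroup G, Cfsg.IsMaximalTwoLocal M →
    centralizer (Cfsg.pCore 2 ↥M : Set ↥M) ≤ Cfsg.pCore 2 ↥M)
  (hcyc : ∀ M : Subgroup G, Cfsg.IsMaximalTwoLocal M → IsCyclic ↥(center ↥(Cfsg.pCore 2 ↥M)))

include hcf hcyc in
/-- A maximal 2-local `M` determines an involution `w` which is the only central involution of
every Sylow 2-subgroup containing `O₂(M)`. -/
theorem exists_marked {M : Subgroup G} (hM : Cfsg.IsMaximalTwoLocal M) :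
    ∃ w : G, ∀ (R : Sylow 2 G), (Cfsg.pCore 2 ↥M).map M.subtype ≤ (R : Subgroup G) →
      ∀ z : G, orderOf z = 2 → (∀ r ∈ (R : Subgroup G), r * z = z * r) → z = w := by
  haveI : Fact (Nat.Prime 2) := ⟨Nat.prime_two⟩
  obtain ⟨⟨T, hT, hT1, hMT⟩, hmax⟩ := hM
  have hM' : Cfsg.IsMaximalTwoLocal M := ⟨⟨T, hT, hT1, hMT⟩, hmax⟩
  haveI := Cfsg.Agent.H51.pCore_normal 2 ↥M
  have hP : IsPGroup 2 ↥(Cfsg.pCore 2 ↥M) := Cfsg.Agent.H51.pCore_isPGroup 2 ↥M
  set P : Subgroup ↥M := Cfsg.pCore 2 ↥M with hPdef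
  set Q : Subgroup G := P.map M.subtype with hQ
  have hTM : T ≤ M := hMT ▸ le_normalizer
  have hTn : (T.subgroupOf M).Normal :=
    (normal_subgroupOf_iff_le_normalizer hTM).2 (le_of_eq hMT)
  have hTP : T.subgroupOf M ≤ P :=
    le_sSup ⟨hTn, hT.comap_of_injective M.subtype M.subtype_injective⟩
  have hP1 : P ≠ ⊥ := by
    intro h
    rw [h, le_bot_iff, subgroupOf_eq_bot, disjoint_iff, inf_of_le_left hTM] at hTP
    exact hT1 hTP
  obtain ⟨w, hw, hwP, hwc⟩ := exists_central_involution P hP hP1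
  have hNQ : normalizer (Q : Set G) = M := by
    refine hmax _ ⟨Q, hP.map _, fun h => hP1 ((map_eq_bot_iff_of_injective _ M.subtype_injective).1 h), rfl⟩ ?_
    intro m hm
    refine le_normalizer_map M.subtype ⟨⟨m, hm⟩, ?_, rfl⟩
    rw [normalizer_eq_top_iff.2 (inferInstance : P.Normal)]
    exact mem_top _
  refine ⟨(w : G), fun R hR z hz hzR => ?_⟩
  have hzM : z ∈ M := by
    rw [← hNQ]
    exact centralizer_le_normalizer _ (mem_centralizer_iff.2 fun q hq => hzR q (hR hq))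
  have hzc : ∀ q ∈ P, q * ⟨z, hzM⟩ = ⟨z, hzM⟩ * q := fun q hq =>
    Subtype.ext (hzR _ (hR (mem_map_of_mem M.subtype hq)))
  have hzP : (⟨z, hzM⟩ : ↥M) ∈ P := hcf M hM' (mem_centralizer_iff.2 fun q hq => hzc q hq)
  haveI := hcyc M hM'
  let a : ↥(center ↥P) := ⟨⟨⟨z, hzM⟩, hzP⟩, mem_center_iff.2 fun q => Subtype.ext (hzc q q.2)⟩
  let b : ↥(center ↥P) := ⟨⟨w, hwP⟩, mem_center_iff.2 fun q => Subtype.ext (hwc q q.2)⟩
  have ha : orderOf a = 2 := by rw [← orderOf_coe, ← orderOf_coe, ← orderOf_coe]; exact hz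
  have hb : orderOf b = 2 := by rw [← orderOf_coe, ← orderOf_coe]; exact hw
  have hab : a = b := by
    classical
    haveI := Fintype.ofFinite ↥(center ↥P)
    have hcount := IsCyclic.card_orderOf_eq_totient (α := ↥(center ↥P))
      (d := 2) (by rw [← hb]; exact orderOf_dvd_card)
    rw [Nat.totient_two, Finset.card_eq_one] at hcount
    obtain ⟨c, hc⟩ := hcount
    have ha' : a ∈ ({c} : Finset ↥(center ↥P)) := by rw [← hc]; simp [ha]
    have hb' : b ∈ ({c} : Finset ↥(center ↥P)) := by rw [← hc]; simp [hb]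
    rw [Finset.mem_singleton] at ha' hb'
    rw [ha', hb']
  exact congrArg (fun x : ↥(center ↥P) => (((x : ↥P) : ↥M) : G)) hab

include hcf hcyc in
/-- Sylow 2-subgroups meeting nontrivially have the same central involutions. -/
theorem central_eq (R₁ R₂ : Sylow 2 G) (hne : (R₁ : Subgroup G) ⊓ (R₂ : Subgroup G) ≠ ⊥)
    (z₁ z₂ : G) (hz₁ : orderOf z₁ = 2) (hc₁ : ∀ r ∈ (R₁ : Subgroup G), r * z₁ = z₁ * r)
    (hz₂ : orderOf z₂ = 2) (hc₂ : ∀ r ∈ (R₂ : Subgroup G), r * z₂ = z₂ * r) : z₁ = z₂ := by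
  haveI : Fact (Nat.Prime 2) := ⟨Nat.prime_two⟩
  classical
  induction hn : Nat.card G - Nat.card ↥((R₁ : Subgroup G) ⊓ (R₂ : Subgroup G)) using Nat.strong_induction_on
    generalizing R₁ R₂ z₁ z₂ with
  | _ n ih =>
  set D : Subgroup G := (R₁ : Subgroup G) ⊓ (R₂ : Subgroup G) with hD
  have hDp : IsPGroup 2 ↥D := R₁.isPGroup'.to_le inf_le_left
  obtain ⟨M, hNM, hMmax⟩ := Finite.exists_le_maximal (p := fun M : Subgroup G => Cfsg.IsTwoLocal M)
    (a := normalizer (D : Set G)) ⟨D, hDp, hne, rfl⟩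
  have hM : Cfsg.IsMaximalTwoLocal M :=
    ⟨hMmax.1, fun N hN hle => le_antisymm (hMmax.2 hN hle) hle⟩
  obtain ⟨w, hw⟩ := exists_marked hcf hcyc hM
  haveI := Cfsg.Agent.H51.pCore_normal 2 ↥M
  have side : ∀ (R R' : Sylow 2 G) (z : G), (R : Subgroup G) ⊓ (R' : Subgroup G) = D →
      orderOf z = 2 → (∀ r ∈ (R : Subgroup G), r * z = z * r) → z = w := by
    intro R R' z hRR hz hc
    by_cases hDR : D = (R : Subgroup G)
    · refine hw R ?_ z hz hc
      -- then `R ≤ M`, so it contains the normal 2-subgroup of `M`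
      have hRM : (R : Subgroup G) ≤ M := hDR ▸ le_normalizer.trans hNM
      intro q hq
      obtain ⟨q', hq', rfl⟩ := mem_map.1 hq
      have := (Cfsg.Agent.H51.pCore_isPGroup 2 ↥M).le_sylow_of_normal (R.subtype hRM)
      exact this hq'
    have hlt : D < (R : Subgroup G) := lt_of_le_of_ne (hRR ▸ inf_le_left) hDR
    set U : Subgroup G := (R : Subgroup G) ⊓ normalizer (D : Set G) with hU
    have hDU : D < U := by
      refine lt_of_le_of_ne (le_inf hlt.le le_normalizer) fun h => ?_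
      haveI := R.isPGroup'.isNilpotent
      have hlt' : D.subgroupOf (R : Subgroup G) < ⊤ := by
        rw [lt_top_iff_ne_top, Ne, subgroupOf_eq_top]
        exact hlt.not_ge
      obtain ⟨x, hxN, hxD⟩ := SetLike.exists_of_lt
        (Group.normalizerCondition_of_isNilpotent (D.subgroupOf (R : Subgroup G)) hlt')
      rw [← subgroupOf_normalizer_eq hlt.le, mem_subgroupOf] at hxN
      apply hxD
      rw [mem_subgroupOf]
      exact h.ge (mem_inf.2 ⟨x.2, hxN⟩)
    have hUM : U ≤ M := inf_le_right.trans hNM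
    obtain ⟨V, hV⟩ := ((R.isPGroup'.to_le (inf_le_left : U ≤ _)).comap_of_injective M.subtype
      M.subtype_injective : IsPGroup 2 ↥(U.subgroupOf M)).exists_le_sylow
    obtain ⟨R₃, hR₃⟩ := (V.isPGroup'.map M.subtype).exists_le_sylow
    have hQ₃ : (Cfsg.pCore 2 ↥M).map M.subtype ≤ (R₃ : Subgroup G) :=
      (map_mono ((Cfsg.Agent.H51.pCore_isPGroup 2 ↥M).le_sylow_of_normal V)).trans hR₃
    have hU₃ : U ≤ (R₃ : Subgroup G) := fun u hu => hR₃ ⟨⟨u, hUM hu⟩, hV hu, rfl⟩
    obtain ⟨y, hy, hyR, hyc⟩ := exists_central_involution (R₃ : Subgroup G) R₃.isPGroup' (by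
      intro h
      exact hne (le_bot_iff.1 (h ▸ (hDU.le.trans hU₃))))
    rw [← hw R₃ hQ₃ y hy hyc]
    have hlt2 : D < (R : Subgroup G) ⊓ (R₃ : Subgroup G) :=
      hDU.trans_le (le_inf inf_le_left hU₃)
    have hcard : Nat.card ↥D < Nat.card ↥((R : Subgroup G) ⊓ (R₃ : Subgroup G)) :=
      Set.Finite.card_lt_card (Set.toFinite _) (SetLike.coe_ssubset_coe.2 hlt2)
    have hle : Nat.card ↥((R : Subgroup G) ⊓ (R₃ : Subgroup G)) ≤ Nat.card G := card_le_card_group _
    refine ih _ (by omega) R R₃ ?_ z y hz hc hy hyc rfl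
    exact fun h => not_lt_bot (h ▸ hlt2)
  rw [side R₁ R₂ z₁ rfl hz₁ hc₁, side R₂ R₁ z₂ (inf_comm _ _) hz₂ hc₂]

include hcf hcyc in
/-- The configuration does not occur in a nonabelian simple group of even order. -/
theorem not_simple [IsSimpleGroup G] (hG : ¬ IsMulCommutative G) (S : Sylow 2 G)
    (hS : (S : Subgroup G) ≠ ⊥) : False := by
  haveI : Fact (Nat.Prime 2) := ⟨Nat.prime_two⟩
  obtain ⟨z, hz, hzS, hzc⟩ := exists_central_involution (S : Subgroup G) S.isPGroup' hS
  obtain ⟨N, hNn, hNodd, hN⟩ := Cfsg.Agent.S0215.result S z hz hzS fun g hg => by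
    have hmem : ∀ s, s ∈ ((MulAut.conj g • S : Sylow 2 G) : Subgroup G) → ∃ r ∈ (S : Subgroup G),
        g * r * g⁻¹ = s := fun s hs => mem_map.1 hs
    refine (central_eq hcf hcyc S (MulAut.conj g • S) ?_ z (g * z * g⁻¹) hz hzc ?_ ?_).symm
    · intro h
      have h1 : g * z * g⁻¹ ∈ (S : Subgroup G) ⊓ ((MulAut.conj g • S : Sylow 2 G) : Subgroup G) := by
        exact mem_inf.2 ⟨hg, mem_map.2 ⟨z, hzS, rfl⟩⟩
      rw [h, mem_bot, conj_eq_one_iff] at h1
      rw [h1, orderOf_one] at hz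
      omega
    · rw [← hz]
      exact (MulAut.conj g).orderOf_eq z
    · intro s hs
      obtain ⟨r, hr, rfl⟩ := hmem s hs
      calc g * r * g⁻¹ * (g * z * g⁻¹) = g * (r * z) * g⁻¹ := by group
        _ = g * (z * r) * g⁻¹ := by rw [hzc r hr]
        _ = g * z * g⁻¹ * (g * r * g⁻¹) := by group
  rcases hNn.eq_bot_or_eq_top with h | h
  · apply hG
    have hzZ : z ∈ center G := by
      refine mem_center_iff.2 fun g => ?_
      have := hN g
      rw [h, mem_bot, mul_inv_eq_one, mul_inv_eq_iff_eq_mul] at this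
      exact this.symm
    rcases (inferInstance : (center G).Normal).eq_bot_or_eq_top with hc | hc
    · rw [hc, mem_bot] at hzZ
      rw [hzZ, orderOf_one] at hz
      omega
    · exact ⟨⟨fun a b => mem_center_iff.1 (hc.ge (mem_top b)) a⟩⟩
  · rw [h, Nat.card_congr (topEquiv (G := G)).toEquiv] at hNodd
    exact Nat.not_even_iff_odd.2 hNodd (even_iff_two_dvd.2 (hz ▸ orderOf_dvd_natCard z))

/-- A group of characteristic 2 type in the early sense has a maximal 2-local subgroup whose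
2-core has noncyclic centre. -/
theorem exists_noncyclic_center [IsSimpleGroup G]
    (hG : ¬ IsMulCommutative G) (S : Sylow 2 G) (A : Subgroup G) (hA : Cfsg.IsSCN (S : Subgroup G) A)
    (hA3 : ¬ Cfsg.PRankLE 2 2 ↥A)
    (hinv : ∀ X : Subgroup G, Odd (Nat.card ↥X) → (S : Subgroup G) ≤ normalizer (X : Set G) → X = ⊥)
    (hcon : ∀ T : Subgroup G, IsPGroup 2 ↥T → T ≠ ⊥ → Cfsg.IsPConstrained 2 ↥(normalizer (T : Set G))) :
    ∃ M : Subgroup G, Cfsg.IsMaximalTwoLocal M ∧ ¬ IsCyclic ↥(center ↥(Cfsg.pCore 2 ↥M)) := by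
  haveI : Fact (Nat.Prime 2) := ⟨Nat.prime_two⟩
  by_contra hne
  push Not at hne
  have hcore := centralizer_core_eq_bot hcon S A hA hA3 hinv
  refine not_simple (fun M hM => ?_) hne hG S fun h => ?_
  · obtain ⟨T, hT, hT1, rfl⟩ := hM.1
    exact Cfsg.Agent.H77.centralizer_pCore_le_of_constrained (hcon T hT hT1)
      (local_core_eq_bot hcon hcore T hT hT1)
  · refine hA3 fun B _ _ => ?_
    have hA0 : A = ⊥ := le_bot_iff.1 (h ▸ hA.1)
    have : Nat.card ↥B ≤ 1 := by
      refine le_trans (card_le_card_group B) ?_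
      rw [hA0, card_bot]
    omega

end Cfsg.Agent.H17.CharTwoCenter
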