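import Cfsg.Prelude.Def_SporadicB
import Cfsg.Agent.H17.EightCoverData
import Cfsg.Agent.H62.Carmichael
import Cfsg.Agent.H49.Homs
import Cfsg.Agent.H22.Tate
import Cfsg.Agent.H62.AltMultiplier

/-! Involutions in the double covers of small alternating groups. -/

set_option autoImplicit false

namespace Cfsg.Agent.H17.DoubleCoverAlt

open Equiv
open scoped commutatorElement

section eight

open Cfsg.Agent.H62

/-- A double cover of `A_8` from lifts of Carmichael's generators. -/
theorem cover_eight {Amb : Type} [Group Amb] [Finite Amb] (gens : Fin 6 → Amb) (z : Amb)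
    (hz2 : z * z = 1) (hz1 : z ≠ 1) (hzc : ∀ u : Amb, Commute z u)
    (g3 : ∀ i, gens i * gens i * gens i = 1)
    (g2 : ∀ i j, i ≠ j → gens i * gens j * (gens i * gens j) = z)
    (hac : gens 0 * gens 1 * (gens 1 * gens 0) = z * (gens 1 * gens 0 * (gens 0 * gens 1)))
    (h0 : gens 0 ≠ 1 ∧ gens 0 ≠ z) {w : Amb} (hw : w ∈ Subgroup.closure (Set.range gens))
    (hw' : w * w = 1 ∧ w ≠ 1 ∧ w ≠ z) : ∃ (H : Type) (_ : Group H) (_ : Finite H),
    Cfsg.IsNonsplitDoubleCover H (alternatingGroup (Fin 8)) ∧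
      ∃ x y : H, x ≠ y ∧ orderOf x = 2 ∧ orderOf y = 2 := by
  have hzord : orderOf z = 2 := orderOf_eq_prime (by rw [pow_two]; exact hz2) hz1
  set Γ := Subgroup.closure (Set.range gens) with hΓ
  have hg : ∀ i, gens i ∈ Γ := fun i => Subgroup.subset_closure ⟨i, rfl⟩
  have hzd : z ∈ ⁅Γ, Γ⁆ := by
    have h : ⁅gens 0 * gens 1, gens 1 * gens 0⁆ = z := by
      rw [commutatorElement_def, hac]
      group
    rw [← h]
    exact Subgroup.commutator_mem_commutator (mul_mem (hg 0) (hg 1)) (mul_mem (hg 1) (hg 0))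
  have hzΓ : z ∈ Γ :=
    (Subgroup.commutator_le.2 fun a ha b hb => by
      rw [commutatorElement_def]
      exact mul_mem (mul_mem (mul_mem ha hb) (inv_mem ha)) (inv_mem hb)) hzd
  let zΓ : Γ := ⟨z, hzΓ⟩
  let xΓ : Fin 6 → Γ := fun i => ⟨gens i, hg i⟩
  have hZ : ∀ g : Γ, g ∈ Subgroup.zpowers zΓ ↔ g = 1 ∨ g = zΓ := by
    intro g
    constructor
    · rintro ⟨j, rfl⟩
      have h2 : zΓ * zΓ = 1 := Subtype.ext hz2
      rcases Int.even_or_odd j with ⟨r, rfl⟩ | ⟨r, rfl⟩
      · left
        show zΓ ^ (r + r) = 1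
        rw [zpow_add, ← (Commute.refl zΓ).mul_zpow, h2, one_zpow]
      · right
        show zΓ ^ (2 * r + 1) = zΓ
        rw [zpow_add, zpow_mul, zpow_one, show zΓ ^ (2 : ℤ) = 1 by rw [zpow_two]; exact h2,
          one_zpow, one_mul]
    · rintro (rfl | rfl)
      · exact one_mem _
      · exact Subgroup.mem_zpowers _
  have hcen : Subgroup.zpowers zΓ ≤ Subgroup.center Γ := by
    rw [Subgroup.zpowers_le, Subgroup.mem_center_iff]
    exact fun g => Subtype.ext (hzc g).eq.symm
  haveI hnorm : (Subgroup.zpowers zΓ).Normal := ⟨fun n hn g => by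
    rw [Subgroup.mem_center_iff.1 (hcen hn) g, mul_inv_cancel_right]
    exact hn⟩
  let π := QuotientGroup.mk' (Subgroup.zpowers zΓ)
  have hker : ∀ g : Γ, ((g : Amb) = 1 ∨ (g : Amb) = z) → π g = 1 := fun g hg =>
    (QuotientGroup.eq_one_iff g).2 ((hZ g).2 (hg.imp (fun h => Subtype.ext h) fun h => Subtype.ext h))
  obtain ⟨Ψ, hΨ⟩ := exists_alt_hom (fun i => π (xΓ i))
    (fun i => by
      rw [← map_pow]; refine hker _ (Or.inl ?_)
      rw [SubmonoidClass.coe_pow, pow_succ, pow_two]; exact g3 i)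
    (fun i j hij => by
      rw [← map_mul, ← map_pow]; refine hker _ (Or.inr ?_)
      rw [SubmonoidClass.coe_pow, pow_two]; exact g2 i j hij)
  have hclos : Subgroup.closure (Set.range xΓ) = ⊤ := by
    rw [eq_top_iff]
    intro g _
    have hg : (g : Amb) ∈ (Subgroup.closure (Set.range xΓ)).map Γ.subtype := by
      rw [MonoidHom.map_closure, ← Set.range_comp]
      exact g.2
    obtain ⟨g', hg', he⟩ := hg
    exact (Subtype.ext he : g' = g) ▸ hg'
  have hsurj : Function.Surjective Ψ := by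
    rw [← MonoidHom.range_eq_top, eq_top_iff,
      ← Subgroup.map_top_of_surjective π (QuotientGroup.mk'_surjective _), ← hclos,
      MonoidHom.map_closure, Subgroup.closure_le]
    rintro _ ⟨_, ⟨i, rfl⟩, rfl⟩
    exact ⟨tauA 6 i, hΨ i⟩
  haveI hsimple : IsSimpleGroup (alternatingGroup (Fin (6 + 2))) :=
    alternatingGroup.isSimpleGroup (by simp)
  have hinj : Function.Injective Ψ := by
    rw [← MonoidHom.ker_eq_bot_iff]
    refine ((inferInstance : Ψ.ker.Normal).eq_bot_or_eq_top).resolve_right fun htop => ?_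
    have h : Ψ (tauA 6 0) = 1 := MonoidHom.mem_ker.1 (htop ▸ Subgroup.mem_top _)
    rw [hΨ] at h
    rcases (hZ _).1 ((QuotientGroup.eq_one_iff _).1 h) with h | h
    · exact h0.1 (congrArg Subtype.val h)
    · exact h0.2 (congrArg Subtype.val h)
  let e : Γ ⧸ Subgroup.zpowers zΓ ≃* alternatingGroup (Fin 8) :=
    (MulEquiv.ofBijective Ψ ⟨hinj, hsurj⟩).symm
  have hcenter : Subgroup.center Γ = Subgroup.zpowers zΓ := by
    refine le_antisymm (fun g hg => ?_) hcen
    have : e (π g) ∈ Subgroup.center (alternatingGroup (Fin 8)) := by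
      rw [Subgroup.mem_center_iff]
      intro b
      obtain ⟨b', rfl⟩ := (e.surjective.comp (QuotientGroup.mk'_surjective _)) b
      show e (π b') * e (π g) = e (π g) * e (π b')
      rw [← map_mul, ← map_mul, ← map_mul, ← map_mul, Subgroup.mem_center_iff.1 hg b']
    rw [alternatingGroup.center_eq_bot (by simp), Subgroup.mem_bot] at this
    rw [map_eq_one_iff e e.injective] at this
    exact (QuotientGroup.eq_one_iff g).1 this
  refine ⟨Γ, inferInstance, inferInstance, ⟨?_, ⟨(QuotientGroup.quotientMulEquivOfEq hcenter).trans e⟩,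
    fun L hL => ?_⟩, ?_⟩
  · rw [hcenter, Nat.card_zpowers, ← Subgroup.orderOf_coe zΓ]
    exact hzord
  · -- the centre lies in the derived subgroup
    have hle : commutator Γ ≤ L := by
      rw [commutator_def, Subgroup.commutator_le]
      intro a _ b _
      obtain ⟨⟨⟨za, hza⟩, ⟨la, hla⟩⟩, rfl : za * la = a⟩ := hL.2 a
      obtain ⟨⟨⟨zb, hzb⟩, ⟨lb, hlb⟩⟩, rfl : zb * lb = b⟩ := hL.2 b
      have h1 : ⁅za * la, zb * lb⁆ = ⁅la, lb⁆ := by
        have ca : ∀ g, Commute g za := fun g => Subgroup.mem_center_iff.1 hza g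
        have cb : ∀ g, Commute g zb := fun g => Subgroup.mem_center_iff.1 hzb g
        simp only [commutatorElement_def, mul_inv_rev]
        calc za * la * (zb * lb) * (la⁻¹ * za⁻¹) * (lb⁻¹ * zb⁻¹)
            = za * (la * zb * lb * la⁻¹) * za⁻¹ * lb⁻¹ * zb⁻¹ := by group
          _ = (la * zb * lb * la⁻¹) * lb⁻¹ * zb⁻¹ := by
              rw [← (ca (la * zb * lb * la⁻¹)).eq, mul_inv_cancel_right]
          _ = zb * (la * lb * la⁻¹ * lb⁻¹) * zb⁻¹ := by rw [(cb la).eq]; group
          _ = la * lb * la⁻¹ * lb⁻¹ := by rw [← (cb _).eq, mul_inv_cancel_right]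
      rw [h1, commutatorElement_def]
      exact mul_mem (mul_mem (mul_mem hla hlb) (inv_mem hla)) (inv_mem hlb)
    have hzL : zΓ ∈ L := hle (by
      rw [← Subgroup.mem_map_iff_mem Γ.subtype_injective]
      have : (commutator Γ).map Γ.subtype = ⁅Γ, Γ⁆ := by
        rw [commutator_def, Subgroup.map_commutator, ← MonoidHom.range_eq_map, Subgroup.range_subtype]
      rw [this]
      exact hzd)
    have hzC : zΓ ∈ Subgroup.center Γ := hcenter ▸ Subgroup.mem_zpowers zΓ
    have := Subgroup.disjoint_def.1 hL.disjoint hzC hzL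
    exact hz1 (congrArg Subtype.val this)
  · refine ⟨zΓ, ⟨w, hw⟩, fun h => hw'.2.2 (congrArg Subtype.val h).symm, ?_,
      orderOf_eq_prime ?_ fun h => hw'.2.1 (congrArg Subtype.val h)⟩
    · rw [← Subgroup.orderOf_coe zΓ]; exact hzord
    · rw [pow_two]; exact Subtype.ext hw'.1

open EightCover in
theorem exists_cover_eight : ∃ (H : Type) (_ : Group H) (_ : Finite H),
    Cfsg.IsNonsplitDoubleCover H (alternatingGroup (Fin 8)) ∧
      ∃ x y : H, x ≠ y ∧ orderOf x = 2 ∧ orderOf y = 2 := by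
  have m : ∀ i, gens i ∈ Subgroup.closure (Set.range gens) := fun i =>
    Subgroup.subset_closure ⟨i, rfl⟩
  exact cover_eight gens (-1) (neg_one_mul (-1 : Amb) |>.trans (neg_neg 1)) neg_one_ne.1
    (fun u => Commute.neg_one_left u) gens_cube gens_square anticomm neg_one_ne.2
    (mul_mem (mul_mem (mul_mem (mul_mem (mul_mem (mul_mem (mul_mem (m 0) (m 1)) (m 2)) (m 3)) (m 0))
      (m 1)) (m 4)) (m 5)) invol

end eight

/-- An element of the alternating group on at most seven points of order two is conjugate to a fixed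
double transposition. -/
theorem invol_conj {n : ℕ} (hn : n ≤ 7) (g t : alternatingGroup (Fin n)) (hg : g * g = 1) (hg1 : g ≠ 1)
    (s : Perm (Fin n)) (hs : Perm.sign s = -1) (hst : s * t.1 = t.1 * s)
    (ht : t.1.cycleType = Multiset.replicate 2 2) : ∃ c : alternatingGroup (Fin n), c * t * c⁻¹ = g := by
  have ho : orderOf g.1 = 2 := orderOf_eq_prime
    (by rw [pow_two]; exact congrArg Subtype.val hg) fun h => hg1 (Subtype.ext h)
  obtain ⟨k, hk⟩ := Perm.cycleType_prime_order (σ := g.1) (ho ▸ Nat.prime_two)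
  rw [ho] at hk
  have hsum : 2 * (k + 1) ≤ 7 := by
    have h := g.1.sum_cycleType
    rw [hk, Multiset.sum_replicate, smul_eq_mul] at h
    have h2 := Finset.card_le_univ g.1.support
    rw [← h, Fintype.card_fin] at h2
    omega
  have hsign := Perm.mem_alternatingGroup.1 g.2
  rw [Perm.sign_of_cycleType, hk, Multiset.sum_replicate, Multiset.card_replicate, smul_eq_mul] at hsign
  have hk1 : k + 1 = 2 := by
    have : k ≤ 2 := by omega
    interval_cases k <;> first | rfl | exact absurd hsign (by decide)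
  obtain ⟨c, hc⟩ := isConj_iff.1
    (Perm.isConj_iff_cycleType_eq.2 (show t.1.cycleType = g.1.cycleType by rw [ht, hk, hk1]))
  rcases Int.units_eq_one_or (Perm.sign c) with h | h
  · exact ⟨⟨c, Perm.mem_alternatingGroup.2 h⟩, Subtype.ext hc⟩
  · refine ⟨⟨c * s, Perm.mem_alternatingGroup.2 (by rw [map_mul, h, hs]; rfl)⟩, Subtype.ext ?_⟩
    show c * s * t.1 * (c * s)⁻¹ = g.1
    rw [mul_assoc c s, hst, ← hc]
    group

/-- The data of a Sylow two-subgroup used below. -/
theorem split_of_involution {H : Type} [Group H] [Finite H] {n m : ℕ} [NeZero m]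
    (q : H →* alternatingGroup (Fin n)) (hq : Function.Surjective q)
    (hker : q.ker = Subgroup.center H) (hcard : Nat.card (Subgroup.center H) = 2)
    (hlift : ∀ X : H, q X * q X = 1 → q X ≠ 1 → X * X = 1)
    (a b : alternatingGroup (Fin n)) (ha : a * a = 1 ∧ a ≠ 1) (hb : b * b = 1 ∧ b ≠ 1)
    (hm : (m = 2 ∨ m = 4) ∧ (a * b) ^ m = 1 ∧ (a * b) ^ (m / 2) ≠ 1)
    (ha' : a ∉ (Finset.range m).image ((a * b) ^ ·))
    (hodd : ∃ r, Nat.card (alternatingGroup (Fin n)) = 2 * m * r ∧ ¬ 2 ∣ r) :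
    ∃ L : Subgroup H, (Subgroup.center H).IsComplement' L := by
  haveI : Fact (Nat.Prime 2) := ⟨Nat.prime_two⟩
  obtain ⟨A, rfl⟩ := hq a
  obtain ⟨B, rfl⟩ := hq b
  have hA := hlift A ha.1 ha.2
  have hB := hlift B hb.1 hb.2
  set C := A * B with hC
  have hcm : (q C) ^ m = 1 := by rw [map_mul]; exact hm.2.1
  have hch : (q C) ^ (m / 2) ≠ 1 := by rw [map_mul]; exact hm.2.2
  have hCm : C ^ m = 1 := by
    rcases hm.1 with rfl | rfl
    · rw [pow_two] at hcm ⊢
      exact hlift C hcm (by simpa using hch)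
    · rw [show 4 = 2 * 2 from rfl, pow_mul, pow_two (C ^ 2)]
      rw [show 4 = 2 * 2 from rfl, pow_mul, ← map_pow, pow_two (q (C ^ 2))] at hcm
      exact hlift _ hcm (by simpa [map_pow] using hch)
  have hconj : A * C * A⁻¹ = C⁻¹ := by
    rw [hC, mul_inv_rev, inv_eq_of_mul_eq_one_right hA, inv_eq_of_mul_eq_one_right hB,
      ← mul_assoc, hA, one_mul]
  let δ := H49.dihHom m C A hCm hA hconj
  let δ' := q.comp δ
  have hord : orderOf (q C) = m := by
    rcases hm.1 with rfl | rfl
    · exact orderOf_eq_prime hcm (by simpa using hch)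
    · exact orderOf_eq_prime_pow (p := 2) (n := 1) (by simpa using hch) hcm
  have hδ : Function.Injective δ' := by
    have key : ∀ i, q (H49.zpw m C i) = H49.zpw m (q C) i := fun i => map_pow q C _
    rintro (i | i) (j | j) h
    · exact congrArg _ (H49.zpw_injective hord ((key i).symm.trans (h.trans (key j))))
    · exfalso
      apply ha'
      have h' : H49.zpw m (q C) i = q A * H49.zpw m (q C) j := by
        rw [← key, ← key, ← map_mul]; exact h
      rw [Finset.mem_image]
      refine ⟨(i - j).val, Finset.mem_range.2 (ZMod.val_lt _), ?_⟩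
      show (q A * q B) ^ (i - j).val = q A
      rw [← map_mul]
      show H49.zpw m (q C) (i - j) = q A
      rw [sub_eq_add_neg, H49.zpw_add hcm, h', H49.zpw_neg hcm, mul_inv_cancel_right]
    · exfalso
      apply ha'
      have h' : q A * H49.zpw m (q C) i = H49.zpw m (q C) j := by
        rw [← key, ← key, ← map_mul]; exact h
      rw [Finset.mem_image]
      refine ⟨(j - i).val, Finset.mem_range.2 (ZMod.val_lt _), ?_⟩
      show (q A * q B) ^ (j - i).val = q A
      rw [← map_mul]
      show H49.zpw m (q C) (j - i) = q A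
      rw [sub_eq_add_neg, H49.zpw_add hcm, ← h', H49.zpw_neg hcm, mul_inv_cancel_right]
    · have h' : q A * H49.zpw m (q C) i = q A * H49.zpw m (q C) j := by
        rw [← key, ← key, ← map_mul, ← map_mul]; exact h
      exact congrArg _ (H49.zpw_injective hord (mul_left_cancel h'))
  have hidx : ¬ 2 ∣ δ'.range.index := by
    obtain ⟨r, hr, hr2⟩ := hodd
    have h := δ'.range.index_mul_card
    rw [← Nat.card_congr (MonoidHom.ofInjective hδ).toEquiv, DihedralGroup.nat_card, hr,
      mul_comm (2 * m) r] at h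
    rwa [Nat.eq_of_mul_eq_mul_right (Nat.pos_of_ne_zero (by simp [NeZero.ne m])) h]
  obtain ⟨f, hf⟩ := H22.exists_lift_of_index_coprime δ'.range hidx q hq hker.le
    (IsPGroup.of_card (n := 1) (by rw [hker, hcard, pow_one])) (MonoidHom.id _)
    (δ.comp (MonoidHom.ofInjective hδ).symm.toMonoidHom) (fun h => by
      show δ' ((MonoidHom.ofInjective hδ).symm h) = h
      rw [← MonoidHom.ofInjective_apply hδ, MulEquiv.apply_symm_apply])
  have hfinj : Function.Injective f := fun x y h => by
    simpa [hf] using congrArg q h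
  refine ⟨f.range, Subgroup.isComplement'_of_card_mul_and_disjoint ?_ ?_⟩
  · rw [← Nat.card_congr (MonoidHom.ofInjective hfinj).toEquiv, ← hker,
      ← Nat.card_congr (QuotientGroup.quotientKerEquivOfSurjective q hq).toEquiv, mul_comm]
    exact (Subgroup.card_eq_card_quotient_mul_card_subgroup q.ker).symm
  · rw [Subgroup.disjoint_def]
    rintro _ hc ⟨g, rfl⟩
    have : q (f g) = 1 := by rw [← MonoidHom.mem_ker, hker]; exact hc
    rw [hf] at this
    show f g = 1
    rw [show g = 1 from this, map_one]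

/-- Every involution of a non-split double cover of `A_n`, `n ≤ 7`, is central. -/
theorem orderOf_two_eq_center {n : ℕ} (hn : n ≤ 7) {H : Type} [Group H] [Finite H]
    (hH : Cfsg.IsNonsplitDoubleCover H (alternatingGroup (Fin n))) {x : H} (hx : orderOf x = 2) :
    x ∈ Subgroup.center H := by
  obtain ⟨hcard, ⟨e⟩, hns⟩ := hH
  by_contra hxc
  let q : H →* alternatingGroup (Fin n) := e.toMonoidHom.comp (QuotientGroup.mk' _)
  have hq : Function.Surjective q := e.surjective.comp (QuotientGroup.mk'_surjective _)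
  have hker : q.ker = Subgroup.center H := by
    ext h
    rw [MonoidHom.mem_ker, show q h = e (QuotientGroup.mk' _ h) from rfl,
      map_eq_one_iff e e.injective]
    exact QuotientGroup.eq_one_iff h
  have hx1 : q x ≠ 1 := fun h => hxc (hker ▸ MonoidHom.mem_ker.2 h)
  have hx2 : x * x = 1 := by rw [← pow_two, ← hx]; exact pow_orderOf_eq_one x
  have hqx : q x * q x = 1 := by rw [← map_mul, hx2, map_one]
  have h4 : 4 ≤ n := by
    by_contra h
    have : n = 0 ∨ n = 1 ∨ n = 2 ∨ n = 3 := by omega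
    rcases this with rfl | rfl | rfl | rfl <;>
      exact hx1 ((by decide +kernel :
        ∀ g : Perm (Fin _), Perm.sign g = 1 → g * g = 1 → g = 1) _ (q x).2 (congrArg Subtype.val hqx)
          |> Subtype.ext)
  have hzz : ∀ z ∈ Subgroup.center H, z * z = 1 := fun z hz => by
    rw [← pow_two]
    exact congrArg Subtype.val
      (hcard ▸ pow_card_eq_one' : (⟨z, hz⟩ : Subgroup.center H) ^ 2 = 1)
  have hlift' : (t : alternatingGroup (Fin n)) → (∀ g, g * g = 1 → g ≠ 1 → ∃ c, c * t * c⁻¹ = g) →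
      ∀ X : H, q X * q X = 1 → q X ≠ 1 → X * X = 1 := by
    intro t ht X hX hX1
    obtain ⟨c₁, h₁⟩ := ht _ hqx hx1
    obtain ⟨c₂, h₂⟩ := ht _ hX hX1
    obtain ⟨c, hc⟩ := hq (c₂ * c₁⁻¹)
    have hz : (c * x * c⁻¹)⁻¹ * X ∈ Subgroup.center H := by
      rw [← hker, MonoidHom.mem_ker, map_mul, map_inv, inv_mul_eq_one, map_mul, map_mul, map_inv,
        hc, ← h₂, ← h₁]
      group
    set z := (c * x * c⁻¹)⁻¹ * X with hzdef
    have hX' : X = c * x * c⁻¹ * z := by rw [hzdef, mul_inv_cancel_left]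
    rw [hX', show c * x * c⁻¹ * z * (c * x * c⁻¹ * z) =
      c * x * c⁻¹ * (z * (c * x * c⁻¹)) * z by simp only [mul_assoc],
      ← Subgroup.mem_center_iff.1 hz (c * x * c⁻¹)]
    calc c * x * c⁻¹ * (c * x * c⁻¹ * z) * z = c * (x * x) * c⁻¹ * (z * z) := by group
      _ = 1 := by rw [hx2, hzz z hz]; group
  have key : ∀ (s : Perm (Fin n)) (t b : alternatingGroup (Fin n)) (m : ℕ) [NeZero m],
      t.1.cycleType = Multiset.replicate 2 2 → Perm.sign s = -1 → s * t.1 = t.1 * s →
      (t * t = 1 ∧ t ≠ 1) → (b * b = 1 ∧ b ≠ 1) →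
      ((m = 2 ∨ m = 4) ∧ (t * b) ^ m = 1 ∧ (t * b) ^ (m / 2) ≠ 1) →
      t ∉ (Finset.range m).image ((t * b) ^ ·) →
      (∃ r, n.factorial = 4 * m * r ∧ ¬ 2 ∣ r) → False := by
    intro s t b m _ hct hs hst ht hb hm ht' ⟨r, hr, hr2⟩
    obtain ⟨L, hL⟩ := split_of_involution q hq hker hcard
      (hlift' t fun g hg hg1 => invol_conj hn g t hg hg1 s hs hst hct) t b ht hb hm ht'
      ⟨r, by
        have := H62.AltMult.card_alt n (by omega)
        rw [hr] at this
        have h4m : 4 * m * r = 2 * (2 * m * r) := by ring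
        omega, hr2⟩
    exact hns L hL
  interval_cases n
  · exact key (swap 0 1) ⟨swap 0 1 * swap 2 3, Perm.mem_alternatingGroup.2 (by decide +kernel)⟩
      ⟨swap 0 2 * swap 1 3, Perm.mem_alternatingGroup.2 (by decide +kernel)⟩ 2 (by decide +kernel) (by decide +kernel)
      (by decide +kernel) (by decide +kernel) (by decide +kernel) (by decide +kernel)
      (by decide +kernel) ⟨3, rfl, by norm_num⟩
  · exact key (swap 0 1) ⟨swap 0 1 * swap 2 3, Perm.mem_alternatingGroup.2 (by decide +kernel)⟩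
      ⟨swap 0 2 * swap 1 3, Perm.mem_alternatingGroup.2 (by decide +kernel)⟩ 2 (by decide +kernel) (by decide +kernel)
      (by decide +kernel) (by decide +kernel) (by decide +kernel) (by decide +kernel)
      (by decide +kernel) ⟨15, rfl, by norm_num⟩
  · exact key (swap 0 1) ⟨swap 0 1 * swap 2 3, Perm.mem_alternatingGroup.2 (by decide +kernel)⟩
      ⟨swap 0 2 * swap 4 5, Perm.mem_alternatingGroup.2 (by decide +kernel)⟩ 4 (by decide +kernel) (by decide +kernel)
      (by decide +kernel) (by decide +kernel) (by decide +kernel) (by decide +kernel)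
      (by decide +kernel) ⟨45, rfl, by norm_num⟩
  · exact key (swap 0 1) ⟨swap 0 1 * swap 2 3, Perm.mem_alternatingGroup.2 (by decide +kernel)⟩
      ⟨swap 0 2 * swap 4 5, Perm.mem_alternatingGroup.2 (by decide +kernel)⟩ 4 (by decide +kernel) (by decide +kernel)
      (by decide +kernel) (by decide +kernel) (by decide +kernel) (by decide +kernel)
      (by decide +kernel) ⟨315, rfl, by norm_num⟩

end Cfsg.Agent.H17.DoubleCoverAlt
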