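import Cfsg.Prelude.Def_Solvable
import Cfsg.Prelude.Def_Transfer
import Cfsg.Agent.H19.Cores
import Mathlib

/-!
# Groups of shape `3^(1+2) : SL(2,3)`

A group `X` whose `O_3` is extraspecial of order 27 and exponent 3, with quotient `SL(2,3)`,
trivial `O_2`, and an elementary abelian subgroup of order 27, is the semidirect product of the
Heisenberg group with `SL(2,3)`.
-/

set_option autoImplicit false

namespace Cfsg.Agent.H17.Jacobi

open Subgroup
open scoped Matrix

/-- The special linear group over the field with three elements. -/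
abbrev SL := Matrix.SpecialLinearGroup (Fin 2) (ZMod 3)

/-- Vectors of length two. -/
abbrev Vec := Fin 2 → ZMod 3

/-- The symplectic form. -/
def om (v w : Vec) : ZMod 3 := v 0 * w 1 - v 1 * w 0

/-- The underlying type of the model. -/
abbrev Triple := Vec × ZMod 3 × SL

/-- Multiplication in the model. -/
def tmul (a b : Triple) : Triple :=
  (a.1 + (a.2.2 : Matrix (Fin 2) (Fin 2) (ZMod 3)) *ᵥ b.1,
    a.2.1 + b.2.1 + om a.1 ((a.2.2 : Matrix (Fin 2) (Fin 2) (ZMod 3)) *ᵥ b.1), a.2.2 * b.2.2)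

/-- Minus the identity. -/
def negI : SL := ⟨-1, by decide⟩

/-- An element of order four. -/
def g4 : SL := ⟨!![0, -1; 1, 0], by decide⟩

/-- The upper unipotent. -/
def uT : SL := ⟨!![1, 1; 0, 1], by decide⟩

/-- The lower unipotent. -/
def lT : SL := ⟨!![1, 0; 1, 1], by decide⟩

theorem involution_eq : ∀ g : SL, g ^ 2 = 1 → g = 1 ∨ g = negI := by decide +kernel

theorem negI_central : ∀ g : SL, g * negI = negI * g := by decide +kernel

theorem gen_uT_lT : ∀ g : SL, ∃ i j k m : Fin 3,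
    uT ^ i.1 * lT ^ j.1 * uT ^ k.1 * lT ^ m.1 = g := by decide +kernel

theorem g4_facts : g4 ^ 2 = negI ∧ g4 ^ 4 = 1 ∧ negI ≠ 1 ∧ negI ^ 2 = 1 := by decide +kernel

theorem normal_meets : ∀ t : SL, t ≠ 1 →
    t = negI ∨ t ^ 2 = negI ∨ t ^ 3 = negI ∨ ∃ g : SL, (g * t * g⁻¹ * t⁻¹) ^ 2 = negI := by
  decide +kernel

theorem order_three_facts : ∀ t : SL, t ^ 3 = 1 → t ≠ 1 →
    (t * g4 * t⁻¹) * g4 * (t * g4 * t⁻¹)⁻¹ = g4⁻¹ ∧
    (t * (t * g4 * t⁻¹) * t⁻¹ = g4 * (t * g4 * t⁻¹) ∨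
      t * (t * g4 * t⁻¹) * t⁻¹ = (g4 * (t * g4 * t⁻¹))⁻¹) ∧
    ∀ h : SL, ∃ p : Fin 4 × Fin 2 × Fin 3, g4 ^ p.1.1 * (t * g4 * t⁻¹) ^ p.2.1.1 * t ^ p.2.2.1 = h := by
  decide +kernel

variable {X : Type*} [Group X] [Finite X]

/-- If `R` centralizes a normal section of order three, the whole group does. -/
theorem central_of_card_three (π : X →* SL) (hπ : Function.Surjective π) {Y : Type*} [Group Y]
    (f : X →* Y) (N : Subgroup Y) (hN : Nat.card N = 3) (hnorm : ∀ x, ∀ n ∈ N, f x * n * (f x)⁻¹ ∈ N)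
    (hR : ∀ r, π r = 1 → ∀ n ∈ N, f r * n * (f r)⁻¹ = n) :
    ∀ x, ∀ n ∈ N, f x * n * (f x)⁻¹ = n := by
  let K : Subgroup X :=
    { carrier := {x | ∀ n ∈ N, f x * n * (f x)⁻¹ = n}
      one_mem' := fun n _ => by simp
      mul_mem' := fun {a b} ha hb n hn => by
        rw [map_mul, show f a * f b * n * (f a * f b)⁻¹ = f a * (f b * n * (f b)⁻¹) * (f a)⁻¹ by group,
          hb n hn, ha n hn]
      inv_mem' := fun {a} ha n hn => by
        conv_lhs => rw [← ha n hn]
        rw [map_inv]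
        group }
  have h3 : ∀ g, π g ^ 3 = 1 → g ∈ K := by
    intro g hg n hn
    by_contra hne
    have hn1 : n ≠ 1 := fun h => hne (by rw [h]; group)
    haveI : Finite N := Nat.finite_of_card_ne_zero (by omega)
    haveI : Fact (Nat.Prime 3) := ⟨Nat.prime_three⟩
    obtain ⟨k, hk, hk2⟩ : ∃ k < 3, (⟨n, hn⟩ : N) ^ k = ⟨_, hnorm g n hn⟩ := by
      obtain ⟨k, hk⟩ := mem_zpowers_of_prime_card (p := 3) hN
        (g := (⟨n, hn⟩ : N)) (g' := ⟨_, hnorm g n hn⟩) (fun h => hn1 (congrArg Subtype.val h))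
      refine ⟨(k % 3).toNat, by omega, ?_⟩
      simp only at hk
      rw [← hk, ← zpow_natCast, Int.toNat_of_nonneg (Int.emod_nonneg _ (by norm_num))]
      have h3 : orderOf (⟨n, hn⟩ : N) = 3 :=
        orderOf_eq_prime (by have := pow_card_eq_one' (x := (⟨n, hn⟩ : N)); rwa [hN] at this)
          (fun h => hn1 (congrArg Subtype.val h))
      conv_rhs => rw [← zpow_mod_orderOf, h3]
      norm_num
    have hk' : n ^ k = f g * n * (f g)⁻¹ := congrArg Subtype.val hk2
    have hn3 : n ^ 3 = 1 := by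
      have := congrArg Subtype.val (pow_card_eq_one' (x := (⟨n, hn⟩ : N)))
      rwa [hN] at this
    interval_cases k
    · rw [pow_zero] at hk'
      exact hn1 (conj_eq_one_iff.1 hk'.symm)
    · exact hne (by rw [← hk', pow_one])
    · have hc : ∀ m ∈ N, f g * m * (f g)⁻¹ = m ^ 2 := by
        intro m hm
        obtain ⟨l, hl⟩ := mem_zpowers_of_prime_card (p := 3) hN
          (g := (⟨n, hn⟩ : N)) (g' := ⟨m, hm⟩) (fun h => hn1 (congrArg Subtype.val h))
        have hl' : n ^ l = m := congrArg Subtype.val hl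
        rw [← hl', ← conj_zpow, ← hk', ← zpow_natCast, ← zpow_natCast, ← zpow_mul, ← zpow_mul]
        push_cast; ring_nf
      have hfix := hR (g ^ 3) (by rw [map_pow, hg]) n hn
      have : f (g ^ 3) * n * (f (g ^ 3))⁻¹ =
          f g * (f g * (f g * n * (f g)⁻¹) * (f g)⁻¹) * (f g)⁻¹ := by rw [map_pow, pow_succ, pow_two]; group
      rw [this, hc n hn, hc _ (N.pow_mem hn 2), hc _ (N.pow_mem (N.pow_mem hn 2) 2), ← pow_mul,
        ← pow_mul] at hfix
      apply hne
      rw [← hk']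
      calc n ^ 2 = (n ^ 3) ^ 2 * n ^ 2 := by rw [hn3, one_pow, one_mul]
        _ = n ^ (2 * 2 * 2) := by rw [← pow_mul, ← pow_add]
        _ = n := hfix
  intro x
  obtain ⟨u, hu⟩ := hπ uT
  obtain ⟨l, hl⟩ := hπ lT
  have hu' : u ∈ K := h3 u (by rw [hu]; decide +kernel)
  have hl' : l ∈ K := h3 l (by rw [hl]; decide +kernel)
  obtain ⟨i, j, k, m, h⟩ := gen_uT_lT (π x)
  set w := u ^ i.1 * l ^ j.1 * u ^ k.1 * l ^ m.1 with hw
  have hwK : w ∈ K := mul_mem (mul_mem (mul_mem (pow_mem hu' _) (pow_mem hl' _)) (pow_mem hu' _))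
    (pow_mem hl' _)
  have hd : x * w⁻¹ ∈ K := hR _ (by
    rw [map_mul, map_inv, hw]
    simp only [map_mul, map_pow, hu, hl, h, mul_inv_cancel])
  have := K.mul_mem hd hwK
  rwa [inv_mul_cancel_right] at this

/-- Exponent arithmetic modulo three. -/
def pw (a : X) (k : ZMod 3) : X := a ^ k.val

theorem three_zero : (3 : ZMod 3) = 0 := rfl

theorem pw_natCast {a : X} (h : a ^ 3 = 1) (n : ℕ) : pw a (n : ZMod 3) = a ^ n := by
  rw [pw, ZMod.val_natCast]
  conv_rhs => rw [← Nat.mod_add_div n 3, pow_add, pow_mul, h, one_pow, mul_one]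

theorem pw_add {a : X} (h : a ^ 3 = 1) (i j : ZMod 3) : pw a (i + j) = pw a i * pw a j := by
  have := pw_natCast h (i.val + j.val)
  rw [pow_add] at this
  simpa [pw, ZMod.natCast_zmod_val] using this

theorem pw_neg {a : X} (h : a ^ 3 = 1) (i : ZMod 3) : pw a (-i) = (pw a i)⁻¹ := by
  refine eq_inv_of_mul_eq_one_left ?_
  rw [← pw_add h, neg_add_cancel]
  simp [pw]

theorem pw_conj (g a : X) (i : ZMod 3) : g * pw a i * g⁻¹ = pw (g * a * g⁻¹) i := conj_pow.symm

/-- A lift system: the Heisenberg part of the structure. -/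
structure HeisData (X : Type*) [Group X] where
  π : X →* SL
  surj : Function.Surjective π
  s : X
  ζ : X
  sig : Vec → X
  s_sq : s * s = 1
  π_s : π s = negI
  ζ3 : ζ ^ 3 = 1
  ζ_central : ∀ g : X, g * ζ = ζ * g
  π_sig : ∀ v, π (sig v) = 1
  π_ζ : π ζ = 1
  sig_mul : ∀ v w, sig v * sig w = sig (v + w) * pw ζ (om v w)
  s_sig : ∀ v, s * sig v * s⁻¹ = (sig v)⁻¹
  repr : ∀ r, π r = 1 → ∃ v k, r = sig v * pw ζ k
  inj : ∀ v k w l, sig v * pw ζ k = sig w * pw ζ l → v = w ∧ k = l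

namespace HeisData

variable (d : HeisData X)

theorem pwζ_central (g : X) (k : ZMod 3) : g * pw d.ζ k = pw d.ζ k * g :=
  Commute.pow_right (d.ζ_central g) _

theorem π_pwζ (k : ZMod 3) : d.π (pw d.ζ k) = 1 := by simp [pw, d.π_ζ]

theorem sig_zero : d.sig 0 = 1 := by
  have h := d.sig_mul 0 0
  simpa [om, pw] using h

theorem sig_inv (v : Vec) : (d.sig v)⁻¹ = d.sig (-v) := by
  refine inv_eq_of_mul_eq_one_right ?_
  rw [d.sig_mul, add_neg_cancel, d.sig_zero, show om v (-v) = 0 by simp [om]; ring]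
  simp [pw]

/-- An element inverted by `s` in the kernel is a `sig`. -/
theorem eq_sig_of_inverted {r : X} (hr : d.π r = 1) (hs : d.s * r * d.s⁻¹ = r⁻¹) :
    ∃ v, r = d.sig v := by
  obtain ⟨v, k, rfl⟩ := d.repr r hr
  refine ⟨v, ?_⟩
  have h1 : d.s * (d.sig v * pw d.ζ k) * d.s⁻¹ = (d.sig v)⁻¹ * pw d.ζ k := by
    calc d.s * (d.sig v * pw d.ζ k) * d.s⁻¹
        = d.s * d.sig v * (pw d.ζ k * d.s⁻¹) := by group
      _ = d.s * d.sig v * (d.s⁻¹ * pw d.ζ k) := by rw [d.pwζ_central]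
      _ = d.s * d.sig v * d.s⁻¹ * pw d.ζ k := by group
      _ = _ := by rw [d.s_sig]
  rw [h1, mul_inv_rev, ← pw_neg d.ζ3, ← d.pwζ_central, mul_right_inj] at hs
  have := (d.inj v k v (-k) (by rw [hs])).2
  have hk : k = 0 := by linear_combination 2 * this - k * three_zero
  rw [hk]; simp [pw]

theorem mul_formula (v w : Vec) (k l : ZMod 3) :
    (d.sig v * pw d.ζ k) * (d.sig w * pw d.ζ l) = d.sig (v + w) * pw d.ζ (k + l + om v w) := by
  calc (d.sig v * pw d.ζ k) * (d.sig w * pw d.ζ l)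
      = d.sig v * (pw d.ζ k * d.sig w) * pw d.ζ l := by group
    _ = d.sig v * (d.sig w * pw d.ζ k) * pw d.ζ l := by rw [← d.pwζ_central (d.sig w)]
    _ = d.sig v * d.sig w * (pw d.ζ k * pw d.ζ l) := by group
    _ = d.sig (v + w) * (pw d.ζ (om v w) * (pw d.ζ k * pw d.ζ l)) := by rw [d.sig_mul]; group
    _ = _ := by rw [← pw_add d.ζ3, ← pw_add d.ζ3]; congr 2; ring

end HeisData

/-- Given a complement centralizing `s`, the model is isomorphic to the group. -/
theorem exists_triple_equiv (d : HeisData X) (sec : SL →* X) (hsec : ∀ h, d.π (sec h) = h)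
    (hcomm : ∀ h, sec h * d.s = d.s * sec h) (hneg : sec negI = d.s) :
    ∃ Φ : Triple → X, Function.Bijective Φ ∧ ∀ a b, Φ (tmul a b) = Φ a * Φ b := by
  have hex : ∀ h v, ∃ w, sec h * d.sig v * (sec h)⁻¹ = d.sig w := by
    intro h v
    refine d.eq_sig_of_inverted ?_ ?_
    · simp [d.π_sig]
    · calc d.s * (sec h * d.sig v * (sec h)⁻¹) * d.s⁻¹
          = (d.s * sec h) * d.sig v * (d.s * sec h)⁻¹ := by group
        _ = (sec h * d.s) * d.sig v * (sec h * d.s)⁻¹ := by rw [hcomm]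
        _ = sec h * (d.s * d.sig v * d.s⁻¹) * (sec h)⁻¹ := by group
        _ = _ := by rw [d.s_sig]; group
  choose act hact using hex
  have hinj : ∀ v w, d.sig v = d.sig w → v = w := fun v w h => (d.inj v 0 w 0 (by rw [h])).1
  have hadd : ∀ h v w, act h (v + w) = act h v + act h w ∧ om (act h v) (act h w) = om v w := by
    intro h v w
    have e : sec h * (d.sig v * d.sig w) * (sec h)⁻¹ =
        d.sig (act h v) * d.sig (act h w) := by
      rw [← hact, ← hact]; group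
    rw [d.sig_mul, d.sig_mul] at e
    have e2 : sec h * (d.sig (v + w) * pw d.ζ (om v w)) * (sec h)⁻¹ =
        d.sig (act h (v + w)) * pw d.ζ (om v w) := by
      rw [← hact]
      calc sec h * (d.sig (v + w) * pw d.ζ (om v w)) * (sec h)⁻¹
          = sec h * d.sig (v + w) * (pw d.ζ (om v w) * (sec h)⁻¹) := by group
        _ = _ := by rw [← d.pwζ_central]; group
    rw [e2] at e
    obtain ⟨h1, h2⟩ := d.inj _ _ _ _ e
    exact ⟨h1, h2.symm⟩
  have hsmul : ∀ h (c : ZMod 3) v, act h (c • v) = c • act h v := by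
    intro h c v
    have h0 : act h 0 = 0 := by
      have := (hadd h 0 0).1
      rw [add_zero] at this
      exact left_eq_add.1 this
    have hn : ∀ n : ℕ, act h (n • v) = n • act h v := by
      intro n
      induction n with
      | zero => simpa using h0
      | succ n ih => rw [succ_nsmul, succ_nsmul, (hadd h _ _).1, ih]
    have := hn c.val
    rwa [← Nat.cast_smul_eq_nsmul (ZMod 3), ← Nat.cast_smul_eq_nsmul (ZMod 3),
      ZMod.natCast_zmod_val] at this
  let M : SL → Matrix (Fin 2) (Fin 2) (ZMod 3) := fun h =>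
    Matrix.of fun i j => act h (Pi.single j 1) i
  have hM : ∀ h v, M h *ᵥ v = act h v := by
    intro h v
    conv_rhs => rw [show v = v 0 • Pi.single 0 1 + v 1 • Pi.single 1 1 by
      funext i; fin_cases i <;> simp]
    rw [(hadd h _ _).1, hsmul, hsmul]
    funext i
    simp [M, Matrix.mulVec, dotProduct, Fin.sum_univ_two, mul_comm]
  have hdet : ∀ h, (M h).det = 1 := by
    intro h
    have := (hadd h (Pi.single 0 1) (Pi.single 1 1)).2
    rw [Matrix.det_fin_two]
    simp only [om] at this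
    simp [M] at this ⊢
    linear_combination this
  let ρ : SL →* SL :=
    { toFun := fun h => ⟨M h, hdet h⟩
      map_one' := by
        apply Subtype.ext
        refine Matrix.ext_of_mulVec_single fun j => ?_
        show M 1 *ᵥ _ = (1 : Matrix (Fin 2) (Fin 2) (ZMod 3)) *ᵥ _
        rw [hM, Matrix.one_mulVec]
        apply hinj
        rw [← hact]; simp
      map_mul' := fun g h => by
        apply Subtype.ext
        refine Matrix.ext_of_mulVec_single fun j => ?_
        show M (g * h) *ᵥ _ = (M g * M h) *ᵥ _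
        rw [← Matrix.mulVec_mulVec, hM, hM, hM]
        apply hinj
        rw [← hact, ← hact, ← hact, map_mul]; group }
  have hρ : ∀ h v, (ρ h : Matrix (Fin 2) (Fin 2) (ZMod 3)) *ᵥ v = act h v := hM
  have hsne : negI ∉ ρ.ker := by
    intro h
    have h1 := hρ negI (Pi.single 0 1)
    rw [MonoidHom.mem_ker.1 h, Matrix.SpecialLinearGroup.coe_one, Matrix.one_mulVec] at h1
    have h2 := hact negI (Pi.single 0 1)
    rw [← h1, hneg, d.s_sig, d.sig_inv] at h2
    have h3 := congrFun (hinj _ _ h2) 0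
    rw [Pi.neg_apply, Pi.single_eq_same] at h3
    exact absurd h3 (by decide)
  have hρinj : Function.Injective ρ := by
    rw [← MonoidHom.ker_eq_bot_iff, eq_bot_iff]
    intro t ht
    by_contra htne
    rw [Subgroup.mem_bot] at htne
    rcases normal_meets t htne with h | h | h | ⟨g, h⟩
    · exact hsne (h ▸ ht)
    · exact hsne (h ▸ pow_mem ht 2)
    · exact hsne (h ▸ pow_mem ht 3)
    · refine hsne (h ▸ pow_mem (mul_mem ((MonoidHom.normal_ker ρ).conj_mem _ ht g) (inv_mem ht)) 2)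
  let ρe : SL ≃* SL := MulEquiv.ofBijective ρ ⟨hρinj, Finite.surjective_of_injective hρinj⟩
  refine ⟨fun a => d.sig a.1 * pw d.ζ a.2.1 * sec (ρe.symm a.2.2), ⟨?_, ?_⟩, ?_⟩
  · rintro ⟨v, k, A⟩ ⟨w, l, B⟩ h
    have h1 := congrArg d.π h
    simp only [map_mul, d.π_sig, d.π_pwζ, one_mul, hsec] at h1
    obtain rfl := ρe.symm.injective h1
    obtain ⟨rfl, rfl⟩ := d.inj _ _ _ _ (mul_right_cancel h)
    rfl
  · intro g
    obtain ⟨v, k, hvk⟩ := d.repr (g * (sec (d.π g))⁻¹) (by simp [hsec])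
    refine ⟨(v, k, ρe (d.π g)), ?_⟩
    show d.sig v * pw d.ζ k * sec (ρe.symm (ρe (d.π g))) = g
    rw [MulEquiv.symm_apply_apply, ← hvk, inv_mul_cancel_right]
  · rintro ⟨v, k, A⟩ ⟨w, l, B⟩
    show d.sig (v + (A : Matrix (Fin 2) (Fin 2) (ZMod 3)) *ᵥ w) *
        pw d.ζ (k + l + om v ((A : Matrix (Fin 2) (Fin 2) (ZMod 3)) *ᵥ w)) * sec (ρe.symm (A * B)) =
      (d.sig v * pw d.ζ k * sec (ρe.symm A)) * (d.sig w * pw d.ζ l * sec (ρe.symm B))
    have hA : (A : Matrix (Fin 2) (Fin 2) (ZMod 3)) *ᵥ w = act (ρe.symm A) w := by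
      rw [← hρ]
      congr 2
      exact (ρe.apply_symm_apply A).symm
    rw [hA, map_mul, map_mul, ← d.mul_formula, ← hact]
    calc d.sig v * pw d.ζ k * (sec (ρe.symm A) * d.sig w * (sec (ρe.symm A))⁻¹ * pw d.ζ l) *
          (sec (ρe.symm A) * sec (ρe.symm B))
        = d.sig v * pw d.ζ k * (sec (ρe.symm A) * d.sig w * ((sec (ρe.symm A))⁻¹ *
            (pw d.ζ l * sec (ρe.symm A)))) * sec (ρe.symm B) := by group
      _ = _ := by rw [← d.pwζ_central]; group

/-- The setting of the theorem. -/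
theorem exists_heisData (π : X →* SL) (hπ : Function.Surjective π) (R : Subgroup X)
    (hker : ∀ g, π g = 1 ↔ g ∈ R) (hcard : Nat.card R = 27) (hexp : ∀ r ∈ R, r ^ 3 = 1)
    (hZcard : Nat.card (Subgroup.center R) = 3)
    (hder : ∀ r ∈ R, ∀ u ∈ R, r * u * r⁻¹ * u⁻¹ ∈ (Subgroup.center R).map R.subtype)
    (hO2 : Cfsg.pCore 2 X = ⊥) :
    ∃ (d : HeisData X) (q : X), d.π = π ∧ q * q = d.s ∧ π q = g4 ∧ q ^ 4 = 1 ∨
      d.π = π ∧ q * q = d.s ∧ π q = g4⁻¹ ∧ q ^ 4 = 1 := by
  classical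
  haveI : Fact (Nat.Prime 3) := ⟨Nat.prime_three⟩
  set Z := (Subgroup.center R).map R.subtype with hZdef
  haveI hRn : R.Normal := ⟨fun r hr g => by
    rw [← hker]; simp [(hker r).2 hr]⟩
  have hZR : Z ≤ R := map_subtype_le _
  have hZc : Nat.card Z = 3 := by
    rw [hZdef, Subgroup.card_map_of_injective R.subtype_injective, hZcard]
  have hZmem : ∀ {z}, z ∈ Z ↔ z ∈ R ∧ ∀ r ∈ R, r * z = z * r := by
    intro z
    constructor
    · rintro ⟨c, hc, rfl⟩
      exact ⟨c.2, fun r hr => congrArg Subtype.val (Subgroup.mem_center_iff.1 hc ⟨r, hr⟩)⟩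
    · rintro ⟨h1, h2⟩
      exact ⟨⟨z, h1⟩, Subgroup.mem_center_iff.2 fun r => Subtype.ext (h2 r r.2), rfl⟩
  have hZconj : ∀ g, ∀ z ∈ Z, g * z * g⁻¹ ∈ Z := by
    intro g z hz
    rw [hZmem] at hz ⊢
    refine ⟨hRn.conj_mem z hz.1 g, fun r hr => ?_⟩
    have := hz.2 _ (hRn.conj_mem r hr g⁻¹)
    rw [inv_inv] at this
    calc r * (g * z * g⁻¹) = g * (g⁻¹ * r * g * z) * g⁻¹ := by group
      _ = g * (z * (g⁻¹ * r * g)) * g⁻¹ := by rw [this]
      _ = _ := by group
  have hZcen : ∀ g, ∀ z ∈ Z, g * z * g⁻¹ = z :=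
    central_of_card_three π hπ (MonoidHom.id X) Z hZc hZconj fun r hr z hz => by
      show r * z * r⁻¹ = z
      rw [(hZmem.1 hz).2 r ((hker r).1 hr), mul_inv_cancel_right]
  have hZcomm : ∀ g, ∀ z ∈ Z, g * z = z * g := fun g z hz => mul_inv_eq_iff_eq_mul.1 (hZcen g z hz)
  -- the element of order four
  obtain ⟨q₀, hq₀⟩ := hπ g4
  obtain ⟨m2, m, hm, hqm⟩ :=
    Nat.exists_eq_pow_mul_and_not_dvd (orderOf_pos q₀).ne' 2 (by norm_num)
  set q := q₀ ^ m with hq
  clear_value q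
  have hmodd : m % 2 = 1 := Nat.two_dvd_ne_zero.1 hm
  have hπq : π q = g4 ∨ π q = g4⁻¹ := by
    rw [hq, map_pow, hq₀, ← Nat.mod_add_div m 4, pow_add, pow_mul, g4_facts.2.1, one_pow, mul_one]
    have : m % 4 = 1 ∨ m % 4 = 3 := by omega
    rcases this with h | h <;> rw [h]
    · exact Or.inl (pow_one _)
    · exact Or.inr (eq_inv_of_mul_eq_one_left (by rw [← pow_succ]; exact g4_facts.2.1))
  have hq4 : q ^ 4 = 1 := by
    have hmem : q ^ 4 ∈ R := (hker _).1 (by
      rcases hπq with h | h <;> rw [map_pow, h]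
      · exact g4_facts.2.1
      · rw [inv_pow, g4_facts.2.1, inv_one])
    have h2 : (q ^ 4) ^ 2 ^ m2 = 1 := by
      rw [← pow_mul, hq, ← pow_mul, show m * (4 * 2 ^ m2) = 2 ^ m2 * m * 4 by ring, pow_mul,
        ← hqm, pow_orderOf_eq_one, one_pow]
    have hcop : Nat.Coprime (2 ^ m2) 3 := Nat.Coprime.pow_left _ (by norm_num)
    have := Nat.dvd_gcd (orderOf_dvd_of_pow_eq_one h2) (orderOf_dvd_of_pow_eq_one (hexp _ hmem))
    rw [hcop] at this
    exact orderOf_eq_one_iff.1 (Nat.dvd_one.1 this)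
  set s := q * q with hs
  clear_value s
  have hπs : π s = negI := by
    rw [hs, map_mul, ← g4_facts.1]
    rcases hπq with h | h <;> rw [h] <;> decide +kernel
  have hs2 : s * s = 1 := by rw [hs, ← hq4, pow_succ, pow_succ, pow_two]; group
  have hsi : s⁻¹ = s := inv_eq_of_mul_eq_one_right hs2
  have hsconj : ∀ g, ∃ r ∈ R, g * s * g⁻¹ = r * s := fun g =>
    ⟨g * s * g⁻¹ * s⁻¹, (hker _).1 (by simp [hπs, negI_central]), by group⟩
  let D : Subgroup X :=
    { carrier := {u | u ∈ R ∧ s * u = u * s}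
      one_mem' := ⟨R.one_mem, by simp⟩
      mul_mem' := fun {a b} ha hb => ⟨R.mul_mem ha.1 hb.1, by
        rw [← mul_assoc, ha.2, mul_assoc, hb.2, mul_assoc]⟩
      inv_mem' := fun {a} ha => ⟨R.inv_mem ha.1, ((Commute.inv_right (ha.2 : Commute s a)) : _)⟩ }
  have hmod : ∀ u ∈ R, s * u * s⁻¹ * u⁻¹ ∈ Z → u ∈ D := by
    intro u hu hz
    set z := s * u * s⁻¹ * u⁻¹ with hz'
    clear_value z
    refine ⟨hu, ?_⟩
    have h1 : s * u * s⁻¹ = z * u := by rw [hz']; group
    have h2 : u = z * z * u := by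
      calc u = s * (s * u * s⁻¹) * s⁻¹ := by
            rw [show s * (s * u * s⁻¹) * s⁻¹ = (s * s) * u * (s * s)⁻¹ by group, hs2]; simp
        _ = s * (z * u) * s⁻¹ := by rw [h1]
        _ = (s * z * s⁻¹) * (s * u * s⁻¹) := by group
        _ = z * z * u := by rw [hZcen s z hz, h1, mul_assoc]
    have h3 : z * z = 1 := right_eq_mul.1 h2
    have hz1 : z = 1 := by
      have := hexp z (hZR hz)
      rwa [pow_succ, pow_two, h3, one_mul] at this
    rw [hz1, one_mul] at h1
    exact mul_inv_eq_iff_eq_mul.1 h1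
  have hZD : Z ≤ D := fun z hz => ⟨hZR hz, hZcomm s z hz⟩
  haveI hDn : D.Normal := ⟨fun u hu g => by
    obtain ⟨r, hr, hrs⟩ := hsconj g
    set u' := g * u * g⁻¹ with hu'
    have hu'R : u' ∈ R := hRn.conj_mem u hu.1 g
    have hc : (r * s) * u' = u' * (r * s) := by
      rw [← hrs, hu', show g * s * g⁻¹ * (g * u * g⁻¹) = g * (s * u) * g⁻¹ by group, hu.2]
      group
    refine hmod u' hu'R ?_
    have : s * u' * s⁻¹ * u'⁻¹ = r⁻¹ * u' * r * u'⁻¹ := by
      rw [mul_left_inj]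
      calc s * u' * s⁻¹ = r⁻¹ * ((r * s) * u') * s⁻¹ := by group
        _ = r⁻¹ * u' * r := by rw [hc]; group
    rw [this]
    simpa using hder r⁻¹ (R.inv_mem hr) u' hu'R⟩
  have hDR : D ≤ R := fun u hu => hu.1
  have hDne : ¬ R ≤ D := by
    intro h
    have hsn : (Subgroup.zpowers s).Normal := ⟨fun x hx g => by
      obtain ⟨k, rfl⟩ := hx
      obtain ⟨r, hr, hrs⟩ := hsconj g
      have hr1 : r = 1 := by
        have h2 : r * s * (r * s) = 1 := by
          rw [← hrs, show g * s * g⁻¹ * (g * s * g⁻¹) = g * (s * s) * g⁻¹ by group, hs2]; group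
        rw [show r * s * (r * s) = r * (s * r) * s by group, (h hr).2,
          show r * (r * s) * s = r * r * (s * s) by group, hs2, mul_one] at h2
        have := hexp r hr
        rwa [pow_succ, pow_two, h2, one_mul] at this
      rw [← conj_zpow, hrs, hr1, one_mul]
      exact zpow_mem (Subgroup.mem_zpowers s) k⟩
    have hp : IsPGroup 2 (Subgroup.zpowers s) := by
      rintro ⟨x, hx⟩
      refine ⟨1, Subtype.ext ?_⟩
      obtain ⟨k, rfl⟩ := hx
      show (s ^ k) ^ 2 = 1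
      rw [← zpow_natCast, ← zpow_mul, mul_comm, zpow_mul, zpow_natCast, pow_two, hs2, one_zpow]
    have hs1 : s ∈ (⊥ : Subgroup X) := hO2 ▸ H19.le_pCore hsn hp (Subgroup.mem_zpowers s)
    rw [Subgroup.mem_bot] at hs1
    rw [hs1, map_one] at hπs
    exact g4_facts.2.2.1 hπs.symm
  have hDZ : D ≤ Z := by
    by_contra hnot
    have hd : Nat.card D ∣ 3 ^ 3 := by
      have := Subgroup.card_dvd_of_le hDR
      rwa [hcard] at this
    have hlt : Nat.card Z < Nat.card D := lt_of_le_of_ne (Subgroup.card_le_of_le hZD) fun h =>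
      hnot (Subgroup.eq_of_le_of_card_ge hZD h.ge).ge
    have hlt2 : Nat.card D < Nat.card R := lt_of_le_of_ne (Subgroup.card_le_of_le hDR) fun h =>
      hDne (Subgroup.eq_of_le_of_card_ge hDR h.ge).ge
    rw [hZc] at hlt
    rw [hcard] at hlt2
    obtain ⟨i, hi, hD⟩ := (Nat.dvd_prime_pow Nat.prime_three).1 hd
    have hD9 : Nat.card D = 9 := by
      rw [hD] at hlt hlt2 ⊢
      interval_cases i <;> omega
    haveI : Z.Normal := ⟨fun z hz g => hZconj g z hz⟩
    have hDcen : ∀ g, ∀ u ∈ D, g * u * g⁻¹ * u⁻¹ ∈ Z := by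
      intro g u hu
      have hN : Nat.card (D.map (QuotientGroup.mk' Z)) = 3 := by
        have h3 : Nat.card (D.map (QuotientGroup.mk' Z)) * Nat.card Z = Nat.card D := by
          have h4 := Subgroup.card_eq_card_quotient_mul_card_subgroup (Z.subgroupOf D)
          rw [h4, Nat.card_congr (Subgroup.subgroupOfEquivOfLe hZD).toEquiv]
          congr 1
          have h5 : D.map (QuotientGroup.mk' Z) = ((QuotientGroup.mk' Z).comp D.subtype).range := by
            rw [MonoidHom.range_comp, Subgroup.range_subtype]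
          rw [h5]
          refine Nat.card_congr ((QuotientGroup.quotientMulEquivOfEq ?_).trans
            (QuotientGroup.quotientKerEquivRange _)).symm.toEquiv
          ext x
          simp [Subgroup.mem_subgroupOf]
        rw [hD9, hZc] at h3
        omega
      have := central_of_card_three π hπ (QuotientGroup.mk' Z) _ hN
        (fun x n hn => by
          obtain ⟨w, hw, rfl⟩ := hn
          exact ⟨x * w * x⁻¹, hDn.conj_mem w hw x, by simp⟩)
        (fun r hr n hn => by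
          obtain ⟨w, hw, rfl⟩ := hn
          rw [← map_inv, ← map_mul, ← map_mul]
          exact (QuotientGroup.mk'_eq_mk' _).2 ⟨_, inv_mem (hder r ((hker r).1 hr) w (hDR hw)), by
            have := hZcomm (r * w * r⁻¹) _ (inv_mem (hder r ((hker r).1 hr) w (hDR hw)))
            rw [this]; group⟩)
        g _ ⟨u, hu, rfl⟩
      rw [← map_inv, ← map_mul, ← map_mul, QuotientGroup.mk'_eq_mk'] at this
      obtain ⟨z, hz, hzz⟩ := this
      have : g * u * g⁻¹ * u⁻¹ = z⁻¹ := by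
        rw [eq_mul_inv_of_mul_eq hzz, hZcomm u _ (inv_mem hz)]; group
      rw [this]
      exact inv_mem hz
    have hqD : ∀ u ∈ D, q * u * q⁻¹ = u := by
      intro u hu
      set z := q * u * q⁻¹ * u⁻¹ with hz'
      have hz : z ∈ Z := hDcen q u hu
      have h1 : q * u * q⁻¹ = z * u := by rw [hz']; group
      have hstep : ∀ j : ℕ, q ^ j * u * (q ^ j)⁻¹ = z ^ j * u := by
        intro j
        induction j with
        | zero => simp
        | succ j ih =>
          rw [pow_succ' q, show q * q ^ j * u * (q * q ^ j)⁻¹ = q * (q ^ j * u * (q ^ j)⁻¹) * q⁻¹ by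
            group, ih, show q * (z ^ j * u) * q⁻¹ = (q * z ^ j * q⁻¹) * (q * u * q⁻¹) by group,
            hZcen q _ (pow_mem hz j), h1, ← mul_assoc, ← pow_succ]
      have h4 := hstep 4
      rw [hq4, pow_succ, hexp z (hZR hz)] at h4
      have hz1 : z = 1 := by
        simp only [one_mul, inv_one, mul_one] at h4
        exact right_eq_mul.1 h4
      rw [h1, hz1, one_mul]
    have hDR3 : ∀ g, ∀ u ∈ R, g * u * g⁻¹ * u⁻¹ ∈ D := by
      intro g u hu
      have hN : Nat.card (R.map (QuotientGroup.mk' D)) = 3 := by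
        have h3 : Nat.card (R.map (QuotientGroup.mk' D)) * Nat.card D = Nat.card R := by
          have h4 := Subgroup.card_eq_card_quotient_mul_card_subgroup (D.subgroupOf R)
          rw [h4, Nat.card_congr (Subgroup.subgroupOfEquivOfLe hDR).toEquiv]
          congr 1
          have h5 : R.map (QuotientGroup.mk' D) = ((QuotientGroup.mk' D).comp R.subtype).range := by
            rw [MonoidHom.range_comp, Subgroup.range_subtype]
          rw [h5]
          refine Nat.card_congr ((QuotientGroup.quotientMulEquivOfEq ?_).trans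
            (QuotientGroup.quotientKerEquivRange _)).symm.toEquiv
          ext x
          simp [Subgroup.mem_subgroupOf]
        rw [hD9, hcard] at h3
        omega
      have hder' : ∀ r ∈ R, ∀ w ∈ R, r * w * r⁻¹ * w⁻¹ ∈ D := fun r hr w hw => hZD (hder r hr w hw)
      have := central_of_card_three π hπ (QuotientGroup.mk' D) _ hN
        (fun x n hn => by
          obtain ⟨w, hw, rfl⟩ := hn
          exact ⟨x * w * x⁻¹, hRn.conj_mem w hw x, by simp⟩)
        (fun r hr n hn => by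
          obtain ⟨w, hw, rfl⟩ := hn
          rw [← map_inv, ← map_mul, ← map_mul, QuotientGroup.mk'_eq_mk']
          refine ⟨(r * w * r⁻¹)⁻¹ * w, ?_, by group⟩
          have h6 := hDn.conj_mem _ (hder' r ((hker r).1 hr) w hw) (r * w * r⁻¹)⁻¹
          have h7 : (r * w * r⁻¹)⁻¹ * w = ((r * w * r⁻¹)⁻¹ * (r * w * r⁻¹ * w⁻¹) * (r * w * r⁻¹)⁻¹⁻¹)⁻¹ := by
            group
          rw [h7]
          exact inv_mem h6)
        g _ ⟨u, hu, rfl⟩
      rw [← map_inv, ← map_mul, ← map_mul, QuotientGroup.mk'_eq_mk'] at this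
      obtain ⟨z, hz, hzz⟩ := this
      have : g * u * g⁻¹ * u⁻¹ = u * z⁻¹ * u⁻¹ := by rw [eq_mul_inv_of_mul_eq hzz]
      rw [this]
      exact hDn.conj_mem _ (inv_mem hz) u
    apply hDne
    intro u hu
    set e := q * u * q⁻¹ * u⁻¹ with he'
    have he : e ∈ D := hDR3 q u hu
    have h1 : q * u * q⁻¹ = e * u := by rw [he']; group
    have hstep : ∀ j : ℕ, q ^ j * u * (q ^ j)⁻¹ = e ^ j * u := by
      intro j
      induction j with
      | zero => simp
      | succ j ih =>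
        rw [pow_succ' q, show q * q ^ j * u * (q * q ^ j)⁻¹ = q * (q ^ j * u * (q ^ j)⁻¹) * q⁻¹ by
          group, ih, show q * (e ^ j * u) * q⁻¹ = (q * e ^ j * q⁻¹) * (q * u * q⁻¹) by group,
          hqD _ (pow_mem he j), h1, ← mul_assoc, ← pow_succ]
    have h4 := hstep 4
    rw [hq4, pow_succ, hexp e (hDR he)] at h4
    have he1 : e = 1 := by
      simp only [one_mul, inv_one, mul_one] at h4
      exact right_eq_mul.1 h4
    rw [he1, one_mul] at h1
    have hqu : Commute q u := mul_inv_eq_iff_eq_mul.1 h1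
    exact ⟨hu, by rw [hs]; exact (hqu.mul_left hqu).eq⟩
  -- lifts inverted by s
  have hstar : ∀ u ∈ R, ∃ z ∈ Z, s * (u * z) * s⁻¹ = (u * z)⁻¹ := by
    intro u hu
    set w := s * u * s⁻¹ * u with hw
    clear_value w
    have hwR : w ∈ R := hw ▸ R.mul_mem (hRn.conj_mem u hu s) hu
    have hwD : w ∈ D := by
      refine hmod w hwR ?_
      have h1 : s * w * s⁻¹ = u * (s * u * s⁻¹) := by
        calc s * w * s⁻¹ = (s * s) * u * (s⁻¹ * u * s⁻¹) := by rw [hw]; group
          _ = u * (s * u * s⁻¹) := by rw [hs2, one_mul, hsi]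
      rw [h1, hw, show u * (s * u * s⁻¹) * (s * u * s⁻¹ * u)⁻¹ =
        u * (s * u * s⁻¹) * u⁻¹ * (s * u * s⁻¹)⁻¹ by group]
      exact hder u hu _ (hRn.conj_mem u hu s)
    have hwZ := hDZ hwD
    refine ⟨w, hwZ, ?_⟩
    have h1 : s * u * s⁻¹ = w * u⁻¹ := by rw [hw]; group
    have h3 : w * w = w⁻¹ := eq_inv_of_mul_eq_one_left (by rw [← pow_two, ← pow_succ]; exact hexp w hwR)
    calc s * (u * w) * s⁻¹ = (s * u * s⁻¹) * (s * w * s⁻¹) := by group
      _ = w * u⁻¹ * w := by rw [h1, hZcen s w hwZ]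
      _ = w * (u⁻¹ * w) := by group
      _ = w * (w * u⁻¹) := by rw [hZcomm u⁻¹ w hwZ]
      _ = w * w * u⁻¹ := by group
      _ = _ := by rw [h3]; exact (mul_inv_rev u w).symm
  have hne : ∃ u ∈ R, ∃ v ∈ R, u * v ≠ v * u := by
    by_contra h
    push Not at h
    have : Subgroup.center R = ⊤ := top_unique fun x _ => Subgroup.mem_center_iff.2 fun r =>
      Subtype.ext (h r r.2 x x.2)
    rw [this, Subgroup.card_top, hcard] at hZcard
    omega
  obtain ⟨u₁, hu₁, u₂, hu₂, hne⟩ := hne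
  obtain ⟨z₁, hz₁, hx⟩ := hstar u₁ hu₁
  obtain ⟨z₂, hz₂, hy⟩ := hstar u₂ hu₂
  set x := u₁ * z₁ with hxdef
  clear_value x
  set y := u₂ * z₂ with hydef
  clear_value y
  have hxR : x ∈ R := hxdef ▸ R.mul_mem hu₁ (hZR hz₁)
  have hyR : y ∈ R := hydef ▸ R.mul_mem hu₂ (hZR hz₂)
  set ζ := y * x * y⁻¹ * x⁻¹ with hζ
  clear_value ζ
  have hζZ : ζ ∈ Z := hζ ▸ hder y hyR x hxR
  have hζ3 : ζ ^ 3 = 1 := hexp ζ (hZR hζZ)
  have hζ1 : ζ ≠ 1 := by
    intro h
    apply hne
    have hyx : y * x = x * y := by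
      rw [hζ, mul_inv_eq_one, mul_inv_eq_iff_eq_mul] at h
      exact h
    have e1 : y * x = u₂ * u₁ * (z₂ * z₁) := by
      rw [hxdef, hydef, show u₂ * z₂ * (u₁ * z₁) = u₂ * (z₂ * u₁) * z₁ by group, ← hZcomm u₁ z₂ hz₂]
      group
    have e2 : x * y = u₁ * u₂ * (z₂ * z₁) := by
      rw [hxdef, hydef, show u₁ * z₁ * (u₂ * z₂) = u₁ * (z₁ * u₂) * z₂ by group, ← hZcomm u₂ z₁ hz₁,
        hZcomm z₂ z₁ hz₁]
      group
    rw [e1, e2, mul_left_inj] at hyx
    exact hyx.symm
  have hswap : ∀ a b : ℕ, y ^ a * x ^ b = x ^ b * y ^ a * ζ ^ (a * b) := by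
    have h1 : ∀ b : ℕ, y * x ^ b = x ^ b * y * ζ ^ b := by
      intro b
      induction b with
      | zero => simp
      | succ b ih =>
        have hyx : y * x = x * y * ζ := by
          rw [hZcomm (x * y) ζ hζZ, hζ]; group
        calc y * x ^ (b + 1) = (y * x ^ b) * x := by rw [pow_succ]; group
          _ = x ^ b * y * (ζ ^ b * x) := by rw [ih]; group
          _ = x ^ b * (y * x) * ζ ^ b := by rw [← hZcomm x _ (pow_mem hζZ b)]; group
          _ = x ^ (b + 1) * y * (ζ * ζ ^ b) := by rw [hyx, pow_succ]; group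
          _ = _ := by rw [← pow_succ']
    intro a b
    induction a with
    | zero => simp
    | succ a ih =>
      calc y ^ (a + 1) * x ^ b = y * (y ^ a * x ^ b) := by rw [pow_succ']; group
        _ = (y * x ^ b) * (y ^ a * ζ ^ (a * b)) := by rw [ih]; group
        _ = x ^ b * y * (ζ ^ b * y ^ a) * ζ ^ (a * b) := by rw [h1]; group
        _ = x ^ b * y ^ (a + 1) * (ζ ^ b * ζ ^ (a * b)) := by
          rw [← hZcomm (y ^ a) _ (pow_mem hζZ b), pow_succ' y]; group
        _ = _ := by rw [← pow_add]; congr 2; ring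
  have hx3 := hexp x hxR
  have hy3 := hexp y hyR
  let sig : Vec → X := fun v => pw x (v 0) * pw y (v 1) * pw ζ (-(v 0 * v 1))
  have hzc : ∀ (g : X) (k : ZMod 3), g * pw ζ k = pw ζ k * g := fun g k =>
    hZcomm g _ (pow_mem hζZ _)
  have hswap' : ∀ a b : ZMod 3, pw y a * pw x b = pw x b * pw y a * pw ζ (a * b) := by
    intro a b
    rw [pw, pw, hswap, ← pw_natCast hζ3, Nat.cast_mul, ZMod.natCast_zmod_val, ZMod.natCast_zmod_val]
  have hmul : ∀ v w, sig v * sig w = sig (v + w) * pw ζ (om v w) := by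
    intro v w
    show pw x (v 0) * pw y (v 1) * pw ζ (-(v 0 * v 1)) * (pw x (w 0) * pw y (w 1) * pw ζ (-(w 0 * w 1))) =
      pw x (v 0 + w 0) * pw y (v 1 + w 1) * pw ζ (-((v 0 + w 0) * (v 1 + w 1))) * pw ζ (om v w)
    calc pw x (v 0) * pw y (v 1) * pw ζ (-(v 0 * v 1)) * (pw x (w 0) * pw y (w 1) * pw ζ (-(w 0 * w 1)))
        = pw x (v 0) * pw y (v 1) * (pw ζ (-(v 0 * v 1)) * (pw x (w 0) * pw y (w 1))) *
            pw ζ (-(w 0 * w 1)) := by group
      _ = pw x (v 0) * (pw y (v 1) * pw x (w 0)) * pw y (w 1) *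
            (pw ζ (-(v 0 * v 1)) * pw ζ (-(w 0 * w 1))) := by rw [← hzc]; group
      _ = pw x (v 0) * pw x (w 0) * pw y (v 1) * (pw ζ (v 1 * w 0) * pw y (w 1)) *
            (pw ζ (-(v 0 * v 1)) * pw ζ (-(w 0 * w 1))) := by rw [hswap']; group
      _ = pw x (v 0) * pw x (w 0) * (pw y (v 1) * pw y (w 1)) *
            (pw ζ (v 1 * w 0) * (pw ζ (-(v 0 * v 1)) * pw ζ (-(w 0 * w 1)))) := by
          rw [← hzc (pw y (w 1))]; group
      _ = pw x (v 0 + w 0) * pw y (v 1 + w 1) *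
            pw ζ (v 1 * w 0 + (-(v 0 * v 1) + -(w 0 * w 1))) := by
          rw [← pw_add hx3, ← pw_add hy3, ← pw_add hζ3, ← pw_add hζ3]
      _ = _ := by
          rw [mul_assoc (pw x (v 0 + w 0) * pw y (v 1 + w 1)), ← pw_add hζ3]
          congr 2
          have h3 : (3 : ZMod 3) = 0 := rfl
          simp only [om]
          linear_combination (v 1 * w 0) * h3
  have hπR : ∀ r ∈ R, π r = 1 := fun r hr => (hker r).2 hr
  have hπsig : ∀ v, π (sig v) = 1 := fun v => hπR _ (R.mul_mem (R.mul_mem (R.pow_mem hxR _)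
    (R.pow_mem hyR _)) (R.pow_mem (hZR hζZ) _))
  have hssig : ∀ v, s * sig v * s⁻¹ = (sig v)⁻¹ := by
    intro v
    have e1 : s * sig v * s⁻¹ = pw x (-v 0) * pw y (-v 1) * pw ζ (-(v 0 * v 1)) := by
      show s * (pw x (v 0) * pw y (v 1) * pw ζ (-(v 0 * v 1))) * s⁻¹ = _
      calc s * (pw x (v 0) * pw y (v 1) * pw ζ (-(v 0 * v 1))) * s⁻¹
          = (s * pw x (v 0) * s⁻¹) * (s * pw y (v 1) * s⁻¹) * (s * pw ζ (-(v 0 * v 1)) * s⁻¹) := by
            group
        _ = _ := by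
          have e : s * pw ζ (-(v 0 * v 1)) * s⁻¹ = pw ζ (-(v 0 * v 1)) :=
            hZcen s _ (pow_mem hζZ _)
          rw [pw_conj, pw_conj, hx, hy, e, pw_neg hx3, pw_neg hy3]
          simp only [pw, inv_pow]
    have h := hmul v (-v)
    rw [e1]
    refine eq_inv_of_mul_eq_one_right ?_
    have h0 : sig (v + -v) * pw ζ (om v (-v)) = 1 := by
      simp [sig, pw, om, mul_comm]
    rw [h0] at h
    simpa [sig] using h
  have hinj0 : ∀ v, sig v ∈ Z → v = 0 := by
    intro v hv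
    have hsz : (sig v)⁻¹ = sig v := by rw [← hssig, hZcen s _ hv]
    have h1 : sig v = 1 := by
      have h2 : sig v * sig v = 1 := by nth_rw 1 [← hsz]; rw [inv_mul_cancel]
      have := hexp (sig v) (hZR hv)
      rwa [pow_succ, pow_two, h2, one_mul] at this
    have hc : ∀ w, sig v * sig w = sig w * sig v := fun w => by rw [h1, one_mul, mul_one]
    have hom : ∀ w, om v w = om w v := by
      intro w
      have h2 := hc w
      rw [hmul, hmul, add_comm w v, mul_right_inj] at h2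
      have hord : orderOf ζ = 3 := orderOf_eq_prime hζ3 hζ1
      have := pow_injOn_Iio_orderOf (x := ζ) (by rw [Set.mem_Iio, hord]; exact ZMod.val_lt _)
        (by rw [Set.mem_Iio, hord]; exact ZMod.val_lt _) h2
      exact ZMod.val_injective 3 this
    have a := hom (Pi.single 1 1)
    have b := hom (Pi.single 0 1)
    simp [om] at a b
    funext i
    revert i
    refine Fin.forall_fin_two.2 ⟨?_, ?_⟩
    · show v 0 = 0
      linear_combination 2 * a - v 0 * three_zero
    · show v 1 = 0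
      linear_combination -2 * b - v 1 * three_zero
  have hinj : ∀ v k w l, sig v * pw ζ k = sig w * pw ζ l → v = w ∧ k = l := by
    intro v k w l h
    have hv : v = w := by
      have h1 : sig (-w) * sig v ∈ Z := by
        have h2 : sig (-w) * sig v = (sig (-w) * sig w) * (pw ζ l * (pw ζ k)⁻¹) := by
          rw [← mul_inv_cancel_right (sig v) (pw ζ k), h]; group
        rw [h2, hmul, show sig (-w + w) = 1 by simp [sig, pw]]
        exact mul_mem (by rw [one_mul]; exact pow_mem hζZ _) (mul_mem (pow_mem hζZ _) (inv_mem (pow_mem hζZ _)))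
      rw [hmul] at h1
      have h3 : sig (-w + v) ∈ Z := by
        have := mul_mem h1 (inv_mem (pow_mem hζZ (om (-w) v).val))
        rwa [pw, mul_inv_cancel_right] at this
      have := hinj0 _ h3
      rw [neg_add_eq_zero] at this
      exact this.symm
    refine ⟨hv, ?_⟩
    subst hv
    have h2 := mul_left_cancel h
    have hord : orderOf ζ = 3 := orderOf_eq_prime hζ3 hζ1
    exact ZMod.val_injective 3 (pow_injOn_Iio_orderOf (x := ζ)
      (by rw [Set.mem_Iio, hord]; exact ZMod.val_lt _) (by rw [Set.mem_Iio, hord]; exact ZMod.val_lt _) h2)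
  have hrepr : ∀ r, π r = 1 → ∃ v k, r = sig v * pw ζ k := by
    intro r hr
    let f : Vec × ZMod 3 → R := fun p => ⟨sig p.1 * pw ζ p.2,
      R.mul_mem ((hker _).1 (hπsig _)) (R.pow_mem (hZR hζZ) _)⟩
    have hf : Function.Bijective f := by
      rw [Nat.bijective_iff_injective_and_card]
      refine ⟨fun p p' h => ?_, ?_⟩
      · obtain ⟨h1, h2⟩ := hinj _ _ _ _ (congrArg Subtype.val h)
        exact Prod.ext h1 h2
      · rw [hcard]; simp
    obtain ⟨⟨v, k⟩, hvk⟩ := hf.2 ⟨r, (hker r).1 hr⟩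
    exact ⟨v, k, (congrArg Subtype.val hvk).symm⟩
  let d : HeisData X :=
    { π := π, surj := hπ, s := s, ζ := ζ, sig := sig, s_sq := hs2, π_s := hπs, ζ3 := hζ3
      ζ_central := fun g => hZcomm g ζ hζZ, π_sig := hπsig, π_ζ := hπR ζ (hZR hζZ)
      sig_mul := hmul, s_sig := hssig, repr := hrepr, inj := hinj }
  rcases hπq with h | h
  · exact ⟨d, q, Or.inl ⟨rfl, hs.symm, h, hq4⟩⟩
  · exact ⟨d, q, Or.inr ⟨rfl, hs.symm, h, hq4⟩⟩

/-- The main structure theorem. -/
theorem exists_model (hR : Cfsg.IsExtraspecial 3 (Cfsg.pCore 3 X))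
    (hRcard : Nat.card (Cfsg.pCore 3 X) = 27) (hRexp : ∀ r ∈ Cfsg.pCore 3 X, r ^ 3 = 1)
    (π : X →* SL) (hπ : Function.Surjective π) (hker : ∀ g, π g = 1 ↔ g ∈ Cfsg.pCore 3 X)
    (hO2 : Cfsg.pCore 2 X = ⊥) (E : Subgroup X) (hEc : IsMulCommutative E)
    (hE3 : ∀ a ∈ E, a ^ 3 = 1) (hEcard : Nat.card E = 27) :
    ∃ Φ : Triple → X, Function.Bijective Φ ∧ ∀ a b, Φ (tmul a b) = Φ a * Φ b := by
  classical
  set R := Cfsg.pCore 3 X with hRdef
  have hcomm : ∀ x : R, ∀ u : R, x * u * x⁻¹ * u⁻¹ ∈ Subgroup.center R := by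
    intro x u
    have h2 : x * u * x⁻¹ * u⁻¹ ∈ commutator R := by
      rw [commutator_def, ← commutatorElement_def]
      exact Subgroup.commutator_mem_commutator (Subgroup.mem_top x) (Subgroup.mem_top u)
    rwa [hR.1.2.2] at h2
  obtain ⟨d, q₁, hq₁⟩ := exists_heisData π hπ R hker hRcard hRexp hR.2
    (fun r hr u hu => ⟨_, hcomm ⟨r, hr⟩ ⟨u, hu⟩, rfl⟩) hO2
  -- normalise the element of order four
  obtain ⟨q, hπd, hqq, hπq, hq4⟩ : ∃ q : X, d.π = π ∧ q * q = d.s ∧ π q = g4 ∧ q ^ 4 = 1 := by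
    rcases hq₁ with h | ⟨h1, h2, h3, h4⟩
    · exact ⟨q₁, h⟩
    · refine ⟨q₁⁻¹, h1, ?_, by rw [map_inv, h3, inv_inv], by rw [inv_pow, h4, inv_one]⟩
      rw [← mul_inv_rev, h2]
      exact inv_eq_of_mul_eq_one_right d.s_sq
  subst hπd
  -- an element of order three centralizing s
  have hER : ¬ E ≤ R := by
    intro h
    have heq : E = R := Subgroup.eq_of_le_of_card_ge h (by omega)
    have : Subgroup.center R = ⊤ := top_unique fun x _ => Subgroup.mem_center_iff.2 fun r => Subtype.ext (by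
      have := hEc.is_comm.comm (⟨r.1, heq ▸ r.2⟩ : E) ⟨x.1, heq ▸ x.2⟩
      exact (congrArg Subtype.val this : (r : X) * x = x * r))
    have h2 := hR.2
    rw [this, Subgroup.card_top, hRcard] at h2
    omega
  obtain ⟨a, haE, haR⟩ := SetLike.not_le_iff_exists.1 hER
  set r := a * d.s * a⁻¹ * d.s⁻¹ with hr
  have hrR : d.π r = 1 := by
    simp [hr, d.π_s, negI_central]
  have hsi : d.s⁻¹ = d.s := inv_eq_of_mul_eq_one_right d.s_sq
  have hras : a * d.s * a⁻¹ = r * d.s := by rw [hr]; group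
  have hrinv : d.s * r * d.s⁻¹ = r⁻¹ := by
    refine eq_inv_of_mul_eq_one_right ?_
    calc r * (d.s * r * d.s⁻¹) = r * d.s * (r * d.s) := by rw [hsi]; group
      _ = a * (d.s * d.s) * a⁻¹ := by rw [← hras]; group
      _ = 1 := by rw [d.s_sq]; group
  obtain ⟨vr, hvr⟩ := d.eq_sig_of_inverted hrR hrinv
  have haD : ∀ e ∈ E, d.π e = 1 → ∀ w, (∃ k, e = d.sig w * pw d.ζ k) → om vr w = om w vr := by
    intro e he _ w hw
    obtain ⟨k, rfl⟩ := hw
    have hae : a * (d.sig w * pw d.ζ k) = (d.sig w * pw d.ζ k) * a :=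
      congrArg Subtype.val (hEc.is_comm.comm (⟨a, haE⟩ : E) ⟨_, he⟩)
    have hawf : a * d.sig w * a⁻¹ = d.sig w := by
      rw [← mul_inv_cancel_right (a * d.sig w) (pw d.ζ k)]
      rw [mul_assoc a, hae, mul_assoc (d.sig w), ← d.pwζ_central a]
      group
    have h1 : (a * d.s * a⁻¹) * d.sig w * (a * d.s * a⁻¹)⁻¹ = (d.sig w)⁻¹ := by
      calc (a * d.s * a⁻¹) * d.sig w * (a * d.s * a⁻¹)⁻¹
          = a * (d.s * (a⁻¹ * d.sig w * a) * d.s⁻¹) * a⁻¹ := by group
        _ = a * (d.s * d.sig w * d.s⁻¹) * a⁻¹ := by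
            rw [show a⁻¹ * d.sig w * a = d.sig w by
              nth_rw 1 [← hawf]; group]
        _ = (a * d.sig w * a⁻¹)⁻¹ := by rw [d.s_sig]; group
        _ = _ := by rw [hawf]
    rw [hras, show r * d.s * d.sig w * (r * d.s)⁻¹ = r * (d.s * d.sig w * d.s⁻¹) * r⁻¹ by group,
      d.s_sig, hvr, mul_inv_eq_iff_eq_mul, d.sig_inv, d.sig_mul, d.sig_mul, add_comm (-w) vr] at h1
    have := (d.inj _ _ _ _ h1).2
    simp only [om, Pi.neg_apply] at this ⊢
    linear_combination -this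
  have hra : ∀ e ∈ E, d.π e = 1 → r * e = e * r := by
    intro e he hπe
    obtain ⟨w, k, rfl⟩ := d.repr e hπe
    have := haD _ he hπe w ⟨k, rfl⟩
    rw [hvr, ← mul_assoc, d.sig_mul, mul_assoc (d.sig (vr + w)), ← pw_add d.ζ3,
      mul_assoc (d.sig w), ← d.pwζ_central, ← mul_assoc, d.sig_mul, mul_assoc (d.sig (w + vr)),
      ← pw_add d.ζ3, add_comm w vr, this]
  have hEcard9 : Nat.card (E ⊓ R : Subgroup X) = 9 := by
    have h1 : Nat.card (E ⊓ R : Subgroup X) * Nat.card (E.map d.π) = Nat.card E := by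
      have h4 := Subgroup.card_eq_card_quotient_mul_card_subgroup ((d.π.comp E.subtype).ker)
      have hk : Nat.card (d.π.comp E.subtype).ker = Nat.card (E ⊓ R : Subgroup X) :=
        Nat.card_congr
          { toFun := fun x => ⟨x.1.1, x.1.2, (hker _).1 x.2⟩
            invFun := fun x => ⟨⟨x.1, x.2.1⟩, (hker _).2 x.2.2⟩
            left_inv := fun x => rfl
            right_inv := fun x => rfl }
      have hr : Nat.card (E ⧸ (d.π.comp E.subtype).ker) = Nat.card (E.map d.π) := by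
        rw [show E.map d.π = (d.π.comp E.subtype).range by
          rw [MonoidHom.range_comp, Subgroup.range_subtype]]
        exact Nat.card_congr (QuotientGroup.quotientKerEquivRange _).toEquiv
      rw [h4, hk, hr, mul_comm]
    have h2 : Nat.card (E.map d.π) ∣ 24 := by
      have := Subgroup.card_subgroup_dvd_card (E.map d.π)
      rwa [show Nat.card SL = 24 by rw [Nat.card_eq_fintype_card]; decide +kernel] at this
    rw [hEcard] at h1
    have h3 : Nat.card (E.map d.π) ∣ 27 := ⟨_, by rw [← h1, mul_comm]⟩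
    have h4 : Nat.card (E.map d.π) ∣ 3 := by simpa using Nat.dvd_gcd h2 h3
    rcases (Nat.dvd_prime Nat.prime_three).1 h4 with h | h
    · exfalso
      rw [Subgroup.card_eq_one] at h
      exact haR ((hker a).1 (Subgroup.mem_bot.1 (h ▸ Subgroup.mem_map_of_mem d.π haE)))
    · rw [h] at h1; omega
  have hrD : r ∈ (E ⊓ R : Subgroup X) := by
    by_contra hne
    let C : Subgroup X := R ⊓ Subgroup.centralizer ((E ⊓ R : Subgroup X) : Set X)
    have hle : (E ⊓ R : Subgroup X) ≤ C := fun x hx => ⟨hx.2, fun y hy =>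
      congrArg Subtype.val (hEc.is_comm.comm (⟨y, hy.1⟩ : E) ⟨x, hx.1⟩)⟩
    have hrC : r ∈ C := ⟨(hker r).1 hrR, fun y hy => (hra y hy.1 ((hker y).2 hy.2)).symm⟩
    have hlt : (E ⊓ R : Subgroup X) < C := lt_of_le_of_ne hle fun h => hne (h ▸ hrC)
    have hCR : C = R := by
      refine Subgroup.eq_of_le_of_card_ge inf_le_left ?_
      have h1 : Nat.card C ∣ 3 ^ 3 := by
        have := Subgroup.card_dvd_of_le (inf_le_left : C ≤ R)
        rwa [hRcard] at this
      have h2 : 9 < Nat.card C := by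
        have h3 := Subgroup.card_le_of_le hle
        rw [hEcard9] at h3
        refine lt_of_le_of_ne h3 fun h => hlt.ne (Subgroup.eq_of_le_of_card_ge hle ?_)
        rw [hEcard9, ← h]
      obtain ⟨i, hi, hC⟩ := (Nat.dvd_prime_pow Nat.prime_three).1 h1
      rw [hC] at h2
      rw [hRcard, hC]
      interval_cases i <;> omega
    have hsub : (E ⊓ R : Subgroup X).subgroupOf R ≤ Subgroup.center R := by
      intro x hx
      rw [Subgroup.mem_center_iff]
      intro y
      have hy : y.1 ∈ C := by rw [hCR]; exact y.2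
      exact Subtype.ext (hy.2 x.1 hx).symm
    have := Subgroup.card_le_of_le hsub
    rw [hR.2, Nat.card_congr (Subgroup.subgroupOfEquivOfLe inf_le_right).toEquiv, hEcard9] at this
    omega
  set a' := r * a with ha'
  clear_value a'
  have hra2 : r * a = a * r := congrArg Subtype.val (hEc.is_comm.comm (⟨r, hrD.1⟩ : E) ⟨a, haE⟩)
  have ha'3 : a' ^ 3 = 1 := ha' ▸ hE3 _ (E.mul_mem hrD.1 haE)
  have ha's : a' * d.s = d.s * a' := by
    have h1 : a' * d.s * a'⁻¹ = d.s := by
      calc a' * d.s * a'⁻¹ = r * (a * d.s * a⁻¹) * r⁻¹ := by rw [ha']; group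
        _ = r * r * (d.s * r⁻¹ * d.s⁻¹) * d.s := by rw [hras]; group
        _ = r * r * r * d.s := by
            rw [show d.s * r⁻¹ * d.s⁻¹ = (d.s * r * d.s⁻¹)⁻¹ by group, hrinv, inv_inv]
        _ = d.s := by rw [← pow_two, ← pow_succ, hRexp r hrD.2, one_mul]
    exact mul_inv_eq_iff_eq_mul.1 h1
  set t := d.π a' with ht
  have ht3 : t ^ 3 = 1 := by rw [ht, ← map_pow, ha'3, map_one]
  have ht1 : t ≠ 1 := by
    intro h
    apply haR
    have : a = r⁻¹ * a' := by rw [ha']; group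
    rw [← hker, this, map_mul, map_inv, hrR, ← ht, h, inv_one, one_mul]
  obtain ⟨f1, f2, f3⟩ := order_three_facts t ht3 ht1
  set q1 := a' * q * a'⁻¹ with hq1
  clear_value q1
  have hπq1 : d.π q1 = t * g4 * t⁻¹ := by rw [hq1]; simp [hπq, ht]
  have hqs : q * d.s = d.s * q := by rw [← hqq, mul_assoc]
  have hq1s : q1 * q1 = d.s := by
    rw [hq1, show a' * q * a'⁻¹ * (a' * q * a'⁻¹) = a' * (q * q) * a'⁻¹ by group, hqq, ha's]
    group
  have hq1c : q1 * d.s = d.s * q1 := by rw [← hq1s]; group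
  have key : ∀ g h : X, g * d.s = d.s * g → h * d.s = d.s * h → g * g = d.s → h * h = d.s →
      d.π g = d.π h → g = h := by
    intro g h hg hh hg2 hh2 hπ
    have hmem : d.π (g * h⁻¹) = 1 := by rw [map_mul, map_inv, hπ, mul_inv_cancel]
    have hc : d.s * (g * h⁻¹) = (g * h⁻¹) * d.s := by
      have hh' : h⁻¹ * d.s = d.s * h⁻¹ := ((Commute.inv_left (hh : Commute h d.s)) : _)
      rw [← mul_assoc, ← hg, mul_assoc, ← hh', mul_assoc]
    obtain ⟨v, k, hvk⟩ := d.repr _ hmem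
    have hv : v = 0 := by
      rw [hvk] at hc
      have h1 : d.s * d.sig v * d.s⁻¹ = d.sig v := by
        rw [mul_inv_eq_iff_eq_mul]
        refine mul_right_cancel (b := pw d.ζ k) ?_
        rw [mul_assoc, hc, mul_assoc, mul_assoc, d.pwζ_central]
      rw [d.s_sig, d.sig_inv] at h1
      have h2 := (d.inj (-v) 0 v 0 (by rw [h1])).1
      funext i
      have h3 := congrFun h2 i
      simp only [Pi.neg_apply, Pi.zero_apply] at h3 ⊢
      linear_combination h3 + v i * three_zero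
    rw [hv, d.sig_zero, one_mul] at hvk
    have hg' : g = pw d.ζ k * h := by rw [← hvk, inv_mul_cancel_right]
    have h2 : pw d.ζ k * pw d.ζ k = 1 := by
      have h3 := hg2
      rw [hg', show pw d.ζ k * h * (pw d.ζ k * h) = pw d.ζ k * (h * pw d.ζ k) * h by group,
        d.pwζ_central, show pw d.ζ k * (pw d.ζ k * h) * h = pw d.ζ k * pw d.ζ k * (h * h) by group,
        hh2] at h3
      exact mul_eq_right.1 h3
    have hk : k = 0 := by
      have := (d.inj 0 (k + k) 0 0 (by rw [pw_add d.ζ3, h2]; simp [pw])).2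
      linear_combination 2 * this - k * three_zero
    rw [hg', hk]; simp [pw]
  have hqinv : q⁻¹ * q⁻¹ = d.s := by rw [← mul_inv_rev, hqq]; exact hsi
  have r1 : q1 * q * q1⁻¹ = q⁻¹ := by
    refine key _ _ ?_ (Commute.inv_left (hqs : Commute q d.s)) ?_ hqinv ?_
    · exact (Commute.mul_left (Commute.mul_left hq1c hqs) (Commute.inv_left hq1c)).eq
    · rw [show q1 * q * q1⁻¹ * (q1 * q * q1⁻¹) = q1 * (q * q) * q1⁻¹ by group, hqq, hq1c]; group
    · rw [map_mul, map_mul, map_inv, map_inv, hπq1, hπq, f1]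
  have hqq1 : q * q1 * (q * q1) = d.s := by
    have : q1 * q = q⁻¹ * q1 := mul_inv_eq_iff_eq_mul.1 r1
    rw [show q * q1 * (q * q1) = q * (q1 * q) * q1 by group, this,
      show q * (q⁻¹ * q1) * q1 = q1 * q1 by group, hq1s]
  have r2 : a' * q1 * a'⁻¹ = q * q1 ∨ a' * q1 * a'⁻¹ = (q * q1)⁻¹ := by
    have hc1 : a' * q1 * a'⁻¹ * d.s = d.s * (a' * q1 * a'⁻¹) :=
      (Commute.mul_left (Commute.mul_left ha's hq1c) (Commute.inv_left ha's)).eq
    have hc2 : Commute (q * q1) d.s := Commute.mul_left hqs hq1c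
    have h2 : a' * q1 * a'⁻¹ * (a' * q1 * a'⁻¹) = d.s := by
      rw [show a' * q1 * a'⁻¹ * (a' * q1 * a'⁻¹) = a' * (q1 * q1) * a'⁻¹ by group, hq1s, ha's]; group
    rcases f2 with h | h
    · exact Or.inl (key _ _ hc1 hc2 h2 hqq1 (by simp [hπq1, hπq, ← ht, h]))
    · refine Or.inr (key _ _ hc1 (Commute.inv_left hc2) h2 ?_ (by
        rw [map_mul, map_mul, map_inv, map_inv, map_mul, hπq1, hπq, ← ht, h]))
      rw [← mul_inv_rev, hqq1]; exact hsi
  let W : Fin 4 × Fin 2 × Fin 3 → X := fun p => q ^ p.1.1 * q1 ^ p.2.1.1 * a' ^ p.2.2.1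
  have hW : ∀ (i j k : ℕ), q ^ i * q1 ^ j * a' ^ k ∈ Set.range W := by
    intro i j k
    have hj : q1 ^ j = q ^ (2 * (j / 2)) * q1 ^ (j % 2) := by
      conv_lhs => rw [← Nat.div_add_mod j 2, pow_add, pow_mul, pow_two, hq1s, ← hqq, ← pow_two,
        ← pow_mul]
    refine ⟨(⟨(i + 2 * (j / 2)) % 4, Nat.mod_lt _ (by norm_num)⟩, ⟨j % 2, Nat.mod_lt _ (by norm_num)⟩,
      ⟨k % 3, Nat.mod_lt _ (by norm_num)⟩), ?_⟩
    show q ^ ((i + 2 * (j / 2)) % 4) * q1 ^ (j % 2) * a' ^ (k % 3) = _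
    rw [hj, ← mul_assoc, ← pow_add]
    congr 1
    · congr 1
      conv_rhs => rw [← Nat.mod_add_div (i + 2 * (j / 2)) 4, pow_add, pow_mul, hq4, one_pow, mul_one]
    · conv_rhs => rw [← Nat.mod_add_div k 3, pow_add, pow_mul, ha'3, one_pow, mul_one]
  have hWq : ∀ w ∈ Set.range W, q * w ∈ Set.range W := by
    rintro _ ⟨⟨i, j, k⟩, rfl⟩
    have := hW (i.1 + 1) j.1 k.1
    simpa [W, pow_succ', mul_assoc] using this
  have hq1q : ∀ i : ℕ, q1 * q ^ i = q ^ (3 * i) * q1 := by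
    intro i
    have h3 : q⁻¹ = q ^ 3 := inv_eq_of_mul_eq_one_right (by rw [← pow_succ']; exact hq4)
    have h4 : q1 * q ^ i * q1⁻¹ = q ^ (3 * i) := by rw [← conj_pow, r1, h3, ← pow_mul]
    exact mul_inv_eq_iff_eq_mul.1 h4
  have hWq1 : ∀ w ∈ Set.range W, q1 * w ∈ Set.range W := by
    rintro _ ⟨⟨i, j, k⟩, rfl⟩
    show q1 * (q ^ i.1 * q1 ^ j.1 * a' ^ k.1) ∈ _
    rw [show q1 * (q ^ i.1 * q1 ^ j.1 * a' ^ k.1) = q1 * q ^ i.1 * q1 ^ j.1 * a' ^ k.1 by group,
      hq1q, mul_assoc (q ^ (3 * i.1)) q1, ← pow_succ']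
    exact hW _ _ _
  have hWa : ∀ w ∈ Set.range W, a' * w ∈ Set.range W := by
    rintro _ ⟨⟨i, j, k⟩, rfl⟩
    show a' * (q ^ i.1 * q1 ^ j.1 * a' ^ k.1) ∈ _
    have h1 : a' * (q ^ i.1 * q1 ^ j.1 * a' ^ k.1) =
        q1 ^ i.1 * ((a' * q1 * a'⁻¹) ^ j.1 * a' ^ (k.1 + 1)) := by
      rw [show q1 ^ i.1 = a' * q ^ i.1 * a'⁻¹ by rw [hq1, conj_pow], conj_pow, pow_succ']; group
    rw [h1]
    have hbase : q ^ 0 * q1 ^ 0 * a' ^ (k.1 + 1) ∈ Set.range W := hW _ _ _
    simp only [pow_zero, one_mul] at hbase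
    have hstep : ∀ n : ℕ, ∀ w ∈ Set.range W, (a' * q1 * a'⁻¹) ^ n * w ∈ Set.range W := by
      intro n
      induction n with
      | zero => intro w hw; simpa using hw
      | succ n ih =>
        intro w hw
        rw [pow_succ, mul_assoc]
        refine ih _ ?_
        rcases r2 with h | h <;> rw [h]
        · rw [mul_assoc]; exact hWq _ (hWq1 _ hw)
        · have h4 : (q * q1)⁻¹ = (q * q1) * (q * q1) * (q * q1) := by
            refine inv_eq_of_mul_eq_one_right ?_
            rw [show q * q1 * ((q * q1) * (q * q1) * (q * q1)) =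
              (q * q1 * (q * q1)) * (q * q1 * (q * q1)) by group, hqq1, d.s_sq]
          rw [h4]
          simp only [mul_assoc]
          exact hWq _ (hWq1 _ (hWq _ (hWq1 _ (hWq _ (hWq1 _ hw)))))
    have hq1n : ∀ n : ℕ, ∀ w ∈ Set.range W, q1 ^ n * w ∈ Set.range W := by
      intro n
      induction n with
      | zero => intro w hw; simpa using hw
      | succ n ih => intro w hw; rw [pow_succ, mul_assoc]; exact ih _ (hWq1 _ hw)
    exact hq1n _ _ (hstep _ _ hbase)
  have hWmul : ∀ u ∈ Set.range W, ∀ w ∈ Set.range W, u * w ∈ Set.range W := by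
    rintro _ ⟨⟨i, j, k⟩, rfl⟩ w hw
    show q ^ i.1 * q1 ^ j.1 * a' ^ k.1 * w ∈ _
    have hpow : ∀ g : X, (∀ w ∈ Set.range W, g * w ∈ Set.range W) → ∀ n : ℕ, ∀ w ∈ Set.range W,
        g ^ n * w ∈ Set.range W := by
      intro g hg n
      induction n with
      | zero => intro w hw; simpa using hw
      | succ n ih => intro w hw; rw [pow_succ, mul_assoc]; exact ih _ (hg _ hw)
    rw [mul_assoc, mul_assoc]
    exact hpow q hWq _ _ (hpow q1 hWq1 _ _ (hpow a' hWa _ _ hw))
  have hsurj : ∀ h : SL, ∃ p, d.π (W p) = h := fun h => by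
    obtain ⟨p, hp⟩ := f3 h
    exact ⟨p, by show d.π (_ * _ * _) = h; rw [map_mul, map_mul, map_pow, map_pow, map_pow, hπq, hπq1, ← ht]; exact hp⟩
  have hbij : Function.Bijective (fun p => d.π (W p)) := by
    rw [Nat.bijective_iff_surjective_and_card]
    refine ⟨hsurj, ?_⟩
    rw [show Nat.card SL = 24 by rw [Nat.card_eq_fintype_card]; decide +kernel]
    simp
  have huniq : ∀ u ∈ Set.range W, ∀ w ∈ Set.range W, d.π u = d.π w → u = w := by
    rintro _ ⟨p, rfl⟩ _ ⟨p', rfl⟩ h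
    rw [hbij.1 h]
  let e : Fin 4 × Fin 2 × Fin 3 ≃ SL := Equiv.ofBijective _ hbij
  have hWe : ∀ h, d.π (W (e.symm h)) = h := fun h => e.apply_symm_apply h
  let sec : SL →* X :=
    { toFun := fun h => W (e.symm h)
      map_one' := huniq _ ⟨_, rfl⟩ _ ⟨(0, 0, 0), by simp [W]⟩ (by rw [hWe, map_one])
      map_mul' := fun g h => huniq _ ⟨_, rfl⟩ _ (hWmul _ ⟨_, rfl⟩ _ ⟨_, rfl⟩)
        ((hWe (g * h)).trans ((congrArg₂ (· * ·) (hWe g) (hWe h)).symm.trans (map_mul d.π _ _).symm)) }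
  refine exists_triple_equiv d sec hWe (fun h => ?_) ?_
  · show W (e.symm h) * d.s = d.s * W (e.symm h)
    exact (Commute.mul_left (Commute.mul_left (Commute.pow_left hqs _) (Commute.pow_left hq1c _))
      (Commute.pow_left ha's _)).eq
  · refine huniq _ ⟨_, rfl⟩ _ ⟨(2, 0, 0), ?_⟩ ?_
    · simp [W, pow_two, hqq]
    · show d.π (W (e.symm negI)) = d.π d.s
      rw [hWe, d.π_s]

end Cfsg.Agent.H17.Jacobi
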