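import Cfsg.Agent.H26.CharPerm
import Cfsg.Agent.H57.VChar
import Mathlib.Data.Sym.Sym2
import Mathlib.GroupTheory.GroupAction.Quotient

/-!
# The two irreducible constituents of the action on unordered pairs and of the exterior square

For a group acting on `α` whose orbits on tuples of length at most four are those of the full
symmetric group, the class functions `π₂ - π` and `∧²(π - 1)` are irreducible characters.
-/

set_option autoImplicit false

namespace Cfsg.Agent.H17.PairChar

open scoped ComplexConjugate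
open Cfsg.Agent

/-- The canonical pattern of a tuple. -/
def pat {α : Type*} [DecidableEq α] {k : ℕ} (t : Fin k → α) : Fin k → Fin k := fun i =>
  (Finset.univ.filter fun j => t j = t i).min' ⟨i, by simp⟩

theorem pat_spec {α : Type*} [DecidableEq α] {k : ℕ} (t : Fin k → α) (i : Fin k) :
    t (pat t i) = t i := by
  have := Finset.min'_mem (Finset.univ.filter fun j => t j = t i) ⟨i, by simp⟩
  simpa [pat] using (Finset.mem_filter.1 this).2

theorem pat_eq_iff {α : Type*} [DecidableEq α] {k : ℕ} (t : Fin k → α) (i j : Fin k) :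
    pat t i = pat t j ↔ t i = t j := by
  constructor
  · intro h
    rw [← pat_spec t i, h, pat_spec t j]
  · intro h
    simp only [pat]
    congr 1
    ext l
    simp [h]

theorem pat_congr {α β : Type*} [DecidableEq α] [DecidableEq β] {k : ℕ} (t : Fin k → α)
    (u : Fin k → β) (h : ∀ i j, t i = t j ↔ u i = u j) : pat t = pat u := by
  funext i
  simp only [pat]
  congr 1
  ext l
  simp [h]

theorem pat_pat {α : Type*} [DecidableEq α] {k : ℕ} (t : Fin k → α) : pat (pat t) = pat t :=
  pat_congr _ _ (pat_eq_iff t)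

theorem pat_comp {α : Type*} [DecidableEq α] {k l : ℕ} (t : Fin k → α) (s : Fin l → Fin k) :
    pat (t ∘ s) = pat (pat t ∘ s) :=
  pat_congr _ _ fun i j => (pat_eq_iff t (s i) (s j)).symm

/-- The number of patterns fixed by `s`. -/
def patCount (k : ℕ) (s : Fin k → Fin k) : ℕ :=
  (Finset.univ.filter fun p : Fin k → Fin k => pat p = p ∧ pat (p ∘ s) = p).card

variable (G : Type*) [Group G] [Fintype G] {α : Type*} [Fintype α] [DecidableEq α] [MulAction G α]

/-- The orbits of `G` on `k`-tuples are given by the patterns. -/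
def IsPatternTransitive (α : Type*) [DecidableEq α] [MulAction G α] (k : ℕ) : Prop :=
  ∀ t u : Fin k → α, pat t = pat u → ∃ g : G, ∀ i, g • t i = u i

variable {G}

/-- The number of tuples on which `g` induces `s`. -/
noncomputable def num (α : Type*) [Fintype α] [DecidableEq α] [MulAction G α] {k : ℕ} (s : Fin k → Fin k)
    (g : G) : ℕ :=
  Nat.card {t : Fin k → α // ∀ i, g • t i = t (s i)}

theorem sum_num {k : ℕ} (s : Fin k → Fin k) (hk : k ≤ Fintype.card α)
    (htr : IsPatternTransitive G α k) :
    (∑ g : G, num α s g) = Nat.card G * patCount k s := by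
  classical
  have h1 : (∑ g : G, num α s g) =
      ∑ t : Fin k → α, (Finset.univ.filter fun g : G => ∀ i, g • t i = t (s i)).card := by
    have : ∀ g : G, num α s g =
        ∑ t : Fin k → α, if ∀ i, g • t i = t (s i) then 1 else 0 := fun g => by
      rw [num, Nat.card_eq_fintype_card, Fintype.card_subtype, Finset.card_filter]
    simp only [this]
    rw [Finset.sum_comm]
    exact Finset.sum_congr rfl fun t _ => (Finset.card_filter _ _).symm
  rw [h1, ← Finset.sum_fiberwise Finset.univ (fun t : Fin k → α => pat t)]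
  obtain ⟨e⟩ : Nonempty (Fin k ↪ α) :=
    Function.Embedding.nonempty_of_card_le (by simpa using hk)
  have key : ∀ p : Fin k → Fin k,
      (∑ t ∈ Finset.univ.filter (fun t : Fin k → α => pat t = p),
        (Finset.univ.filter fun g : G => ∀ i, g • t i = t (s i)).card) =
      if pat p = p ∧ pat (p ∘ s) = p then Nat.card G else 0 := by
    intro p
    by_cases hp : pat p = p ∧ pat (p ∘ s) = p
    · rw [if_pos hp]
      let t₀ : Fin k → α := e ∘ p
      have ht₀ : pat t₀ = p := by
        refine (pat_congr t₀ p fun i j => ?_).trans hp.1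
        exact ⟨fun h => e.injective h, fun h => congrArg e h⟩
      have hfib : ∀ t ∈ Finset.univ.filter (fun t : Fin k → α => pat t = p),
          (Finset.univ.filter fun g : G => ∀ i, g • t i = t (s i)).card =
          (Finset.univ.filter fun h : G => (fun i => h • t₀ i) = t).card := by
        intro t ht
        simp only [Finset.mem_filter, Finset.mem_univ, true_and] at ht
        obtain ⟨h₀, hh₀⟩ := htr t₀ t (ht₀.trans ht.symm)
        obtain ⟨g₁, hg₁⟩ := htr t (t ∘ s) (by rw [pat_comp, ht, hp.2])
        simp only [Function.comp_apply] at hg₁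
        refine Finset.card_bij' (fun g _ => g₁⁻¹ * g * h₀) (fun h _ => g₁ * (h * h₀⁻¹)) ?_ ?_ ?_ ?_
        · intro g hg
          simp only [Finset.mem_filter, Finset.mem_univ, true_and] at hg ⊢
          funext i
          rw [mul_smul, mul_smul, hh₀, hg, inv_smul_eq_iff, hg₁]
        · intro h hh
          simp only [Finset.mem_filter, Finset.mem_univ, true_and] at hh ⊢
          intro i
          have : h₀⁻¹ • t i = t₀ i := by rw [inv_smul_eq_iff, hh₀]
          rw [mul_smul, mul_smul, this]
          have := congrFun hh i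
          rw [this, hg₁]
        · intro g _
          group
        · intro h _
          group
      rw [Finset.sum_congr rfl hfib, ← Finset.card_eq_sum_card_fiberwise (s := (Finset.univ : Finset G))
        (fun h _ => ?_), Finset.card_univ, Nat.card_eq_fintype_card]
      simp only [Finset.coe_filter, Finset.mem_univ, true_and, Set.mem_setOf_eq]
      refine (pat_congr _ t₀ fun i j => ?_).trans ht₀
      exact smul_left_cancel_iff h
    · rw [if_neg hp]
      refine Finset.sum_eq_zero fun t ht => ?_
      simp only [Finset.mem_filter, Finset.mem_univ, true_and] at ht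
      rw [Finset.card_eq_zero, Finset.filter_eq_empty_iff]
      intro g _ hg
      refine hp ⟨by rw [← ht, pat_pat], ?_⟩
      rw [← ht, ← pat_comp]
      refine pat_congr _ _ fun i j => ?_
      simp only [Function.comp_apply, ← hg]
      exact smul_left_cancel_iff g
  rw [Finset.sum_congr rfl fun p _ => key p, ← Finset.sum_filter, Finset.sum_const, patCount,
    smul_eq_mul, mul_comm]

/-- The number of fixed points. -/
noncomputable def fixN (α : Type*) [Fintype α] [DecidableEq α] [MulAction G α] (g : G) : ℕ :=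
  Nat.card {x : α // g • x = x}

/-- The number of points fixed by the square. -/
noncomputable def fixSq (α : Type*) [Fintype α] [DecidableEq α] [MulAction G α] (g : G) : ℕ :=
  Nat.card {x : α // g • g • x = x}

theorem num_one (g : G) : num α (![0] : Fin 1 → Fin 1) g = fixN α g :=
  Nat.card_congr
    { toFun := fun t => ⟨t.1 0, t.2 0⟩
      invFun := fun x => ⟨fun _ => x.1, fun _ => x.2⟩
      left_inv := fun t => Subtype.ext (funext fun i => by simp [Subsingleton.elim i 0])
      right_inv := fun x => rfl }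

theorem num_two_id (g : G) : num α (![0, 1] : Fin 2 → Fin 2) g = fixN α g * fixN α g := by
  rw [fixN, ← Nat.card_prod]
  exact Nat.card_congr
    { toFun := fun t => (⟨t.1 0, t.2 0⟩, ⟨t.1 1, t.2 1⟩)
      invFun := fun x => ⟨![x.1.1, x.2.1], fun i => by
        fin_cases i
        · exact x.1.2
        · exact x.2.2⟩
      left_inv := fun t => Subtype.ext (funext fun i => by fin_cases i <;> rfl)
      right_inv := fun x => rfl }

theorem num_two_swap (g : G) : num α (![1, 0] : Fin 2 → Fin 2) g = fixSq α g :=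
  Nat.card_congr
    { toFun := fun t => ⟨t.1 0, by
        have h0 : g • t.1 0 = t.1 1 := t.2 0
        have h1 : g • t.1 1 = t.1 0 := t.2 1
        rw [h0, h1]⟩
      invFun := fun x => ⟨![x.1, g • x.1], fun i => by
        fin_cases i
        · rfl
        · exact x.2⟩
      left_inv := fun t => Subtype.ext (funext fun i => by
        fin_cases i
        · rfl
        · exact t.2 0)
      right_inv := fun x => rfl }

theorem num_three_id (g : G) : num α (![0, 1, 2] : Fin 3 → Fin 3) g =
    fixN α g * fixN α g * fixN α g := by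
  rw [← num_two_id, num, num, fixN, ← Nat.card_prod]
  exact Nat.card_congr
    { toFun := fun t => (⟨![t.1 0, t.1 1], fun i => by
        fin_cases i
        · exact t.2 0
        · exact t.2 1⟩, ⟨t.1 2, t.2 2⟩)
      invFun := fun x => ⟨![x.1.1 0, x.1.1 1, x.2.1], fun i => by
        fin_cases i
        · exact x.1.2 0
        · exact x.1.2 1
        · exact x.2.2⟩
      left_inv := fun t => Subtype.ext (funext fun i => by fin_cases i <;> rfl)
      right_inv := fun x => Prod.ext (Subtype.ext (funext fun i => by fin_cases i <;> rfl)) rfl }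

theorem num_three_swap (g : G) : num α (![1, 0, 2] : Fin 3 → Fin 3) g =
    fixSq α g * fixN α g := by
  rw [← num_two_swap, num, num, fixN, ← Nat.card_prod]
  exact Nat.card_congr
    { toFun := fun t => (⟨![t.1 0, t.1 1], fun i => by
        fin_cases i
        · exact t.2 0
        · exact t.2 1⟩, ⟨t.1 2, t.2 2⟩)
      invFun := fun x => ⟨![x.1.1 0, x.1.1 1, x.2.1], fun i => by
        fin_cases i
        · exact x.1.2 0
        · exact x.1.2 1
        · exact x.2.2⟩
      left_inv := fun t => Subtype.ext (funext fun i => by fin_cases i <;> rfl)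
      right_inv := fun x => Prod.ext (Subtype.ext (funext fun i => by fin_cases i <;> rfl)) rfl }

theorem num_pair (a b : Fin 2 → Fin 2) (g : G) :
    num α (![(a 0).castAdd 2, (a 1).castAdd 2, (b 0).natAdd 2, (b 1).natAdd 2] : Fin 4 → Fin 4) g =
      num α a g * num α b g := by
  rw [num, num, num, ← Nat.card_prod]
  refine Nat.card_congr
    { toFun := fun t => (⟨fun i => t.1 (i.castAdd 2), fun i => ?_⟩, ⟨fun i => t.1 (i.natAdd 2), fun i => ?_⟩)
      invFun := fun x => ⟨Fin.append x.1.1 x.2.1, fun i => ?_⟩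
      left_inv := fun t => Subtype.ext ?_
      right_inv := fun x => ?_ }
  · have := t.2 (i.castAdd 2)
    fin_cases i <;> exact this
  · have := t.2 (i.natAdd 2)
    fin_cases i <;> exact this
  · revert i
    refine Fin.addCases (m := 2) (n := 2) (fun i => ?_) (fun i => ?_)
    · rw [Fin.append_left, x.1.2]
      have : (![(a 0).castAdd 2, (a 1).castAdd 2, (b 0).natAdd 2, (b 1).natAdd 2] :
          Fin 4 → Fin 4) (i.castAdd 2) = (a i).castAdd 2 := by fin_cases i <;> rfl
      rw [this, Fin.append_left]
    · rw [Fin.append_right, x.2.2]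
      have : (![(a 0).castAdd 2, (a 1).castAdd 2, (b 0).natAdd 2, (b 1).natAdd 2] :
          Fin 4 → Fin 4) (i.natAdd 2) = (b i).natAdd 2 := by fin_cases i <;> rfl
      rw [this, Fin.append_right]
  · exact Fin.append_castAdd_natAdd (m := 2) (n := 2) (f := t.1)
  · exact Prod.ext (Subtype.ext (funext fun i => Fin.append_left ..))
      (Subtype.ext (funext fun i => Fin.append_right ..))

/-- The action on unordered pairs (possibly equal). -/
@[reducible] def upairAction (G α : Type*) [Group G] [MulAction G α] : MulAction G (Sym2 α) where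
  smul g := Sym2.map (g • ·)
  one_smul z := by
    induction z using Sym2.ind with
    | h x y =>
      show Sym2.map _ s(x, y) = s(x, y)
      rw [Sym2.map_mk, one_smul, one_smul]
  mul_smul g h z := by
    induction z using Sym2.ind with
    | h x y =>
      show Sym2.map _ s(x, y) = Sym2.map _ (Sym2.map _ s(x, y))
      rw [Sym2.map_mk, Sym2.map_mk, Sym2.map_mk, mul_smul, mul_smul]

attribute [local instance] upairAction

theorem two_mul_fix_upair (g : G) :
    2 * Nat.card (MulAction.fixedBy (Sym2 α) g) = fixN α g * fixN α g + fixSq α g := by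
  classical
  have hfix : ∀ x y : α, s(x, y) ∈ MulAction.fixedBy (Sym2 α) g ↔
      (g • x = x ∧ g • y = y) ∨ (g • x = y ∧ g • y = x) := by
    intro x y
    rw [MulAction.mem_fixedBy]
    show Sym2.map _ s(x, y) = s(x, y) ↔ _
    rw [Sym2.map_mk, Sym2.eq_iff]
  set A := Finset.univ.filter fun t : Fin 2 → α => ∀ i, g • t i = t ((![0, 1] : Fin 2 → Fin 2) i)
    with hAdef
  set B := Finset.univ.filter fun t : Fin 2 → α => ∀ i, g • t i = t ((![1, 0] : Fin 2 → Fin 2) i)
    with hBdef
  have cA : fixN α g * fixN α g = A.card := by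
    rw [← num_two_id, num, Nat.card_eq_fintype_card, Fintype.card_subtype, hAdef]
  have cB : fixSq α g = B.card := by
    rw [← num_two_swap, num, Nat.card_eq_fintype_card, Fintype.card_subtype, hBdef]
  rw [cA, cB]
  let S : Finset (Sym2 α) :=
    Finset.univ.filter fun z => z ∈ MulAction.fixedBy (Sym2 α) g
  have hS : Nat.card (MulAction.fixedBy (Sym2 α) g) = S.card := by
    rw [← Fintype.card_subtype, ← Nat.card_eq_fintype_card]
  have hA : ∀ x y : α, (![x, y] : Fin 2 → α) ∈ A ↔ g • x = x ∧ g • y = y := by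
    intro x y; simp [A, Fin.forall_fin_two]
  have hB : ∀ x y : α, (![x, y] : Fin 2 → α) ∈ B ↔ g • x = y ∧ g • y = x := by
    intro x y; simp [B, Fin.forall_fin_two]
  let f : (Fin 2 → α) → Sym2 α := fun t => s(t 0, t 1)
  have hAf : ∀ t ∈ A, f t ∈ S := by
    intro t ht
    simp only [A, Finset.mem_filter, Finset.mem_univ, true_and] at ht
    exact Finset.mem_filter.2 ⟨Finset.mem_univ _, (hfix _ _).2 (Or.inl ⟨ht 0, ht 1⟩)⟩
  have hBf : ∀ t ∈ B, f t ∈ S := by
    intro t ht
    simp only [B, Finset.mem_filter, Finset.mem_univ, true_and] at ht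
    exact Finset.mem_filter.2 ⟨Finset.mem_univ _, (hfix _ _).2 (Or.inr ⟨ht 0, ht 1⟩)⟩
  rw [hS, Finset.card_eq_sum_card_fiberwise (s := A) (f := f) (t := S) hAf,
    Finset.card_eq_sum_card_fiberwise (s := B) (f := f) (t := S) hBf, ← Finset.sum_add_distrib,
    mul_comm 2 S.card, ← smul_eq_mul, ← Finset.sum_const]
  refine Finset.sum_congr rfl fun z hz => ?_
  induction z using Sym2.ind with
  | h x y =>
    have hz' := (hfix x y).1 (Finset.mem_filter.1 hz).2
    have hpre : ∀ T : Finset (Fin 2 → α), T.filter (fun t => f t = s(x, y)) =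
        ({![x, y], ![y, x]} : Finset (Fin 2 → α)).filter (fun t => t ∈ T) := by
      intro T
      ext t
      simp only [Finset.mem_filter, Finset.mem_insert, Finset.mem_singleton, f, Sym2.eq_iff]
      constructor
      · rintro ⟨ht, ⟨h0, h1⟩ | ⟨h0, h1⟩⟩
        · exact ⟨Or.inl (funext fun i => by fin_cases i <;> simp [h0, h1]), ht⟩
        · exact ⟨Or.inr (funext fun i => by fin_cases i <;> simp [h0, h1]), ht⟩
      · rintro ⟨rfl | rfl, ht⟩
        · exact ⟨ht, Or.inl ⟨rfl, rfl⟩⟩
        · exact ⟨ht, Or.inr ⟨rfl, rfl⟩⟩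
    rw [hpre A, hpre B]
    by_cases hxy : x = y
    · subst hxy
      have hgx : g • x = x := by rcases hz' with h | h <;> exact h.1
      simp [Finset.filter_singleton, hA, hB, hgx]
    · have hne : (![x, y] : Fin 2 → α) ≠ ![y, x] := fun h => hxy (congrFun h 0)
      simp only [Finset.filter_insert, Finset.filter_singleton, hA, hB]
      rcases hz' with ⟨h1, h2⟩ | ⟨h1, h2⟩
      · simp [h1, h2, hxy, Ne.symm hxy, hne]
      · simp [h1, h2, hxy, Ne.symm hxy, hne]

theorem avg_num {k : ℕ} (s : Fin k → Fin k) (c : ℕ) (hc : patCount k s = c)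
    (hk : k ≤ Fintype.card α) (htr : IsPatternTransitive G α k) :
    (∑ g : G, (num α s g : ℂ)) = (Nat.card G : ℂ) * (c : ℂ) := by
  rw [← Nat.cast_sum, sum_num s hk htr, hc, Nat.cast_mul]

theorem sums (hk : 4 ≤ Fintype.card α) (h4 : IsPatternTransitive G α 4) :
    let A := fun g : G => (fixN α g : ℂ)
    let W := fun g : G => (fixSq α g : ℂ)
    let n := (Nat.card G : ℂ)
    (∑ g, A g = n * 1) ∧ (∑ g, A g * A g = n * 2) ∧ (∑ g, W g = n * 2) ∧
    (∑ g, A g * A g * A g = n * 5) ∧ (∑ g, W g * A g = n * 3) ∧
    (∑ g, A g * A g * (A g * A g) = n * 15) ∧ (∑ g, A g * A g * W g = n * 7) ∧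
    (∑ g, W g * W g = n * 7) := by
  have down : ∀ k, 1 ≤ k → k ≤ 4 → IsPatternTransitive G α k := by
    intro k hk1 hk4 t u htu
    let ι : Fin 4 → Fin k := fun i => ⟨min i.1 (k - 1), by omega⟩
    obtain ⟨g, hg⟩ := h4 (t ∘ ι) (u ∘ ι) (by rw [pat_comp, pat_comp u, htu])
    refine ⟨g, fun i => ?_⟩
    have := hg ⟨i.1, by omega⟩
    have hi : ι ⟨i.1, by omega⟩ = i := Fin.ext (by simp [ι]; omega)
    simpa [hi] using this
  refine ⟨?_, ?_, ?_, ?_, ?_, ?_, ?_, ?_⟩
  · have := avg_num (α := α) (![0] : Fin 1 → Fin 1) 1 (by decide +kernel) (by omega) (down 1 le_rfl (by omega))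
    simpa [num_one] using this
  · have := avg_num (α := α) (![0, 1] : Fin 2 → Fin 2) 2 (by decide +kernel) (by omega) (down 2 (by omega) (by omega))
    simpa [num_two_id] using this
  · have := avg_num (α := α) (![1, 0] : Fin 2 → Fin 2) 2 (by decide +kernel) (by omega) (down 2 (by omega) (by omega))
    simpa [num_two_swap] using this
  · have := avg_num (α := α) (![0, 1, 2] : Fin 3 → Fin 3) 5 (by decide +kernel) (by omega) (down 3 (by omega) (by omega))
    simpa [num_three_id] using this
  · have := avg_num (α := α) (![1, 0, 2] : Fin 3 → Fin 3) 3 (by decide +kernel) (by omega) (down 3 (by omega) (by omega))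
    simpa [num_three_swap] using this
  · have := avg_num (α := α) (![((![0, 1] : Fin 2 → Fin 2) 0).castAdd 2, ((![0, 1] : Fin 2 → Fin 2) 1).castAdd 2, ((![0, 1] : Fin 2 → Fin 2) 0).natAdd 2, ((![0, 1] : Fin 2 → Fin 2) 1).natAdd 2] : Fin 4 → Fin 4) 15 ?_ hk h4
    · simp only [num_pair, num_two_id, Nat.cast_mul] at this
      simpa using this
    · decide +kernel
  · have := avg_num (α := α) (![((![0, 1] : Fin 2 → Fin 2) 0).castAdd 2, ((![0, 1] : Fin 2 → Fin 2) 1).castAdd 2, ((![1, 0] : Fin 2 → Fin 2) 0).natAdd 2, ((![1, 0] : Fin 2 → Fin 2) 1).natAdd 2] : Fin 4 → Fin 4) 7 ?_ hk h4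
    · simp only [num_pair, num_two_id, num_two_swap, Nat.cast_mul] at this
      simpa using this
    · decide +kernel
  · have := avg_num (α := α) (![((![1, 0] : Fin 2 → Fin 2) 0).castAdd 2, ((![1, 0] : Fin 2 → Fin 2) 1).castAdd 2, ((![1, 0] : Fin 2 → Fin 2) 0).natAdd 2, ((![1, 0] : Fin 2 → Fin 2) 1).natAdd 2] : Fin 4 → Fin 4) 7 ?_ hk h4
    · simp only [num_pair, num_two_swap, Nat.cast_mul] at this
      simpa using this
    · decide +kernel

/-- The constituent of the action on unordered pairs. -/
noncomputable def chiPair (α : Type*) [Fintype α] [DecidableEq α] [MulAction G α] : G → ℂ :=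
  fun g => ((fixN α g : ℂ) * fixN α g + fixSq α g - 4 * fixN α g) / 2

/-- The exterior square of the deleted permutation character. -/
noncomputable def chiExt (α : Type*) [Fintype α] [DecidableEq α] [MulAction G α] : G → ℂ :=
  fun g => ((fixN α g : ℂ) * fixN α g - fixSq α g - 2 * fixN α g + 2) / 2

theorem permChar_eq_fixN (g : G) : H26.permChar α g = (fixN α g : ℂ) := rfl

theorem permChar_upair (g : G) :
    H26.permChar (G := G) (Sym2 α) g = ((fixN α g : ℂ) * fixN α g + fixSq α g) / 2 := by
  rw [H26.permChar, eq_div_iff (two_ne_zero), mul_comm]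
  exact_mod_cast two_mul_fix_upair g

theorem gen_chiPair : Cfsg.IsGeneralizedCharacter G (chiPair α) := by
  refine ⟨H26.permChar (G := G) (Sym2 α), H26.permChar α + H26.permChar α,
    H26.isCharacter_permChar _, H26.isCharacter_add (H26.isCharacter_permChar _)
      (H26.isCharacter_permChar _), ?_⟩
  funext g
  simp only [Pi.sub_apply, Pi.add_apply, chiPair]
  rw [permChar_upair, permChar_eq_fixN]
  ring

theorem gen_chiExt : Cfsg.IsGeneralizedCharacter G (chiExt α) := by
  refine ⟨H26.permChar α * H26.permChar α + (fun _ => 1), H26.permChar (G := G) (Sym2 α) + H26.permChar α,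
    H26.isCharacter_add (H26.isCharacter_mul (H26.isCharacter_permChar _)
      (H26.isCharacter_permChar _)) (H26.irr_isCharacter (H26.oneIrr G)),
    H26.isCharacter_add (H26.isCharacter_permChar _) (H26.isCharacter_permChar _), ?_⟩
  funext g
  simp only [Pi.sub_apply, Pi.add_apply, Pi.mul_apply, chiExt]
  rw [permChar_upair, permChar_eq_fixN]
  ring

theorem irr_of_norm {θ : G → ℂ} (h : Cfsg.IsGeneralizedCharacter G θ)
    (h1 : Cfsg.classInner θ θ = 1) (d : ℕ) (hd : θ 1 = d) : Cfsg.IsIrrCharacter G θ := by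
  refine (H57.gen_norm_one h h1).resolve_right fun h' => ?_
  have h2 := H57.gen_norm_one_degree_ne_zero h h1
  obtain ⟨m, hm⟩ := H26.exists_nat_char_one (H26.isCharacter_of_irr h')
  rw [Pi.neg_apply, hd] at hm
  have h3 : ((d + m : ℕ) : ℂ) = 0 := by
    push_cast
    linear_combination -hm
  rw [Nat.cast_eq_zero] at h3
  exact h2 (by rw [hd, show d = 0 by omega]; simp)

theorem fixN_one : fixN α (1 : G) = Fintype.card α := by
  rw [fixN, Nat.card_eq_fintype_card]
  exact Fintype.card_of_subtype _ (fun x => by simp) |>.trans (Finset.card_univ)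

theorem fixSq_one : fixSq α (1 : G) = Fintype.card α := by
  rw [fixSq, Nat.card_eq_fintype_card]
  exact Fintype.card_of_subtype _ (fun x => by simp) |>.trans (Finset.card_univ)

theorem irr_chiPair (hk : 4 ≤ Fintype.card α) (h4 : IsPatternTransitive G α 4) :
    Cfsg.IsIrrCharacter G (chiPair α) := by
  refine irr_of_norm gen_chiPair ?_ ((Fintype.card α * (Fintype.card α - 3)) / 2) ?_
  · obtain ⟨s1, s2, s3, s4, s5, s6, s7, s8⟩ := sums hk h4
    have hG : (Nat.card G : ℂ) ≠ 0 := Nat.cast_ne_zero.2 Nat.card_pos.ne'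
    have hs : ∀ g : G, chiPair α g * conj (chiPair α g) =
        (1/4) * ((fixN α g : ℂ) * fixN α g * ((fixN α g : ℂ) * fixN α g)) +
        (1/2) * ((fixN α g : ℂ) * fixN α g * fixSq α g) +
        (1/4) * ((fixSq α g : ℂ) * fixSq α g) -
        2 * ((fixN α g : ℂ) * fixN α g * fixN α g) -
        2 * ((fixSq α g : ℂ) * fixN α g) + 4 * ((fixN α g : ℂ) * fixN α g) := fun g => by
      simp only [chiPair, map_div₀, map_sub, map_add, map_mul, map_natCast, map_ofNat]
      ring
    rw [Cfsg.classInner, Finset.sum_congr rfl fun g _ => hs g]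
    simp only [Finset.sum_add_distrib, Finset.sum_sub_distrib, ← Finset.mul_sum]
    rw [s2, s4, s5, s6, s7, s8]
    field_simp
    ring
  · rw [chiPair, fixN_one, fixSq_one]
    obtain ⟨m, hm⟩ : ∃ m, Fintype.card α = m + 3 := ⟨Fintype.card α - 3, by omega⟩
    rw [hm, Nat.add_sub_cancel]
    have h2 : 2 ∣ (m + 3) * m := by
      rcases Nat.even_or_odd m with h | h
      · exact (even_iff_two_dvd.1 h).mul_left _
      · exact (even_iff_two_dvd.1 (h.add_odd (by decide))).mul_right _
    obtain ⟨c, hc⟩ := h2
    rw [hc, Nat.mul_div_cancel_left _ two_pos]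
    have hc' : ((m : ℂ) + 3) * m = 2 * c := by exact_mod_cast hc
    push_cast
    linear_combination (1/2) * hc'

theorem irr_chiExt (hk : 4 ≤ Fintype.card α) (h4 : IsPatternTransitive G α 4) :
    Cfsg.IsIrrCharacter G (chiExt α) := by
  refine irr_of_norm gen_chiExt ?_ (((Fintype.card α - 1) * (Fintype.card α - 2)) / 2) ?_
  · obtain ⟨s1, s2, s3, s4, s5, s6, s7, s8⟩ := sums hk h4
    have hG : (Nat.card G : ℂ) ≠ 0 := Nat.cast_ne_zero.2 Nat.card_pos.ne'
    have hs : ∀ g : G, chiExt α g * conj (chiExt α g) =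
        (1/4) * ((fixN α g : ℂ) * fixN α g * ((fixN α g : ℂ) * fixN α g)) -
        (1/2) * ((fixN α g : ℂ) * fixN α g * fixSq α g) +
        (1/4) * ((fixSq α g : ℂ) * fixSq α g) -
        ((fixN α g : ℂ) * fixN α g * fixN α g) +
        ((fixSq α g : ℂ) * fixN α g) + 2 * ((fixN α g : ℂ) * fixN α g) -
        (fixSq α g : ℂ) - 2 * (fixN α g : ℂ) + 1 := fun g => by
      simp only [chiExt, map_div₀, map_sub, map_add, map_mul, map_natCast, map_ofNat]
      ring
    rw [Cfsg.classInner, Finset.sum_congr rfl fun g _ => hs g]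
    simp only [Finset.sum_add_distrib, Finset.sum_sub_distrib, ← Finset.mul_sum, Finset.sum_const,
      Finset.card_univ, nsmul_eq_mul, mul_one]
    rw [s1, s2, s3, s4, s5, s6, s7, s8, ← Nat.card_eq_fintype_card]
    field_simp
    ring
  · rw [chiExt, fixN_one, fixSq_one]
    obtain ⟨m, hm⟩ : ∃ m, Fintype.card α = m + 2 := ⟨Fintype.card α - 2, by omega⟩
    rw [hm, Nat.add_sub_cancel, show m + 2 - 1 = m + 1 by omega]
    obtain ⟨c, hc⟩ : 2 ∣ (m + 1) * m := by
      rw [mul_comm]; exact even_iff_two_dvd.1 (Nat.even_mul_succ_self m)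
    rw [hc, Nat.mul_div_cancel_left _ two_pos]
    have hc' : ((m : ℂ) + 1) * m = 2 * c := by exact_mod_cast hc
    push_cast
    linear_combination (1/2) * hc'

end Cfsg.Agent.H17.PairChar
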