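import Cfsg.Prelude.Def_Classical
import Cfsg.Agent.H2.Center
import Cfsg.Agent.H2.Card
import Cfsg.Agent.H17.JacobiThree
import Mathlib

/-!
# The centralizer of a long root element of order three in `PSp(4,3)`
-/

set_option autoImplicit false

namespace Cfsg.Agent.H17.SpFour

open Matrix
open scoped Matrix

variable {F : Type*} [Field F]

/-- Parametrised elements of the parabolic stabilizing a long root element. -/
def psiMat (v1 v2 z a b cc d : F) : Matrix (Fin 2 ⊕ Fin 2) (Fin 2 ⊕ Fin 2) F :=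
  Matrix.fromBlocks !![1, cc * v1 - a * v2; 0, a] !![z, d * v1 - b * v2; v1, b]
    !![0, 0; 0, cc] !![1, 0; v2, d]

theorem psiMat_mem (v1 v2 z a b cc d : F) (h : a * d - b * cc = 1) :
    psiMat v1 v2 z a b cc d ∈ Matrix.symplecticGroup (Fin 2) F := by
  rw [SymplecticGroup.mem_iff]
  ext i j
  rcases i with i | i <;> rcases j with j | j <;> fin_cases i <;> fin_cases j <;>
    simp [psiMat, Matrix.J, Matrix.mul_apply, Fin.sum_univ_two, Matrix.one_apply] <;>
    first
      | ring1
      | linear_combination h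
      | linear_combination -h
      | linear_combination v1 * h
      | linear_combination -v1 * h
      | linear_combination v2 * h
      | linear_combination -v2 * h
      | (simp only [neg_eq_iff_eq_neg]; linear_combination h)

theorem psiMat_mul (v1 v2 z a b cc d w1 w2 y a' b' cc' d' : F) (h : a * d - b * cc = 1) :
    psiMat v1 v2 z a b cc d * psiMat w1 w2 y a' b' cc' d' =
      psiMat (v1 + (a * w1 + b * w2)) (v2 + (cc * w1 + d * w2))
        (z + y + (v1 * (cc * w1 + d * w2) - v2 * (a * w1 + b * w2)))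
        (a * a' + b * cc') (a * b' + b * d') (cc * a' + d * cc') (cc * b' + d * d') := by
  ext i j
  rcases i with i | i <;> rcases j with j | j <;> fin_cases i <;> fin_cases j <;>
    simp [psiMat, Matrix.mul_apply, Fin.sum_univ_two] <;>
    first
      | ring1
      | linear_combination (-(cc' * w1) + a' * w2) * h
      | linear_combination (cc' * w1 - a' * w2) * h
      | linear_combination (-(d' * w1) + b' * w2) * h
      | linear_combination (d' * w1 - b' * w2) * h

/-- The symplectic matrix attached to a triple. -/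
def psiSp (v : Fin 2 → F) (z : F) (A : Matrix.SpecialLinearGroup (Fin 2) F) :
    Matrix.symplecticGroup (Fin 2) F :=
  ⟨psiMat (v 0) (v 1) z (A 0 0) (A 0 1) (A 1 0) (A 1 1), psiMat_mem _ _ _ _ _ _ _ (by
    have := A.2
    rw [Matrix.det_fin_two] at this
    exact this)⟩

theorem psiSp_mul (v w : Fin 2 → F) (z y : F) (A B : Matrix.SpecialLinearGroup (Fin 2) F) :
    psiSp v z A * psiSp w y B =
      psiSp (v + (A : Matrix (Fin 2) (Fin 2) F) *ᵥ w)
        (z + y + (v 0 * ((A : Matrix (Fin 2) (Fin 2) F) *ᵥ w) 1 -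
          v 1 * ((A : Matrix (Fin 2) (Fin 2) F) *ᵥ w) 0)) (A * B) := by
  apply Subtype.ext
  have hA : A 0 0 * A 1 1 - A 0 1 * A 1 0 = 1 := by
    have := A.2
    rw [Matrix.det_fin_two] at this
    exact this
  show psiMat _ _ _ _ _ _ _ * psiMat _ _ _ _ _ _ _ = psiMat _ _ _ _ _ _ _
  rw [psiMat_mul _ _ _ _ _ _ _ _ _ _ _ _ _ _ hA]
  simp [Matrix.mulVec, dotProduct, Matrix.mul_apply, Fin.sum_univ_two]

theorem psiSp_zero_one : psiSp (0 : Fin 2 → F) 0 1 = 1 := by
  apply Subtype.ext
  show psiMat _ _ _ _ _ _ _ = (1 : Matrix (Fin 2 ⊕ Fin 2) (Fin 2 ⊕ Fin 2) F)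
  ext i j
  rcases i with i | i <;> rcases j with j | j <;> fin_cases i <;> fin_cases j <;>
    simp [psiMat, Matrix.one_apply]

/-- The root element. -/
def rootElt : Matrix.symplecticGroup (Fin 2) F := psiSp 0 1 1

/-- Symplectic matrices commuting with the root element up to sign. -/
theorem exists_psiSp (h2 : (2 : F) ≠ 0) (g : Matrix.symplecticGroup (Fin 2) F)
    (hg : (g : Matrix (Fin 2 ⊕ Fin 2) (Fin 2 ⊕ Fin 2) F) * rootElt.1 = rootElt.1 * g.1 ∨
      (g : Matrix (Fin 2 ⊕ Fin 2) (Fin 2 ⊕ Fin 2) F) * rootElt.1 = -(rootElt.1 * g.1)) :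
    ∃ v z A, psiSp v z A = g ∨ (psiSp v z A).1 = -g.1 := by
  set M := (g : Matrix (Fin 2 ⊕ Fin 2) (Fin 2 ⊕ Fin 2) F) with hM
  have hcomm : M * rootElt.1 = rootElt.1 * M := by
    rcases hg with h | h
    · exact h
    · exfalso
      have hcol : ∀ i, M i (Sum.inl 1) = 0 := by
        have h0 : M (Sum.inr 0) (Sum.inl 1) = 0 := by
          have := congrFun (congrFun h (Sum.inr 0)) (Sum.inl 1)
          simp [rootElt, psiSp, psiMat, Matrix.mul_apply, Fin.sum_univ_two] at this
          exact (mul_eq_zero.1 (show (2 : F) * M (Sum.inr 0) (Sum.inl 1) = 0 by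
            linear_combination this)).resolve_left h2
        intro i
        have := congrFun (congrFun h i) (Sum.inl 1)
        rcases i with i | i <;> fin_cases i <;>
          simp [rootElt, psiSp, psiMat, Matrix.mul_apply, Fin.sum_univ_two, h0] at this ⊢ <;>
          refine (mul_eq_zero.1 (?_ : (2 : F) * _ = 0)).resolve_left h2 <;>
          linear_combination this
      have hd := SymplecticGroup.symplectic_det g.2
      rw [← hM, Matrix.det_eq_zero_of_column_eq_zero (Sum.inl 1) hcol] at hd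
      exact not_isUnit_zero hd
  have e0 : ∀ (i j : Fin 2 ⊕ Fin 2),
      (M * (rootElt (F := F)).1) i j = ((rootElt (F := F)).1 * M) i j := fun i j => by rw [hcomm]
  have r01 := e0 (Sum.inl 0) (Sum.inl 1)
  have r00 := e0 (Sum.inl 0) (Sum.inl 0)
  have r02 := e0 (Sum.inl 0) (Sum.inr 0)
  have r03 := e0 (Sum.inl 0) (Sum.inr 1)
  have c1 := e0 (Sum.inl 1) (Sum.inr 0)
  have c2 := e0 (Sum.inr 0) (Sum.inr 0)
  have c3 := e0 (Sum.inr 1) (Sum.inr 0)
  simp [rootElt, psiSp, psiMat, Matrix.mul_apply, Fin.sum_univ_two] at r00 r01 r02 r03 c1 c2 c3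
  have hJ := (SymplecticGroup.mem_iff.1 g.2)
  have j02 := congrFun (congrFun hJ (Sum.inl 0)) (Sum.inr 0)
  have j01 := congrFun (congrFun hJ (Sum.inl 0)) (Sum.inl 1)
  have j03 := congrFun (congrFun hJ (Sum.inl 0)) (Sum.inr 1)
  have j13 := congrFun (congrFun hJ (Sum.inl 1)) (Sum.inr 1)
  simp [← hM, Matrix.J, Matrix.mul_apply, Fin.sum_univ_two, Matrix.one_apply, r00, r01, r03,
    c1, c2, c3] at j02 j01 j03 j13
  set s := M (Sum.inl 0) (Sum.inl 0) with hs
  have hr : M (Sum.inr 0) (Sum.inr 0) = s := by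
    first | linear_combination r02 | linear_combination -r02
  have hss : s = 1 ∨ s = -1 := by
    refine mul_self_eq_one_iff.1 ?_
    rw [hr] at j02
    first | linear_combination j02 | linear_combination -j02
  have hs2 : s * s = 1 := by rcases hss with h | h <;> rw [h] <;> ring
  refine ⟨![s * M (Sum.inl 1) (Sum.inr 0), s * M (Sum.inr 1) (Sum.inr 0)],
    s * M (Sum.inl 0) (Sum.inr 0),
    ⟨!![s * M (Sum.inl 1) (Sum.inl 1), s * M (Sum.inl 1) (Sum.inr 1);
      s * M (Sum.inr 1) (Sum.inl 1), s * M (Sum.inr 1) (Sum.inr 1)], ?_⟩, ?_⟩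
  · rw [Matrix.det_fin_two]
    simp
    linear_combination (M (Sum.inl 1) (Sum.inl 1) * M (Sum.inr 1) (Sum.inr 1) -
      M (Sum.inl 1) (Sum.inr 1) * M (Sum.inr 1) (Sum.inl 1)) * hs2 - j13
  have key : (psiSp ![s * M (Sum.inl 1) (Sum.inr 0), s * M (Sum.inr 1) (Sum.inr 0)]
      (s * M (Sum.inl 0) (Sum.inr 0))
      ⟨!![s * M (Sum.inl 1) (Sum.inl 1), s * M (Sum.inl 1) (Sum.inr 1);
      s * M (Sum.inr 1) (Sum.inl 1), s * M (Sum.inr 1) (Sum.inr 1)], by
        rw [Matrix.det_fin_two]
        simp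
        linear_combination (M (Sum.inl 1) (Sum.inl 1) * M (Sum.inr 1) (Sum.inr 1) -
          M (Sum.inl 1) (Sum.inr 1) * M (Sum.inr 1) (Sum.inl 1)) * hs2 - j13⟩).1 = s • M := by
    ext i j
    rcases i with i | i <;> rcases j with j | j <;> fin_cases i <;> fin_cases j <;>
      simp [psiSp, psiMat, r00, r01, r03, c1, c2, c3, ← hs] <;>
      first
        | (rw [hr]; linear_combination hs2)
        | linear_combination hs2
        | linear_combination -hs2
        | (rcases hss with h | h <;> rw [h] at j01 j03 ⊢ <;> grind)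
  rcases hss with h | h
  · exact Or.inl (Subtype.ext (key.trans (by rw [h, one_smul])))
  · exact Or.inr (key.trans (by rw [h, neg_one_smul]))

theorem triple_facts : Jacobi.tmul (Jacobi.tmul (0, 1, 1) (0, 1, 1)) (0, 1, 1) = (0, 0, 1) ∧
    ((0, 1, 1) : Jacobi.Triple) ≠ (0, 0, 1) ∧ (2 : ZMod 3) ≠ 0 := by decide +kernel

open Cfsg.Agent.H17.Jacobi in
/-- The model maps onto the centralizer of the root element. -/
theorem exists_centralizer_model [Fintype F] (hF : Fintype.card F = 3) :
    ∃ (c : Cfsg.PSp 2 F) (Ψ : Jacobi.Triple → Subgroup.centralizer ({c} : Set (Cfsg.PSp 2 F))),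
      Function.Bijective Ψ ∧ orderOf c = 3 ∧ ∀ a b, Ψ (Jacobi.tmul a b) = Ψ a * Ψ b := by
  haveI : Fact (Nat.Prime 3) := ⟨Nat.prime_three⟩
  let ι : ZMod 3 ≃+* F := ZMod.ringEquivOfPrime F Nat.prime_three hF
  have h2 : (2 : F) ≠ 0 := by
    rw [← map_ofNat ι 2]
    exact fun h => triple_facts.2.2 (ι.injective (h.trans (map_zero ι).symm))
  let q := QuotientGroup.mk' (Subgroup.center (Matrix.symplecticGroup (Fin 2) F))
  let P : Jacobi.Triple → Matrix.symplecticGroup (Fin 2) F := fun t =>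
    psiSp (ι ∘ t.1) (ι t.2.1) (Matrix.SpecialLinearGroup.map ι.toRingHom t.2.2)
  have hP : ∀ a b, P (Jacobi.tmul a b) = P a * P b := by
    intro a b
    simp only [P]
    rw [psiSp_mul]
    congr 1
    · funext i
      fin_cases i <;> simp [Jacobi.tmul, Matrix.mulVec, dotProduct, Fin.sum_univ_two, Matrix.vecHead, Matrix.vecTail]
    · simp [Jacobi.tmul, Jacobi.om, Matrix.mulVec, dotProduct, Fin.sum_univ_two]
    · simp [Jacobi.tmul]
  let t0 : Jacobi.Triple := (0, 1, 1)
  have hroot : P t0 = rootElt := by simp [P, t0, rootElt]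
  have hcc : ∀ a, Jacobi.tmul a t0 = Jacobi.tmul t0 a := by
    intro a
    refine Prod.ext ?_ (Prod.ext ?_ ?_) <;>
      simp [Jacobi.tmul, t0, Jacobi.om, Matrix.mulVec_zero, add_comm]
  have hmem : ∀ a, q (P a) ∈ Subgroup.centralizer ({q (P t0)} : Set (Cfsg.PSp 2 F)) := by
    intro a
    rw [Subgroup.mem_centralizer_singleton_iff, ← map_mul, ← map_mul, ← hP, ← hP, hcc]
  have hone : P (0, 0, 1) = 1 := by
    simp only [P, map_zero, map_one]
    rw [show (⇑ι ∘ (0 : Fin 2 → ZMod 3)) = 0 from funext fun _ => map_zero ι]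
    exact psiSp_zero_one
  have hinj : ∀ a b, q (P a) = q (P b) → a = b := by
    intro a b hab
    have := (QuotientGroup.eq).1 hab
    rw [H2.mem_center_iff_eq (by norm_num)] at this
    have hab' : (P b).1 = (P a).1 ∨ (P b).1 = -(P a).1 := by
      have hmul : P b = P a * ((P a)⁻¹ * P b) := (mul_inv_cancel_left _ _).symm
      rcases this with h | h
      · left
        rw [congrArg Subtype.val hmul, Submonoid.coe_mul, h, mul_one]
      · right
        rw [congrArg Subtype.val hmul, Submonoid.coe_mul, h, mul_neg, mul_one]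
    rcases hab' with h | h
    · have e : ∀ i j, (P b).1 i j = (P a).1 i j := fun i j => by rw [h]
      obtain ⟨v, k, A⟩ := a
      obtain ⟨w, l, B⟩ := b
      have e1 := e (Sum.inl 1) (Sum.inr 0)
      have e2 := e (Sum.inr 1) (Sum.inr 0)
      have e3 := e (Sum.inl 0) (Sum.inr 0)
      have e4 := e (Sum.inl 1) (Sum.inl 1)
      have e5 := e (Sum.inl 1) (Sum.inr 1)
      have e6 := e (Sum.inr 1) (Sum.inl 1)
      have e7 := e (Sum.inr 1) (Sum.inr 1)
      simp [P, psiSp, psiMat] at e1 e2 e3 e4 e5 e6 e7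
      refine Prod.ext (funext fun i => ?_) (Prod.ext ?_ (Subtype.ext ?_))
      · fin_cases i <;> simp [e1, e2]
      · simp [e3]
      · ext i j
        fin_cases i <;> fin_cases j <;> simp [e4, e5, e6, e7]
    · exfalso
      have := congrFun (congrFun h (Sum.inl 0)) (Sum.inl 0)
      simp [P, psiSp, psiMat] at this
      exact h2 (by linear_combination this)
  refine ⟨q (P t0), fun a => ⟨q (P a), hmem a⟩, ⟨fun a b h => hinj a b (congrArg Subtype.val h),
    ?_⟩, ?_, fun a b => Subtype.ext (by show q _ = q _ * q _; rw [hP, map_mul])⟩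
  · rintro ⟨x, hx⟩
    obtain ⟨g, rfl⟩ := QuotientGroup.mk'_surjective _ x
    rw [Subgroup.mem_centralizer_singleton_iff] at hx
    have hx' : q (g * P t0) = q (P t0 * g) := by
      rw [map_mul, map_mul]; exact hx
    have := (QuotientGroup.eq).1 hx'
    rw [H2.mem_center_iff_eq (by norm_num)] at this
    have hpm : g.1 * (rootElt (F := F)).1 = (rootElt (F := F)).1 * g.1 ∨
        g.1 * (rootElt (F := F)).1 = -((rootElt (F := F)).1 * g.1) := by
      rw [hroot] at this
      have hmul : rootElt * g = (g * rootElt) * ((g * rootElt)⁻¹ * (rootElt * g)) :=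
        (mul_inv_cancel_left _ _).symm
      have hv := congrArg Subtype.val hmul
      rcases this with h | h
      · left
        rw [Submonoid.coe_mul, Submonoid.coe_mul, h, mul_one] at hv
        exact hv.symm
      · right
        rw [Submonoid.coe_mul, Submonoid.coe_mul, h, mul_neg, mul_one] at hv
        rw [hv, Submonoid.coe_mul, neg_neg]
    obtain ⟨v, z, A, hv⟩ := exists_psiSp h2 g hpm
    refine ⟨(ι.symm ∘ v, ι.symm z, Matrix.SpecialLinearGroup.map ι.symm.toRingHom A),
      Subtype.ext ?_⟩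
    have hP' : P (ι.symm ∘ v, ι.symm z, Matrix.SpecialLinearGroup.map ι.symm.toRingHom A) =
        psiSp v z A := by
      simp only [P]
      congr 1
      · funext i; simp
      · simp
      · ext i j; simp
    show q (P _) = q g
    rw [hP']
    rcases hv with hv | hv
    · rw [hv]
    · refine QuotientGroup.eq.2 ((H2.mem_center_iff_eq (by norm_num) _).2 (Or.inr ?_))
      have h1 : (((psiSp v z A)⁻¹ * psiSp v z A : Matrix.symplecticGroup (Fin 2) F)).1 = 1 := by
        rw [inv_mul_cancel]; rfl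
      rw [Submonoid.coe_mul, hv, mul_neg] at h1
      rw [Submonoid.coe_mul, ← h1, neg_neg]
  · refine orderOf_eq_prime ?_ ?_
    · rw [← map_pow, pow_succ, pow_two, ← hP, ← hP]
      rw [triple_facts.1, hone, map_one]
    · intro h
      have := hinj t0 (0, 0, 1) (h.trans (by rw [hone, map_one]))
      exact triple_facts.2.1 this

/-- The model group is the centralizer of a three-central element. -/
theorem exists_iso {X : Type*} [Group X] (Φ : Jacobi.Triple → X) (hΦ : Function.Bijective Φ)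
    (hmul : ∀ a b, Φ (Jacobi.tmul a b) = Φ a * Φ b) [Fintype F] (hF : Fintype.card F = 3) :
    ∃ (c : Cfsg.PSp 2 F) (S : Sylow 3 (Cfsg.PSp 2 F)), orderOf c = 3 ∧
      c ∈ (S : Subgroup (Cfsg.PSp 2 F)) ∧
      c ∈ Subgroup.centralizer ((S : Subgroup (Cfsg.PSp 2 F)) : Set (Cfsg.PSp 2 F)) ∧
      Nonempty (X ≃* Subgroup.centralizer ({c} : Set (Cfsg.PSp 2 F))) := by
  haveI : Fact (Nat.Prime 3) := ⟨Nat.prime_three⟩
  obtain ⟨c, Ψ, hΨ, hc3, hΨmul⟩ := exists_centralizer_model hF
  have hC : Nat.card (Subgroup.centralizer ({c} : Set (Cfsg.PSp 2 F))) = 2 ^ 3 * 3 ^ 4 := by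
    rw [← Nat.card_congr (Equiv.ofBijective Ψ hΨ), Nat.card_eq_fintype_card]
    decide +kernel
  have hG : Nat.card (Cfsg.PSp 2 F) = 2 ^ 6 * 5 * 3 ^ 4 := by
    have h1 := Subgroup.card_eq_card_quotient_mul_card_subgroup
      (Subgroup.center (Matrix.symplecticGroup (Fin 2) F))
    have hcF : Nat.card F = 3 := Nat.card_eq_fintype_card.trans hF
    rw [H2.card_sp, H2.card_center_sp (by norm_num), hcF] at h1
    norm_num [Finset.prod_range_succ] at h1 ⊢
    show Nat.card (Matrix.symplecticGroup (Fin 2) F ⧸ _) = _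
    omega
  have hcC : c ∈ (Subgroup.centralizer ({c} : Set (Cfsg.PSp 2 F))) := Subgroup.mem_centralizer_singleton_iff.2 rfl
  have hp : IsPGroup 3 (Subgroup.zpowers (⟨c, hcC⟩ : (Subgroup.centralizer ({c} : Set (Cfsg.PSp 2 F))))) := IsPGroup.of_card (n := 1) (by
    rw [Nat.card_zpowers, ← orderOf_injective (Subgroup.centralizer ({c} : Set (Cfsg.PSp 2 F))).subtype (Subgroup.subtype_injective _) ⟨c, hcC⟩, pow_one]
    exact hc3)
  obtain ⟨P, hPle⟩ := hp.exists_le_sylow
  have hPcard : Nat.card P = 81 := by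
    rw [P.card_eq_multiplicity, hC]
    decide +kernel
  have hmap : Nat.card ((P : Subgroup (Subgroup.centralizer ({c} : Set (Cfsg.PSp 2 F)))).map (Subgroup.centralizer ({c} : Set (Cfsg.PSp 2 F))).subtype) = 3 ^ (Nat.card (Cfsg.PSp 2 F)).factorization 3 := by
    rw [Subgroup.card_map_of_injective (Subgroup.subtype_injective _), hG]
    have h4 : ((2 : ℕ) ^ 6 * 5 * 3 ^ 4).factorization 3 = 4 := by
      rw [Nat.factorization_mul (by norm_num) (by norm_num), Finsupp.add_apply,
        Nat.factorization_eq_zero_of_not_dvd (by norm_num : ¬ 3 ∣ 2 ^ 6 * 5),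
        Nat.factorization_pow_self Nat.prime_three]
    rw [h4]
    exact hPcard
  refine ⟨c, Sylow.ofCard _ hmap, hc3, ⟨⟨c, hcC⟩, hPle (Subgroup.mem_zpowers _), rfl⟩, ?_, ?_⟩
  · rw [Subgroup.mem_centralizer_iff]
    rintro _ ⟨x, -, rfl⟩
    exact Subgroup.mem_centralizer_singleton_iff.1 x.2
  · refine ⟨{ (Equiv.ofBijective Φ hΦ).symm.trans (Equiv.ofBijective Ψ hΨ) with map_mul' := ?_ }⟩
    intro x y
    obtain ⟨a, rfl⟩ := hΦ.2 x
    obtain ⟨b, rfl⟩ := hΦ.2 y
    simp only [Equiv.toFun_as_coe, Equiv.trans_apply, ← hmul, Equiv.ofBijective_apply,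
      Equiv.ofBijective_symm_apply_apply]
    exact hΨmul a b

end Cfsg.Agent.H17.SpFour
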