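import Cfsg.Agent.H49.Homs

/-! A group of order 162 with a monomial abelian subgroup is the centralizer of a triple three-cycle
in the symmetric group of degree nine. -/

set_option autoImplicit false

namespace Cfsg.Agent.H17.Wreath162

open Subgroup H49

theorem circulant : ∀ x : ZMod 3 × ZMod 3 × ZMod 3, x ≠ 0 → ∃ p q r : ZMod 3,
    (p * x.1 + q * x.2.2 + r * x.2.1, p * x.2.1 + q * x.1 + r * x.2.2,
      p * x.2.2 + q * x.2.1 + r * x.1) = ((1, 1, 1) : ZMod 3 × ZMod 3 × ZMod 3) := by decide +kernel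

theorem card_centralizer_triple (σ : Equiv.Perm (Fin 9)) (h3 : σ ^ 3 = 1) (hfix : ∀ x, σ x ≠ x) :
    σ.cycleType = Multiset.replicate 3 3 ∧ Nat.card (centralizer ({σ} : Set (Equiv.Perm (Fin 9)))) = 162 := by
  have : Fact (Nat.Prime 3) := ⟨Nat.prime_three⟩
  have ho : orderOf σ = 3 := orderOf_eq_prime h3 fun h => hfix 0 (by rw [h]; rfl)
  obtain ⟨k, hk⟩ := Equiv.Perm.cycleType_prime_order (σ := σ) (ho ▸ Nat.prime_three)
  rw [ho] at hk
  have hsupp : σ.support = Finset.univ := Finset.eq_univ_iff_forall.2 fun x =>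
    Equiv.Perm.mem_support.2 (hfix x)
  have hsum : σ.cycleType.sum = 9 := by rw [σ.sum_cycleType, hsupp]; rfl
  have hk3 : k + 1 = 3 := by
    rw [hk, Multiset.sum_replicate, smul_eq_mul] at hsum
    omega
  rw [hk3] at hk
  refine ⟨hk, ?_⟩
  rw [Equiv.Perm.nat_card_centralizer, hk]
  rfl

theorem ddd {M : Type*} [CommGroup M] {a b c : M} (h : (c / b) ^ 3 = 1) :
    a / c / (c / b) / (c / b / (b / a)) = 1 := by
  have e : a / c / (c / b) / (c / b / (b / a)) = ((c / b) ^ 3)⁻¹ := by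
    apply Additive.ofMul.injective
    simp [ofMul_div, ofMul_mul, ofMul_inv, ofMul_pow]
    abel
  rw [e, h, inv_one]

theorem dd {M : Type*} [CommGroup M] {j a b : M} (hn : j * a * b = 1) (h3 : a ^ 3 = 1) :
    b / a = a / j := by
  rw [div_eq_div_iff_mul_eq_mul]
  calc b * j = (j * a * b) * a⁻¹ := by rw [mul_comm j a, mul_assoc a j b, mul_comm a, mul_inv_cancel_right, mul_comm]
    _ = a * a := by rw [hn, one_mul, inv_eq_of_mul_eq_one_right]; rw [← h3, pow_succ, pow_two, mul_comm]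

variable {G : Type*} [Group G] [Finite G]

/-- The main argument. -/
theorem nonempty_equiv (hG : Nat.card G = 162) (S : Sylow 3 G) (T : Sylow 2 G) (J : Subgroup G)
    [hJn : J.Normal] (hJcomm : IsMulCommutative J) (hJexp : ∀ a ∈ J, a ^ 3 = 1)
    (hJcard : Nat.card J = 27) (Z : Subgroup G)
    (hZ : Z = (S : Subgroup G) ⊓ centralizer ((S : Subgroup G) : Set G)) (hZcard : Nat.card Z = 3)
    (hZT : Z ≤ centralizer ((T : Subgroup G) : Set G))
    (hST : (S : Subgroup G) ⊓ centralizer ((T : Subgroup G) : Set G) ≠ S)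
    (σ : Equiv.Perm (Fin 9)) (hσ : σ ^ 3 = 1) (hσfix : ∀ x, σ x ≠ x) :
    Nonempty (G ≃* centralizer ({σ} : Set (Equiv.Perm (Fin 9)))) := by
  haveI : Fact (Nat.Prime 3) := ⟨Nat.prime_three⟩
  haveI : Fact (Nat.Prime 2) := ⟨Nat.prime_two⟩
  have hS81 : Nat.card (S : Subgroup G) = 81 := by
    rw [S.card_eq_multiplicity, hG, show 162 = 3 ^ 4 * 2 by norm_num,
      Nat.factorization_mul (by norm_num) (by norm_num), Finsupp.add_apply, Nat.prime_three.factorization_pow,
      Finsupp.single_eq_same, Nat.factorization_eq_zero_of_not_dvd (by norm_num)]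
    norm_num
  have hJS : J ≤ S := by
    have hJp : IsPGroup 3 J := IsPGroup.of_card (n := 3) (by rw [hJcard]; norm_num)
    have : IsPGroup 3 ↥(J ⊔ S : Subgroup G) := IsPGroup.to_sup_of_normal_left hJp S.isPGroup'
    exact le_sup_left.trans (S.is_maximal' this le_sup_right).le
  obtain ⟨t, htT, ht1⟩ : ∃ t, t ∈ (T : Subgroup G) ∧ t ≠ 1 := by
    have hne : (T : Subgroup G) ≠ ⊥ := T.ne_bot_of_dvd_card (by rw [hG]; norm_num)
    obtain ⟨⟨t, ht⟩, h⟩ := (nontrivial_iff_exists_ne (1 : (T : Subgroup G))).1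
      ((Subgroup.nontrivial_iff_ne_bot _).2 hne)
    exact ⟨t, ht, fun e => h (Subtype.ext e)⟩
  have hT2 : Nat.card (T : Subgroup G) = 2 := by
    rw [T.card_eq_multiplicity, hG, show 162 = 2 ^ 1 * 81 by norm_num,
      Nat.factorization_mul (by norm_num) (by norm_num), Finsupp.add_apply, Nat.prime_two.factorization_pow,
      Finsupp.single_eq_same, Nat.factorization_eq_zero_of_not_dvd (by norm_num)]
    norm_num
  have ht2 : t * t = 1 := by
    rw [← pow_two]
    have h := pow_card_eq_one' (x := (⟨t, htT⟩ : (T : Subgroup G)))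
    rw [hT2] at h
    exact congrArg Subtype.val h
  have ti : t⁻¹ = t := inv_eq_of_mul_eq_one_right ht2
  have htS : t ∉ (S : Subgroup G) := fun h => by
    have h1 := Subgroup.orderOf_dvd_natCard _ h
    rw [orderOf_eq_prime (by rw [pow_two]; exact ht2) ht1, hS81] at h1
    norm_num at h1
  have htJ : t ∉ J := fun h => htS (hJS h)
  have hJc : ∀ a ∈ J, ∀ b ∈ J, Commute a b := fun a ha b hb =>
    congrArg Subtype.val (hJcomm.is_comm.comm (⟨a, ha⟩ : J) ⟨b, hb⟩)
  -- an element of `J` fixed by an element outside `J` is central in `S`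
  have hcen : ∀ y ∈ (S : Subgroup G), y ∉ J → ∀ j ∈ J, Commute y j → j ∈ Z := by
    intro y hy hyJ j hj hc
    set C := (S : Subgroup G) ⊓ centralizer ({j} : Set G) with hC
    have hJC : J ≤ C := le_inf hJS fun x hx => mem_centralizer_singleton_iff.2 (hJc x hx j hj).eq
    have hyC : y ∈ C := ⟨hy, mem_centralizer_singleton_iff.2 hc.eq⟩
    have hlt : Nat.card J < Nat.card C :=
      lt_of_not_ge fun h => hyJ ((eq_of_le_of_card_ge hJC h) ▸ hyC)
    have hd : Nat.card C ∣ 81 := hS81 ▸ card_dvd_of_le inf_le_left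
    obtain ⟨i, hi, hC81⟩ := (Nat.dvd_prime_pow Nat.prime_three).1 (show Nat.card C ∣ 3 ^ 4 by simpa using hd)
    rw [hJcard, hC81] at hlt
    have hi4 : i = 4 := by
      by_contra h
      have : 3 ^ i ≤ 3 ^ 3 := Nat.pow_le_pow_right (by norm_num) (by omega)
      omega
    have hCS : C = S := eq_of_le_of_card_ge inf_le_left (by rw [hS81, hC81, hi4]; norm_num)
    rw [hZ]
    refine ⟨hJS hj, fun x hx => ?_⟩
    have hxC : x ∈ C := hCS ▸ hx
    exact mem_centralizer_singleton_iff.1 hxC.2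
  have hZJ : Z ≤ J := by
    intro z hz
    by_contra hzJ
    have hz' := hz
    rw [hZ] at hz'
    have : J ≤ Z := fun j hj => hcen z hz'.1 hzJ j hj (hz'.2 j (hJS hj)).symm
    have := Nat.le_of_dvd (Nat.card_pos) (card_dvd_of_le this)
    omega
  have hZt : ∀ z ∈ Z, t * z = z * t := fun z hz => (hZT hz) t htT
  have hfixinv : ∀ z ∈ Z, t * z * t = z⁻¹ → z = 1 := fun z hz h => by
    rw [hZt z hz, mul_assoc, ht2, mul_one] at h
    have h2 : z ^ 2 = 1 := by rw [pow_two]; exact mul_eq_one_iff_eq_inv.2 h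
    have h3 := hJexp z (hZJ hz)
    rw [pow_succ, h2, one_mul] at h3
    exact h3
  have hSn : (S : Subgroup G).Normal := normal_of_index_eq_two (by
    have := (S : Subgroup G).card_mul_index
    rw [hS81, hG] at this
    omega)
  obtain ⟨y, hy, hyJ⟩ : ∃ y ∈ (S : Subgroup G), y ∉ J := by
    by_contra h
    push Not at h
    have := Nat.le_of_dvd (Nat.card_pos) (card_dvd_of_le (show (S : Subgroup G) ≤ J from h))
    omega
  have tconjJ : ∀ j ∈ J, t * j * t ∈ J := fun j hj => by
    have := hJn.conj_mem j hj t; rwa [ti] at this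
  set s := t * y * t * y⁻¹ with hs
  have hsS : s ∈ (S : Subgroup G) := by
    refine mul_mem ?_ (inv_mem hy)
    have := hSn.conj_mem y hy t; rwa [ti] at this
  have hts : t * s * t = s⁻¹ := by
    rw [hs, mul_inv_rev, inv_inv, mul_inv_rev, mul_inv_rev, ti]
    calc t * (t * y * t * y⁻¹) * t = (t * t) * y * t * y⁻¹ * t := by simp only [mul_assoc]
      _ = _ := by rw [ht2, one_mul]; simp only [mul_assoc]
  -- otherwise `t` centralises `S`
  have hsJ : s ∉ J := by
    intro hsJ
    apply hST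
    rw [inf_eq_left]
    let d : G → G := fun j => y * j * y⁻¹ * j⁻¹
    have hdJ : ∀ j ∈ J, d j ∈ J := fun j hj => mul_mem (hJn.conj_mem j hj y) (inv_mem hj)
    have hy3 : ∀ j ∈ J, y ^ 3 * j * (y ^ 3)⁻¹ = j := fun j hj => by
      have h6 : y ^ 6 ∈ J := by
        have h := J.pow_index_mem y
        have hi : J.index = 6 := by
          have := J.card_mul_index; rw [hJcard, hG] at this; omega
        rwa [hi] at h
      have h81 : y ^ 81 = 1 :=
        congrArg Subtype.val (hS81 ▸ pow_card_eq_one' : (⟨y, hy⟩ : (S : Subgroup G)) ^ 81 = 1)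
      have h3 : y ^ 3 ∈ J := by
        have : y ^ 3 = (y ^ 6) ^ 14 := by
          rw [← pow_mul, show 6 * 14 = 3 + 81 by norm_num, pow_add, h81, mul_one]
        rw [this]; exact pow_mem h6 14
      rw [(hJc _ h3 j hj).eq, mul_inv_cancel_right]
    have step : ∀ j ∈ J, t * d j * t = d j → t * j * t = j := by
      intro j hj hdj
      have htj := tconjJ j hj
      have hcj : y * (t * j * t) * y⁻¹ = t * (y * j * y⁻¹) * t := by
        have e := (hJc s hsJ (t * (y * j * y⁻¹) * t) (tconjJ _ (hJn.conj_mem j hj y))).eq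
        calc y * (t * j * t) * y⁻¹
            = y * t * y⁻¹ * t * (t * (y * j * y⁻¹) * t) * (t * y * t * y⁻¹) := by
              simp only [mul_assoc, ← mul_assoc t t, ht2, one_mul, inv_mul_cancel_left]
          _ = s⁻¹ * ((t * (y * j * y⁻¹) * t) * s) := by
              rw [hs, mul_inv_rev, inv_inv, mul_inv_rev, mul_inv_rev, ti]; simp only [mul_assoc]
          _ = _ := by rw [← e, inv_mul_cancel_left]
      set u := t * j * t * j⁻¹ with hu
      have huJ : u ∈ J := mul_mem htj (inv_mem hj)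
      have hd' : y * j * y⁻¹ = d j * j := by simp [d]
      have hyu : y * u * y⁻¹ = u := by
        calc y * u * y⁻¹ = y * (t * j * t) * y⁻¹ * (y * j * y⁻¹)⁻¹ := by rw [hu]; group
          _ = t * (d j * j) * t * (d j * j)⁻¹ := by rw [hcj, hd']
          _ = (t * d j * t) * (t * j * t) * (j⁻¹ * (d j)⁻¹) := by
              rw [mul_inv_rev]; simp only [mul_assoc, ← mul_assoc t t, ht2, one_mul]
          _ = d j * u * (d j)⁻¹ := by rw [hdj, hu]; group
          _ = u := by rw [(hJc _ (hdJ j hj) u huJ).eq, mul_inv_cancel_right]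
      have huZ := hcen y hy hyJ u huJ (mul_inv_eq_iff_eq_mul.1 hyu)
      have hu1 : t * u * t = u⁻¹ := by
        rw [hu, mul_inv_rev, inv_inv, mul_inv_rev, mul_inv_rev, ti]
        calc t * (t * j * t * j⁻¹) * t = (t * t) * j * t * j⁻¹ * t := by simp only [mul_assoc]
          _ = _ := by rw [ht2, one_mul]; simp only [mul_assoc]
      exact mul_inv_eq_one.1 (hfixinv u huZ hu1)
    have hd3 : ∀ j ∈ J, d (d (d j)) = 1 := by
      intro j hj
      have e1 := hJn.conj_mem j hj y
      have e2 := hJn.conj_mem _ e1 y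
      have e3 : y * (y * (y * j * y⁻¹) * y⁻¹) * y⁻¹ = j := by
        conv_rhs => rw [← hy3 j hj]
        simp only [pow_succ, pow_zero, one_mul]; group
      set j1 := y * j * y⁻¹ with hj1
      set j2 := y * j1 * y⁻¹ with hj2
      have he : d (d (d j)) = (y * j2 * y⁻¹) * j2⁻¹ * (j2 * j1⁻¹)⁻¹ *
          ((j2 * j1⁻¹) * (j1 * j⁻¹)⁻¹)⁻¹ := by
        show y * (y * (y * j * y⁻¹ * j⁻¹) * y⁻¹ * (y * j * y⁻¹ * j⁻¹)⁻¹) * y⁻¹ *
          (y * (y * j * y⁻¹ * j⁻¹) * y⁻¹ * (y * j * y⁻¹ * j⁻¹)⁻¹)⁻¹ = _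
        rw [hj2, hj1]; group
      rw [he, e3]
      letI : CommGroup J := { (inferInstance : Group J) with mul_comm := hJcomm.is_comm.comm }
      have h := ddd (a := (⟨j, hj⟩ : J)) (b := ⟨j1, e1⟩) (c := ⟨j2, e2⟩)
        (Subtype.ext (hJexp _ ((⟨j2, e2⟩ : J) / ⟨j1, e1⟩).2))
      simp only [div_eq_mul_inv] at h
      exact congrArg Subtype.val h
    have hJt : ∀ j ∈ J, t * j * t = j := fun j hj =>
      step j hj (step _ (hdJ j hj) (step _ (hdJ _ (hdJ j hj)) (by
        rw [hd3 j hj, mul_one, ht2])))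
    have hu : s = 1 := by
      have h1 : s⁻¹ = s := hts ▸ hJt s hsJ
      have h3 := hJexp s hsJ
      rw [pow_succ, pow_two, ← mul_eq_one_iff_eq_inv.2 h1.symm] at h3
      simpa using h3
    have hty : t * y = y * t := by
      have : t * y * t = y := mul_inv_eq_one.1 hu
      conv_lhs => rw [← mul_one (t * y), ← ht2, ← mul_assoc, this]
    intro x hx
    rw [mem_centralizer_iff]
    intro w hw
    have hC : (S : Subgroup G) ≤ centralizer ({t} : Set G) := by
      set C := (S : Subgroup G) ⊓ centralizer ({t} : Set G)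
      have hJC : J ≤ C := le_inf hJS fun j hj => mem_centralizer_singleton_iff.2 (by
        conv_rhs => rw [← mul_one (t * j), ← ht2, ← mul_assoc, hJt j hj]
        )
      have hyC : y ∈ C := ⟨hy, mem_centralizer_singleton_iff.2 hty.symm⟩
      have hlt : Nat.card J < Nat.card C :=
        lt_of_not_ge fun h => hyJ ((eq_of_le_of_card_ge hJC h) ▸ hyC)
      have hd : Nat.card C ∣ 81 := hS81 ▸ card_dvd_of_le inf_le_left
      obtain ⟨i, hi, hC81⟩ := (Nat.dvd_prime_pow Nat.prime_three).1 (show Nat.card C ∣ 3 ^ 4 by simpa using hd)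
      rw [hJcard, hC81] at hlt
      have hi4 : i = 4 := by
        by_contra h
        have : 3 ^ i ≤ 3 ^ 3 := Nat.pow_le_pow_right (by norm_num) (by omega)
        omega
      intro z hz
      exact ((eq_of_le_of_card_ge inf_le_left (by rw [hS81, hC81, hi4]; norm_num) : C = S) ▸ hz : z ∈ C).2
    rcases (Nat.card_eq_two_iff' (⟨t, htT⟩ : (T : Subgroup G))).1 hT2 with ⟨o, ho, huniq⟩
    by_cases hwt : w = t
    · subst hwt; exact (mem_centralizer_singleton_iff.1 (hC hx)).symm
    · have h1 : (⟨w, hw⟩ : (T : Subgroup G)) = o := huniq _ fun e => hwt (congrArg Subtype.val e)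
      have h2 : (1 : (T : Subgroup G)) = o := huniq _ fun e => ht1 (congrArg Subtype.val e).symm
      have : w = 1 := congrArg Subtype.val (h1.trans h2.symm)
      rw [this, one_mul, mul_one]
  -- `s` has order three
  have hs3 : s ^ 3 = 1 := by
    have h6 : s ^ 6 ∈ J := by
      have h := J.pow_index_mem s
      have hi : J.index = 6 := by
        have := J.card_mul_index; rw [hJcard, hG] at this; omega
      rwa [hi] at h
    have h81 : s ^ 81 = 1 :=
      congrArg Subtype.val (hS81 ▸ pow_card_eq_one' : (⟨s, hsS⟩ : (S : Subgroup G)) ^ 81 = 1)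
    have h3 : s ^ 3 ∈ J := by
      have : s ^ 3 = (s ^ 6) ^ 14 := by
        rw [← pow_mul, show 6 * 14 = 3 + 81 by norm_num, pow_add, h81, mul_one]
      rw [this]; exact pow_mem h6 14
    refine hfixinv _ (hcen s hsS hsJ _ h3 ((Commute.refl s).pow_right 3)) ?_
    calc t * s ^ 3 * t = (t * s * t) ^ 3 := by
          conv_rhs => rw [show t * s * t = t * s * t⁻¹ by rw [ti], conj_pow, ti]
      _ = (s ^ 3)⁻¹ := by rw [hts, inv_pow]
  have sc : ∀ j ∈ J, s * j * s⁻¹ ∈ J := fun j hj => hJn.conj_mem j hj s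
  let N : G → G := fun j => j * (s * j * s⁻¹) * (s * (s * j * s⁻¹) * s⁻¹)
  have s3 : ∀ j, s * (s * (s * j * s⁻¹) * s⁻¹) * s⁻¹ = j := fun j => by
    calc s * (s * (s * j * s⁻¹) * s⁻¹) * s⁻¹ = s ^ 3 * j * (s ^ 3)⁻¹ := by
          simp only [pow_succ, pow_zero, one_mul]; group
      _ = j := by rw [hs3]; group
  letI instJ : CommGroup J := { (inferInstance : Group J) with mul_comm := hJcomm.is_comm.comm }
  obtain ⟨e0, he0, hN0⟩ : ∃ e ∈ J, N e ≠ 1 := by
    by_contra hall
    push Not at hall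
    let d : J →* J :=
      { toFun := fun j => ⟨s * j * s⁻¹, sc j j.2⟩ / j
        map_one' := by simp
        map_mul' := fun a b => by
          rw [show (⟨s * ((a * b : J) : G) * s⁻¹, sc _ (a * b).2⟩ : J) =
            ⟨s * a * s⁻¹, sc a a.2⟩ * ⟨s * b * s⁻¹, sc b b.2⟩ from
              Subtype.ext (by simp only [Subgroup.coe_mul]; group), mul_div_mul_comm] }
    have hker : d.ker.map J.subtype ≤ Z := by
      rintro _ ⟨j, hj, rfl⟩
      exact hcen s hsS hsJ j j.2 (mul_inv_eq_iff_eq_mul.1 (congrArg Subtype.val (div_eq_one.1 hj)))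
    have hrange : d.range.map J.subtype ≤ Z := by
      rintro _ ⟨_, ⟨j, rfl⟩, rfl⟩
      refine hcen s hsS hsJ _ (d j).2 (mul_inv_eq_iff_eq_mul.1 ?_)
      have hn := hall j j.2
      have h3 := hJexp j j.2
      show s * (((⟨s * j * s⁻¹, sc j j.2⟩ : J) / j : J) : G) * s⁻¹ = (((⟨s * j * s⁻¹, sc j j.2⟩ : J) / j : J) : G)
      rw [show (((⟨s * j * s⁻¹, sc j j.2⟩ : J) / j : J) : G) = s * (j : G) * s⁻¹ * (j : G)⁻¹ from
        div_eq_mul_inv _ _]
      set a : J := ⟨s * j * s⁻¹, sc j j.2⟩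
      set b : J := ⟨s * (s * j * s⁻¹) * s⁻¹, sc _ (sc j j.2)⟩
      have hba : b / a = a / j := dd (Subtype.ext hn) (Subtype.ext (hJexp _ a.2))
      calc s * (s * (j : G) * s⁻¹ * (j : G)⁻¹) * s⁻¹ = (b / a : J).1 := by
            show _ = s * (s * (j : G) * s⁻¹) * s⁻¹ / (s * (j : G) * s⁻¹)
            rw [div_eq_mul_inv]; group
        _ = (a / j : J).1 := by rw [hba]
        _ = _ := by show (s * (j : G) * s⁻¹) / (j : G) = _; rw [div_eq_mul_inv]
    have h1 := Nat.le_of_dvd Nat.card_pos (card_dvd_of_le hker)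
    rw [Subgroup.card_map_of_injective J.subtype_injective] at h1
    have h2 := Nat.le_of_dvd Nat.card_pos (card_dvd_of_le hrange)
    rw [Subgroup.card_map_of_injective J.subtype_injective] at h2
    have h3 := d.ker.card_mul_index
    rw [index_ker] at h3
    rw [hJcard] at h3
    rw [hZcard] at h1 h2
    nlinarith
  set a := e0 * (t * e0 * t) with ha
  have haJ : a ∈ J := mul_mem he0 (tconjJ e0 he0)
  set b := s * a * s⁻¹ with hb
  set c := s * b * s⁻¹ with hc
  have hbJ := sc a haJ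
  have hcJ := sc b hbJ
  have hta : t * a * t = a := by
    rw [ha, (hJc _ he0 _ (tconjJ e0 he0)).eq]
    calc t * (t * e0 * t * e0) * t = (t * t) * e0 * (t * e0 * t) := by simp only [mul_assoc]
      _ = e0 * (t * e0 * t) := by rw [ht2, one_mul]
      _ = _ := (hJc _ he0 _ (tconjJ e0 he0)).eq
  have hsi : s⁻¹ = s * s := inv_eq_of_mul_eq_one_right (by rw [← mul_assoc, ← pow_two, ← pow_succ, hs3])
  have hts' : t * s = s⁻¹ * t := by
    conv_lhs => rw [← mul_one (t * s), ← ht2, ← mul_assoc, hts]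
  have hts'' : t * s⁻¹ = s * t := by
    calc t * s⁻¹ = t * (t * s * t) := by rw [hts]
      _ = s * t := by rw [← mul_assoc, ← mul_assoc, ht2, one_mul]
  have hcs : c = s⁻¹ * a * s := by
    rw [hc, hb]
    calc s * (s * a * s⁻¹) * s⁻¹ = s * s * a * (s * s)⁻¹ := by group
      _ = s⁻¹ * a * s := by rw [← hsi, inv_inv]
  have htb : t * b * t = c := by
    calc t * b * t = (t * s) * a * (s⁻¹ * t) := by rw [hb]; group
      _ = (s⁻¹ * t) * a * (t * s) := by simp only [hts']
      _ = s⁻¹ * (t * a * t) * s := by simp only [mul_assoc]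
      _ = c := by rw [hta, hcs]
  have htc : t * c * t = b := by
    rw [← htb]
    calc t * (t * b * t) * t = (t * t) * b * (t * t) := by simp only [mul_assoc]
      _ = b := by rw [ht2, one_mul, mul_one]
  have hz1 : a * b * c ≠ 1 := by
    have hN : ∀ j, N j = j * (s * j * s⁻¹) * (s * (s * j * s⁻¹) * s⁻¹) := fun j => rfl
    have hNZ : N e0 ∈ Z := by
      refine hcen s hsS hsJ _ (mul_mem (mul_mem he0 (sc _ he0)) (sc _ (sc _ he0)))
        (mul_inv_eq_iff_eq_mul.1 ?_)
      rw [hN]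
      have e : s * (e0 * (s * e0 * s⁻¹) * (s * (s * e0 * s⁻¹) * s⁻¹)) * s⁻¹ =
          (s * e0 * s⁻¹) * (s * (s * e0 * s⁻¹) * s⁻¹) * e0 := by
        conv_rhs => arg 2; rw [← s3 e0]
        group
      rw [e, mul_assoc e0, ← (hJc _ he0 _ (mul_mem (sc _ he0) (sc _ (sc _ he0)))).eq]
    set e1 := s * e0 * s⁻¹
    set e2 := s * e1 * s⁻¹
    have f1 : s * (t * e0 * t) * s⁻¹ = t * e2 * t := by
      calc s * (t * e0 * t) * s⁻¹ = (s * t) * e0 * (t * s⁻¹) := by simp only [mul_assoc]
        _ = (t * s⁻¹) * e0 * (s * t) := by simp only [hts'']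
        _ = t * (s⁻¹ * e0 * s) * t := by simp only [mul_assoc]
        _ = t * e2 * t := by
            congr 2
            show _ = s * (s * e0 * s⁻¹) * s⁻¹
            calc s⁻¹ * e0 * s = s * s * e0 * s := by rw [hsi]
              _ = s * s * e0 * (s * s)⁻¹ := by rw [← hsi, inv_inv]
              _ = _ := by group
    have f2 : s * (t * e2 * t) * s⁻¹ = t * e1 * t := by
      calc s * (t * e2 * t) * s⁻¹ = (s * t) * e2 * (t * s⁻¹) := by simp only [mul_assoc]
        _ = (t * s⁻¹) * e2 * (s * t) := by simp only [hts'']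
        _ = t * (s⁻¹ * e2 * s) * t := by simp only [mul_assoc]
        _ = t * e1 * t := by
            congr 2
            show s⁻¹ * (s * e1 * s⁻¹) * s = e1
            group
    have hb' : b = e1 * (t * e2 * t) := by
      calc b = (s * e0 * s⁻¹) * (s * (t * e0 * t) * s⁻¹) := by rw [hb, ha]; group
        _ = e1 * (t * e2 * t) := by rw [f1]
    have hc' : c = e2 * (t * e1 * t) := by
      calc c = (s * e1 * s⁻¹) * (s * (t * e2 * t) * s⁻¹) := by rw [hc, hb']; group
        _ = e2 * (t * e1 * t) := by rw [f2]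
    intro h
    apply hN0
    have hsq : N e0 * N e0 = 1 := by
      have ht : t * N e0 * t = N e0 := by
        rw [hZt _ hNZ, mul_assoc, ht2, mul_one]
      rw [← h]
      let A : J := ⟨e0, he0⟩
      let B : J := ⟨e1, sc _ he0⟩
      let C : J := ⟨e2, sc _ (sc _ he0)⟩
      let A' : J := ⟨t * e0 * t, tconjJ _ he0⟩
      let B' : J := ⟨t * e1 * t, tconjJ _ (sc _ he0)⟩
      let C' : J := ⟨t * e2 * t, tconjJ _ (sc _ (sc _ he0))⟩
      have : N e0 * (t * N e0 * t) = a * b * c := by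
        have h1 : t * N e0 * t = t * e0 * t * (t * e1 * t) * (t * e2 * t) := by
          calc t * N e0 * t = t * (e0 * e1 * e2) * t := rfl
            _ = t * e0 * (t * t) * e1 * (t * t) * e2 * t := by
                rw [ht2]; simp only [mul_one, mul_assoc]
            _ = _ := by simp only [mul_assoc]
        rw [h1, hN, ha, hb', hc']
        exact congrArg Subtype.val
          (show A * B * C * (A' * B' * C') = A * A' * (B * C') * (C * B') by ac_rfl)
      rwa [ht] at this
    have h3 := hJexp (N e0) (mul_mem (mul_mem he0 (sc _ he0)) (sc _ (sc _ he0)))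
    rw [pow_succ, pow_two, hsq, one_mul] at h3
    exact h3
  -- coordinates
  let A : J := ⟨a, haJ⟩
  let B : J := ⟨b, hbJ⟩
  let C : J := ⟨c, hcJ⟩
  have h3J : ∀ u : J, u ^ 3 = 1 := fun u => Subtype.ext (hJexp u u.2)
  let ψ : ZMod 3 × ZMod 3 × ZMod 3 → J := fun x => zpw 3 A x.1 * zpw 3 B x.2.1 * zpw 3 C x.2.2
  have hψadd : ∀ x y, ψ (x + y) = ψ x * ψ y := fun x y => by
    simp only [ψ, Prod.fst_add, Prod.snd_add, zpw_add (h3J _)]
    ac_rfl
  have hψsmul : ∀ (p : ZMod 3) x, ψ (p * x.1, p * x.2.1, p * x.2.2) = ψ x ^ p.val := by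
    intro p x
    have : ∀ (u : J) (i : ZMod 3), zpw 3 u (p * i) = zpw 3 u i ^ p.val := fun u i => by
      conv_lhs => rw [← ZMod.natCast_zmod_val p, ← ZMod.natCast_zmod_val i, ← Nat.cast_mul,
        zpw_natCast (h3J u), mul_comm, pow_mul]
      rfl
    simp only [ψ, this, mul_pow]
  have hs1 : ∀ u : J, ∀ i : ZMod 3, s * (zpw 3 u i : J).1 * s⁻¹ = (s * u.1 * s⁻¹) ^ i.val :=
    fun u i => by rw [conj_pow]; rfl
  have hsA : s * c * s⁻¹ = a := by rw [hc, hb]; exact s3 a
  have hψs : ∀ x, s * (ψ x : G) * s⁻¹ = ψ (x.2.2, x.1, x.2.1) := by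
    intro x
    have : s * (ψ x : G) * s⁻¹ =
        (s * (zpw 3 A x.1 : J).1 * s⁻¹) * (s * (zpw 3 B x.2.1 : J).1 * s⁻¹) *
          (s * (zpw 3 C x.2.2 : J).1 * s⁻¹) := by
      simp only [ψ, Subgroup.coe_mul]; group
    rw [this, hs1, hs1, hs1]
    show b ^ _ * c ^ _ * (s * c * s⁻¹) ^ _ = _
    rw [hsA]
    exact congrArg Subtype.val (show B ^ x.1.val * C ^ x.2.1.val * A ^ x.2.2.val =
      A ^ x.2.2.val * B ^ x.1.val * C ^ x.2.1.val by ac_rfl)
  have hψt : ∀ x, t * (ψ x : G) * t = ψ (x.1, x.2.2, x.2.1) := by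
    intro x
    have hp : ∀ u : G, ∀ n : ℕ, t * u ^ n * t = (t * u * t) ^ n := fun u n => by
      conv_lhs => rw [← ti]; rw [ti]
      rw [show t * u ^ n * t = t * u ^ n * t⁻¹ by rw [ti], ← conj_pow, ti]
    have : t * (ψ x : G) * t = (t * a ^ x.1.val * t) * (t * b ^ x.2.1.val * t) * (t * c ^ x.2.2.val * t) := by
      calc t * (ψ x : G) * t = t * (a ^ x.1.val * b ^ x.2.1.val * c ^ x.2.2.val) * t := rfl
        _ = t * a ^ x.1.val * (t * t) * b ^ x.2.1.val * (t * t) * c ^ x.2.2.val * t := by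
            rw [ht2]; simp only [mul_one, mul_assoc]
        _ = _ := by simp only [mul_assoc]
    rw [this, hp, hp, hp, hta, htb, htc]
    exact congrArg Subtype.val (show A ^ x.1.val * C ^ x.2.1.val * B ^ x.2.2.val =
      A ^ x.1.val * B ^ x.2.2.val * C ^ x.2.1.val by ac_rfl)
  have hψ1 : (ψ (1, 1, 1) : G) = a * b * c := by
    simp only [ψ, zpw_one (h3J _)]; rfl
  have hψinj : Function.Injective ψ := by
    have key : ∀ x, ψ x = 1 → x = 0 := by
      intro x hx
      by_contra hx0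
      obtain ⟨p, q, r, hpqr⟩ := circulant x hx0
      have hx1 : ψ (x.2.2, x.1, x.2.1) = 1 := Subtype.ext (by rw [← hψs, hx]; simp)
      have hx2 : ψ (x.2.1, x.2.2, x.1) = 1 := Subtype.ext (by
        have := hψs (x.2.2, x.1, x.2.1)
        rw [hx1] at this
        simp only at this
        rw [← this]; simp)
      apply hz1
      rw [← hψ1, ← hpqr, show ((p * x.1 + q * x.2.2 + r * x.2.1, p * x.2.1 + q * x.1 + r * x.2.2,
        p * x.2.2 + q * x.2.1 + r * x.1) : ZMod 3 × ZMod 3 × ZMod 3) =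
          (p * x.1, p * x.2.1, p * x.2.2) + (q * x.2.2, q * x.1, q * x.2.1) +
            (r * x.2.1, r * x.2.2, r * x.1) from rfl, hψadd, hψadd, hψsmul p x,
        hψsmul q (x.2.2, x.1, x.2.1), hψsmul r (x.2.1, x.2.2, x.1), hx, hx1, hx2]
      simp
    intro x y h
    have : ψ (x - y) = 1 := by
      have h1 := hψadd (x - y) y
      rw [sub_add_cancel, h] at h1
      exact right_eq_mul.1 h1
    exact sub_eq_zero.1 (key _ this)
  have hψadd' : ∀ x y, (ψ (x + y) : G) = (ψ x : G) * (ψ y : G) := fun x y => by rw [hψadd]; rfl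
  let g0 : ZMod 3 × ZMod 3 → G := fun p => (ψ (0, p.1, p.2) : G)
  let H : Subgroup G :=
    { carrier := {g | ∃ p, g = g0 p ∨ g = g0 p * t}
      one_mem' := ⟨0, Or.inl (by
        show (1 : G) = (ψ (0 : ZMod 3 × ZMod 3 × ZMod 3) : G)
        simp [ψ, zpw_zero])⟩
      mul_mem' := by
        have hadd : ∀ p q, g0 p * g0 q = g0 (p + q) := fun p q => by
          show (ψ _ : G) * (ψ _ : G) = (ψ _ : G)
          rw [← hψadd', show ((0, p.1, p.2) : ZMod 3 × ZMod 3 × ZMod 3) + (0, q.1, q.2) =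
            (0, (p + q).1, (p + q).2) from Prod.ext (add_zero 0) rfl]
        have hmove : ∀ q, t * g0 q = g0 (q.2, q.1) * t := fun q => by
          show t * (ψ _ : G) = (ψ _ : G) * t
          rw [← hψt (0, q.1, q.2), mul_assoc, ht2, mul_one]
        rintro u v ⟨p, rfl | rfl⟩ ⟨q, rfl | rfl⟩
        · exact ⟨p + q, Or.inl (hadd p q)⟩
        · exact ⟨p + q, Or.inr (by rw [← hadd, mul_assoc])⟩
        · exact ⟨p + (q.2, q.1), Or.inr (by rw [← hadd, mul_assoc, hmove, mul_assoc])⟩
        · refine ⟨p + (q.2, q.1), Or.inl ?_⟩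
          rw [← hadd, mul_assoc, ← mul_assoc t, hmove, mul_assoc, ht2, mul_one]
      inv_mem' := by
        have hinv : ∀ p, (g0 p)⁻¹ = g0 (-p) := fun p => inv_eq_of_mul_eq_one_right (by
          show (ψ _ : G) * (ψ _ : G) = 1
          rw [← hψadd']; simp [ψ, zpw_zero])
        rintro u ⟨p, rfl | rfl⟩
        · exact ⟨-p, Or.inl (hinv p)⟩
        · refine ⟨-(p.2, p.1), Or.inr ?_⟩
          rw [mul_inv_rev, hinv, ti]
          show t * (ψ _ : G) = (ψ _ : G) * t
          simp only [Prod.neg_mk]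
          rw [show ((0, -p.2, -p.1) : ZMod 3 × ZMod 3 × ZMod 3) = (0, (-p).2, (-p).1) from rfl,
            ← hψt (0, (-p).1, (-p).2), mul_assoc, ht2, mul_one] }
  have hHJ : ∀ x, (ψ x : G) ∈ H → x.1 = 0 := by
    rintro x ⟨p, h | h⟩
    · rw [hψinj (Subtype.ext h : ψ x = ψ (0, p.1, p.2))]
    · exfalso
      apply htJ
      have : t = (g0 p)⁻¹ * (ψ x : G) := by rw [h, inv_mul_cancel_left]
      rw [this]
      exact mul_mem (inv_mem (ψ _).2) (ψ x).2
  have hcardH : Nat.card H = 18 := by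
    let f : (ZMod 3 × ZMod 3) × Bool → H := fun q =>
      if q.2 then ⟨g0 q.1, q.1, Or.inl rfl⟩ else ⟨g0 q.1 * t, q.1, Or.inr rfl⟩
    have g0inj : Function.Injective g0 := fun p q h => by
      have := hψinj (Subtype.ext h : ψ (0, p.1, p.2) = ψ (0, q.1, q.2))
      simp only [Prod.mk.injEq, true_and] at this
      exact Prod.ext this.1 this.2
    have hne : ∀ p q, g0 p ≠ g0 q * t := fun p q h => htJ (by
      have : t = (g0 q)⁻¹ * g0 p := by rw [h, inv_mul_cancel_left]
      rw [this]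
      exact mul_mem (inv_mem (ψ _).2) (ψ _).2)
    have hf : Function.Bijective f := by
      refine ⟨?_, ?_⟩
      · rintro ⟨p, i⟩ ⟨q, j⟩ h
        have h' := congrArg Subtype.val h
        cases i <;> cases j <;> simp only [f, Bool.false_eq_true, if_true, if_false] at h'
        · rw [g0inj (mul_right_cancel h')]
        · exact absurd h'.symm (hne q p)
        · exact absurd h' (hne p q)
        · rw [g0inj h']
      · rintro ⟨g, p, rfl | rfl⟩
        · exact ⟨(p, true), rfl⟩
        · exact ⟨(p, false), rfl⟩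
    rw [← Nat.card_congr (Equiv.ofBijective f hf)]
    simp
  have hindex : Nat.card (G ⧸ H) = 9 := by
    have := H.card_eq_card_quotient_mul_card_subgroup
    rw [hG, hcardH] at this
    omega
  have hcore : H.normalCore = ⊥ := by
    rw [eq_bot_iff]
    intro g hg
    obtain ⟨p, rfl | rfl⟩ := H.normalCore_le hg
    · have h1 : s * g0 p * s⁻¹ ∈ H.normalCore := (normalCore_normal H).conj_mem _ hg s
      have e1 : s * g0 p * s⁻¹ = ψ (p.2, 0, p.1) := hψs _
      rw [e1] at h1
      have hp2 := hHJ _ (H.normalCore_le h1)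
      have h2 : s * (ψ (p.2, 0, p.1) : G) * s⁻¹ ∈ H.normalCore := (normalCore_normal H).conj_mem _ h1 s
      rw [hψs] at h2
      have hp1 := hHJ _ (H.normalCore_le h2)
      simp only at hp1 hp2
      rw [mem_bot]
      show (ψ (0, p.1, p.2) : G) = 1
      rw [hp1, hp2]; simp [ψ, zpw_zero]
    · exfalso
      obtain ⟨q, h | h⟩ := H.normalCore_le ((normalCore_normal H).conj_mem _ hg s)
      all_goals
        have e1 : s * (g0 p * t) * s⁻¹ = (ψ (p.2, 0, p.1) : G) * (s * s) * t := by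
          rw [← hψs (0, p.1, p.2)]
          show s * (g0 p * t) * s⁻¹ = s * g0 p * s⁻¹ * (s * s) * t
          calc s * (g0 p * t) * s⁻¹ = s * g0 p * (t * s⁻¹) := by simp only [mul_assoc]
            _ = s * g0 p * (s * t) := by rw [hts'']
            _ = _ := by group
        rw [e1] at h
      · apply htS
        have : t = ((ψ (p.2, 0, p.1) : G) * (s * s))⁻¹ * g0 q := by rw [← h, inv_mul_cancel_left]
        rw [this]
        exact mul_mem (inv_mem (mul_mem (hJS (ψ _).2) (mul_mem hsS hsS))) (hJS (ψ _).2)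
      · apply hsJ
        have h' := mul_right_cancel h
        have h2 : s * s = (ψ (p.2, 0, p.1) : G)⁻¹ * g0 q := by rw [← h', inv_mul_cancel_left]
        have h4 : s = (s * s) * (s * s) := by
          calc s = s * s ^ 3 := by rw [hs3, mul_one]
            _ = _ := by simp only [pow_succ, pow_zero, one_mul]; group
        rw [h4, h2]
        exact mul_mem (mul_mem (inv_mem (ψ _).2) (ψ _).2) (mul_mem (inv_mem (ψ _).2) (ψ _).2)
  let e : G ⧸ H ≃ Fin 9 := (Finite.equivFinOfCardEq hindex)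
  let ρ : G →* Equiv.Perm (Fin 9) := e.permCongrHom.toMonoidHom.comp (MulAction.toPermHom G (G ⧸ H))
  have hρ : Function.Injective ρ := e.permCongrHom.injective.comp
    ((MonoidHom.ker_eq_bot_iff _).1 ((normalCore_eq_ker H).symm.trans hcore))
  set z := (ψ (1, 1, 1) : G) with hz
  have hzc : ∀ g : G, g * z = z * g := by
    have hc1 : J ≤ centralizer {z} := fun j hj =>
      mem_centralizer_singleton_iff.2 (hJc j hj z (ψ _).2).eq
    have hc2 : s ∈ centralizer {z} := mem_centralizer_singleton_iff.2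
      (mul_inv_eq_iff_eq_mul.1 (hψs (1, 1, 1)))
    have hc3 : t ∈ centralizer {z} := mem_centralizer_singleton_iff.2 (by
      conv_rhs => rw [hz, ← hψt (1, 1, 1), mul_assoc, ht2, mul_one])
    set Cz := centralizer ({z} : Set G)
    have hd : Nat.card Cz ∣ 162 := hG ▸ card_subgroup_dvd_card Cz
    have h27 : 27 ∣ Nat.card Cz := hJcard ▸ card_dvd_of_le hc1
    have h81 : 27 < Nat.card ↥(Cz ⊓ (S : Subgroup G)) := by
      rw [← hJcard]
      exact lt_of_not_ge fun h => hsJ
        ((eq_of_le_of_card_ge (le_inf hc1 hJS) h) ▸ (⟨hc2, hsS⟩ : s ∈ Cz ⊓ (S : Subgroup G)))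
    have hne : Nat.card ↥(Cz ⊓ (S : Subgroup G)) < Nat.card Cz :=
      lt_of_not_ge fun h => htS (show t ∈ Cz ⊓ (S : Subgroup G) by
        rw [eq_of_le_of_card_ge inf_le_left h]; exact hc3).2
    obtain ⟨i, hi, hC81⟩ := (Nat.dvd_prime_pow Nat.prime_three).1
      (show Nat.card ↥(Cz ⊓ (S : Subgroup G)) ∣ 3 ^ 4 by
        have := card_dvd_of_le (inf_le_right : Cz ⊓ (S : Subgroup G) ≤ S)
        rw [hS81] at this; simpa using this)
    have hi4 : i = 4 := by
      by_contra h
      have : 3 ^ i ≤ 3 ^ 3 := Nat.pow_le_pow_right (by norm_num) (by omega)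
      omega
    rw [hC81, hi4] at hne
    have hle := Nat.le_of_dvd (by norm_num) hd
    obtain ⟨k, hk⟩ := hd
    have hk1 : k = 1 := by
      rcases Nat.lt_or_ge k 2 with h | h
      · interval_cases k <;> omega
      · nlinarith
    have htop : Cz = ⊤ := eq_top_of_card_eq _ (by rw [hG]; rw [hk1, mul_one] at hk; exact hk.symm)
    exact fun g => mem_centralizer_singleton_iff.1 (show g ∈ Cz from htop ▸ mem_top g)
  have hz3 : ρ z ^ 3 = 1 := by rw [← map_pow, hJexp z (ψ _).2, map_one]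
  have hzfix : ∀ x, ρ z x ≠ x := by
    intro x hx
    obtain ⟨g, hg⟩ := QuotientGroup.mk_surjective (e.symm x)
    have : z • (g : G ⧸ H) = (g : G ⧸ H) := by
      rw [hg]
      exact e.injective (by simpa [ρ] using hx)
    rw [MulAction.Quotient.smul_coe, smul_eq_mul, hzc g |>.symm, QuotientGroup.eq] at this
    have hmem : z⁻¹ ∈ H := by simpa [mul_assoc] using this
    exact absurd (hHJ (1, 1, 1) (inv_mem_iff.1 hmem)) one_ne_zero
  obtain ⟨h1, h2⟩ := card_centralizer_triple σ hσ hσfix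
  obtain ⟨h1', -⟩ := card_centralizer_triple (ρ z) hz3 hzfix
  obtain ⟨π, hπ⟩ := isConj_iff.1 (Equiv.Perm.isConj_iff_cycleType_eq.2 (h1'.trans h1.symm))
  let ρ' : G →* Equiv.Perm (Fin 9) := (MulAut.conj π).toMonoidHom.comp ρ
  have hρ' : Function.Injective ρ' := (MulAut.conj π).injective.comp hρ
  have hle : ρ'.range ≤ centralizer ({σ} : Set (Equiv.Perm (Fin 9))) := by
    rintro _ ⟨g, rfl⟩
    rw [mem_centralizer_singleton_iff, ← hπ]
    show ρ' g * ρ' z = ρ' z * ρ' g
    rw [← map_mul, ← map_mul, hzc g]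
  have heq : ρ'.range = centralizer ({σ} : Set (Equiv.Perm (Fin 9))) := eq_of_le_of_card_ge hle (by
    rw [h2, ← Nat.card_congr (MonoidHom.ofInjective hρ').toEquiv, hG])
  exact ⟨(MonoidHom.ofInjective hρ').trans (MulEquiv.subgroupCongr heq)⟩

end Cfsg.Agent.H17.Wreath162
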